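import Cfsg.Agent.H9.SE2
import Cfsg.Agent.FT.Main

set_option autoImplicit false
set_option linter.unusedSectionVars false
set_option maxHeartbeats 400000

/-! S3332: 2-transitivity and `w = 1` from lemma NG. -/

namespace CfsgSE

open Subgroup CfsgH5 CfsgH6 CfsgFT CfsgSZ CfsgSZ.PS

universe u

/-- the conclusion of lemma NG. -/
def NGh (G Ω : Type u) [Group G] [MulAction G Ω] : Prop :=
  ∀ (p : ℕ) (e c : Ω) (j t : G) (R : Subgroup G), p.Prime → Iv j → j • e = e → Iv t → t ≠ j →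
    t * j = j * t → c ≠ e → SylIn p R (St G c ⊓ St G (j • c)) → j ∈ N R → R ≤ St G e →
    ∀ x ∈ R, j * x * j⁻¹ = x⁻¹ → x ∈ Opc 2 (St G e)

/-- there is a four-group. -/
def Four (G : Type u) [Group G] : Prop := ∃ s t : G, Iv s ∧ Iv t ∧ s ≠ t ∧ s * t = t * s

variable {G Ω : Type u} [Group G] [Finite G] [MulAction G Ω]
  {α β γ δ ε : Ω} {X Y R T V : Subgroup G} {u s d t x y z j k g : G} {p r : ℕ}

theorem idx_inf_W (hs : s * s = 1) (h1 : s • ε = ε) (hp : p.Prime) (h2 : p ≠ 2)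
    (hR : IsPGroup p R) (h4 : s ∈ N R)
    (h : ∀ k ∈ R, s * k * s⁻¹ = k⁻¹ → k ∈ Opc 2 (St G ε)) :
    (C1 s).relIndex R ∣ (C1 s).relIndex (Opc 2 (St G ε)) := by
  have ho := pt_odd_of_isPGroup hp h2 hR
  have a : s ∈ N (Opc 2 (St G ε)) := (nrm_Opi _ _).le_N h1
  have b : s ∈ N (R ⊓ Opc 2 (St G ε)) :=
    ((nrm_zp h4).inf (nrm_zp a)).le_N (mem_zpowers s)
  have c := hR.to_le (inf_le_left (b := Opc 2 (St G ε)))
  have e : (C1 s).relIndex R = (C1 s).relIndex (R ⊓ Opc 2 (St G ε)) := by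
    rw [← pt_ncard_inv hs h4 ho, ← pt_ncard_inv hs b (pt_odd_of_isPGroup hp h2 c)]
    congr 1
    ext k
    exact ⟨fun h' => ⟨⟨h'.1, h k h'.1 h'.2⟩, h'.2⟩, fun h => ⟨h.1.1, h.2⟩⟩
  rw [e]
  exact pt_idx_dvd hs a (odd_Opc _) hp inf_le_right c b

theorem w_conj (g : G) (s : G) (α : Ω) :
    (C1 (g * s * g⁻¹)).relIndex (Opc 2 (St G (g • α))) = (C1 s).relIndex (Opc 2 (St G α)) := by
  rw [← cj_St, ← cj_C1, ← cj_Opc, relIndex_cj]

theorem w_dvd_m (s : G) (α : Ω) :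
    (C1 s).relIndex (Opc 2 (St G α)) ∣ (C1 s).relIndex (St G α) := by
  refine pt_dvd_ncard (R := Opc 2 (St G α)) _ _ (pt_ncard_class _ s) (fun g hg z hz => ?_)
    fun z hz => ?_
  · obtain ⟨w, hw, rfl⟩ := pt_mem_class.1 hz
    exact pt_mem_class.2 ⟨g * w, mul_mem (Opi_le _ _ hg) hw, by group⟩
  · obtain ⟨w, hw, rfl⟩ := pt_mem_class.1 hz
    have := w_conj w s α
    rw [show w • α = α from hw] at this
    rw [this]

namespace SE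

variable (S : SE G Ω)
include S

theorem four_at (h4 : Four G) (h : α ≠ β) (hj : Iv j) : ∃ t, Iv t ∧ t ≠ j ∧ t * j = j * t := by
  obtain ⟨s, t, a, b, c, d⟩ := h4
  obtain ⟨g, rfl⟩ := S.exists_conj h a hj
  refine ⟨g * t * g⁻¹, b.conj g, fun e => c (by simpa using e.symm), ?_⟩
  calc _ = g * (t * s) * g⁻¹ := by group
    _ = g * (s * t) * g⁻¹ := by rw [d]
    _ = _ := by group

theorem w_eq {α' : Ω} (h : α ≠ α') (hs : Iv s) (h1 : s • α = α) (hd : Iv d) (h2 : d • β = β) :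
    (C1 s).relIndex (Opc 2 (St G α)) = (C1 d).relIndex (Opc 2 (St G β)) := by
  obtain ⟨g, rfl⟩ := S.exists_conj h hs hd
  rw [← S.smul_of_conj hs h1 h2, w_conj]

theorem exists_big (h4 : Four G) (h : α ≠ β) (hs : Iv s) (h1 : s • α = α) :
    ∃ p : ℕ, p.Prime ∧ p * (C1 s).relIndex (Opc 2 (St G α)) ∣ (C1 s).relIndex (St G α) := by
  obtain ⟨q, hq⟩ := w_dvd_m s α
  have : q ≠ 1 := by
    rintro rfl
    obtain ⟨t, a, b, c⟩ := S.four_at h4 h hs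
    rw [mul_one, ← pt_ncard_class, ← pt_ncard_class] at hq
    have e := Set.eq_of_subset_of_ncard_le (s := clSupp {s} (Opc 2 (St G α)))
      (t := clSupp {s} (St G α)) (fun z hz => let ⟨w, hw, e⟩ := pt_mem_class.1 hz
        pt_mem_class.2 ⟨w, Opi_le _ _ hw, e⟩) hq.le
    obtain ⟨g, hg, e1⟩ := S.conj_D h hs a h1 (S.smul_eq hs h1 c)
    obtain ⟨w, hw, e2⟩ := pt_mem_class.1 (e.ge (pt_mem_class.2 ⟨g, hg.1, e1⟩))
    have := pt_comm_mem hs.sq ((nrm_Opi _ (St G α)).le_N h1) hw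
    rw [e2] at this
    exact (hs.mul a c b).not_mem (odd_Opc _) this
  obtain ⟨p, hp, d⟩ := Nat.exists_prime_and_dvd this
  exact ⟨p, hp, by rw [hq, mul_comm p]; exact Nat.mul_dvd_mul_left _ d⟩

variable (ng : NGh G Ω) (h4 : Four G)
include ng h4

theorem not_sconf (hp : p.Prime) (h : α ≠ β) (hs : Iv s) (h1 : s • α = α)
    (hd : p * (C1 s).relIndex (Opc 2 (St G α)) ∣ (C1 s).relIndex (St G α)) : ¬ SConf Ω p X := by
  rintro ⟨y, ε, δ, hy, a1, a2, a3, a4, a5⟩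
  have h2 : p ≠ 2 := by
    rintro rfl
    exact (Nat.not_even_iff_odd.2 (S.odd_m h hs h1))
      (even_iff_two_dvd.2 ((Dvd.intro _ rfl).trans hd))
  obtain ⟨t, b1, b2, b3⟩ := S.four_at h4 h hy
  have c := S.moves hy a1 a2
  have e := pt_not_dvd hy.sq (mem_N_D hy.sq δ) (S.odd_D c.symm) hp a3 a4
  obtain ⟨s', hs', s1⟩ := S.ev δ
  rw [S.idx_D hy c hs' s1, ← S.m_eq h hs h1 hs' s1] at e
  refine e (Dvd.dvd.trans (Nat.mul_dvd_mul_left _ ?_) hd)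
  rw [S.w_eq h hs h1 hy a1]
  exact idx_inf_W hy.sq a1 hp h2 a3.isPGroup a4 (ng p ε δ y t X hp hy a1 b1 b2 b3 a2 a3 a4 a5)

/-- Claim X. -/
theorem fix2_big (hp : p.Prime) (hs : Iv s) (h1 : s • α = α)
    (hd : p * (C1 s).relIndex (Opc 2 (St G α)) ∣ (C1 s).relIndex (St G α)) (h : γ ≠ δ)
    (hR : SylIn p R (St G γ ⊓ St G δ)) : Fix2 R γ δ := by
  obtain ⟨β, hβ⟩ : ∃ β, α ≠ β := by
    by_cases e : α = γ
    · exact ⟨δ, e ▸ h⟩
    · exact ⟨γ, e⟩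
  have h2 : p ≠ 2 := by
    rintro rfl
    exact (Nat.not_even_iff_odd.2 (S.odd_m hβ hs h1))
      (even_iff_two_dvd.2 ((Dvd.intro _ rfl).trans hd))
  refine (fix2_or_fix3 h (hR.le.trans inf_le_left) (hR.le.trans inf_le_right)).resolve_right
    fun h3 => ?_
  obtain ⟨X, -, a⟩ := S.sconf_of_fix3 hp h2 h hR h3
  exact S.not_sconf ng h4 hp hβ hs h1 hd a

/-- 2-transitivity. -/
theorem two2 (h1 : α ≠ β) (h2 : γ ≠ δ) : ∃ g : G, g • α = γ ∧ g • β = δ := by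
  obtain ⟨s, hs, s1⟩ := S.ev α
  obtain ⟨p, hp, hd⟩ := S.exists_big h4 h1 hs s1
  have p2 : p ≠ 2 := by
    rintro rfl
    exact (Nat.not_even_iff_odd.2 (S.odd_m h1 hs s1))
      (even_iff_two_dvd.2 ((Dvd.intro _ rfl).trans hd))
  obtain ⟨R, hR⟩ := exists_sylIn p (St G α ⊓ St G β)
  exact S.two_of_fix2 hp p2 hR (S.fix2_big ng h4 hp hs s1 hd h1 hR) h2

theorem two (h1 : β ≠ α) (h2 : γ ≠ α) : ∃ h ∈ St G α, h • β = γ :=
  let ⟨g, a, b⟩ := S.two2 ng h4 h1.symm h2.symm; ⟨g, a, b⟩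

theorem card_D2 (h : α ≠ β) (h' : γ ≠ δ) :
    Nat.card ↥(St G α ⊓ St G β) = Nat.card ↥(St G γ ⊓ St G δ) := by
  obtain ⟨g, rfl, rfl⟩ := S.two2 ng h4 h h'
  rw [← cj_St, ← cj_St, ← cj_inf, card_cj]

theorem syl_of_le (hr : r.Prime) (h : α ≠ β) (h' : γ ≠ δ) (hT : SylIn r T (St G α ⊓ St G β))
    (h1 : T ≤ St G γ ⊓ St G δ) : SylIn r T (St G γ ⊓ St G δ) := by
  haveI := Fact.mk hr
  obtain ⟨S', hS⟩ := exists_sylIn r (St G γ ⊓ St G δ)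
  exact hS.of_card_le h1 hT.isPGroup
    (by rw [hS.card_eq_pow hr, hT.card_eq_pow hr, S.card_D2 ng h4 h h'])

theorem full_of_syl (hr : r.Prime) (h : α ≠ β) (hT : SylIn r T (St G α ⊓ St G β))
    (h3 : Fix3 Ω T) : Full Ω r T :=
  ⟨h3, fun _ _ a b c => S.syl_of_le ng h4 hr h a hT (le_inf b c)⟩

theorem trans_C1 (hs : Iv s) (h : s • α = α) (h1 : β ≠ α) (h2 : γ ≠ α) :
    ∃ c ∈ C1 s, c • β = γ := by
  obtain ⟨g, hg, rfl⟩ := S.two ng h4 h1 h2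
  obtain ⟨k, a, b⟩ := S.conj_D h1.symm hs (hs.conj g⁻¹) h
    (mul_mem (mul_mem (inv_mem hg) (show s ∈ St G α from h)) (inv_mem (inv_mem hg)))
  refine ⟨g * k, mem_C1_iff_conj.2 ?_, by rw [mul_smul, show k • β = β from a.2]⟩
  calc _ = g * (k * s * k⁻¹) * g⁻¹ := by group
    _ = _ := by rw [b]; group

theorem exists_Op (hr : r.Prime) (h2 : r ≠ 2) (h : α ≠ β) : ∃ s : G, ∃ ε δ : Ω, Iv s ∧ s • ε = ε ∧
    δ ≠ ε ∧ ∀ x ∈ Op r (Opc 2 (St G ε)), x * s * x⁻¹ * s ∈ St G δ := by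
  have := Fact.mk hr
  have n : ∀ ε : Ω, Nrm (St G ε) (Op r (Opc 2 (St G ε))) := fun ε => (nrm_Opi _ _).Op r
  obtain ⟨T, hT⟩ := exists_sylIn r (St G α ⊓ St G β)
  rcases fix2_or_fix3 h (hT.le.trans inf_le_left) (hT.le.trans inf_le_right) with a | a
  · obtain ⟨s, hs, s1⟩ := S.ev α
    exact ⟨s, _, β, hs, s1, h.symm, fun x hx => a.r ((a.sylIn hr h2 hT).le_of_nrm le_top
      (isPGroup_Op r _) ((n _).mono a.l) (pt_comm_mem hs.sq ((n _).le_N s1) hx))⟩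
  have fl := S.full_of_syl ng h4 hr h hT a
  obtain ⟨s, ε, hs, sn, s1, t1⟩ := S.step1 hr h2 fl.maxF3
  obtain ⟨δ, hδ, t2⟩ := a.exists_ne ε
  have mv := S.moves hs s1 hδ
  have b := fl.syl δ (s • δ) mv.symm t2 (le_St_smul t2 sn)
  obtain ⟨t, b1, b2, b3⟩ := S.four_at h4 h hs
  have hW := ng r ε δ s t T hr hs s1 b1 b2 b3 hδ b sn t1
  refine ⟨s, ε, _, hs, s1, hδ, fun x hx => t2 ?_⟩
  have c := isPGroup_sup hr (isPGroup_Op r (Opc 2 (St G ε))) hT.isPGroup (.inr ((n ε).mono t1))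
  have d : s ∈ N (Op r (Opc 2 (St G ε)) ⊔ T) :=
    ((nrm_zp ((n ε).le_N s1)).sup (nrm_zp sn)).le_N (mem_zpowers s)
  have oT := pt_odd_of_isPGroup hr h2 hT.isPGroup
  have oc := pt_odd_of_isPGroup hr h2 c
  have nW : Nrm (St G ε) (Opc 2 (St G ε)) := nrm_Opi _ _
  have e := idx_inf_W hs.sq s1 hr h2 c d (fun k hk hk' => by
    obtain ⟨c', c1, c2⟩ := pt_conj_of_inv' hk' (pt_odd_mem oc hk)
    obtain ⟨o, ho, y, hy, rfl⟩ := (mem_sup_nrm' ((n ε).mono t1)).1 (zpowers_le.2 hk c1)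
    have e1 := hW _ (pt_comm_mem hs.sq sn hy) (pt_inv_comm hs.sq y)
    have o1 : o ∈ Opc 2 (St G ε) := Op_le _ _ ho
    have e2 : k = o * (y * s * y⁻¹ * s) * (s * o⁻¹ * s⁻¹) := by
      calc k = k * s * s⁻¹ := by group
        _ = o * y * s * (o * y)⁻¹ * s⁻¹ := by rw [c2]
        _ = o * (y * s * y⁻¹) * (s * s) * o⁻¹ * s⁻¹ := by rw [hs.sq]; group
        _ = _ := by group
    rw [e2]
    exact mul_mem (mul_mem o1 e1) (nW s s1 _ (inv_mem o1)))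
  have f := pt_not_dvd hs.sq (mem_N_D hs.sq δ) (S.odd_D mv.symm) hr b sn
  obtain ⟨s', hs', s1'⟩ := S.ev δ
  rw [S.idx_D hs mv hs' s1', ← S.m_eq hδ.symm hs s1 hs' s1'] at f
  have i : (C1 s).relIndex (Op r (Opc 2 (St G ε)) ⊔ T) ≤ (C1 s).relIndex T :=
    pow_le_of_not_dvd hr (pt_relIndex_pow hr c _) (pt_relIndex_pow hr hT.isPGroup _)
      (e.trans (w_dvd_m s ε)) f
  rw [← pt_ncard_inv hs.sq d oc, ← pt_ncard_inv hs.sq sn oT] at i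
  have l := Set.eq_of_subset_of_ncard_le (fun k (hk : k ∈ T ∧ s * k * s⁻¹ = k⁻¹) =>
    (⟨mem_sup_right hk.1, hk.2⟩ : k ∈ Op r (Opc 2 (St G ε)) ⊔ T ∧ s * k * s⁻¹ = k⁻¹)) i
  exact (l.ge ⟨mem_sup_left (pt_comm_mem hs.sq ((n ε).le_N s1) hx), pt_inv_comm hs.sq x⟩).1

/-- `[O_r(W), d]` acts trivially. -/
theorem Op_triv (hr : r.Prime) (hd : Iv d) (h : d • α = α) (hx : x ∈ Op r (Opc 2 (St G α)))
    (β : Ω) : (x * d * x⁻¹ * d) • β = β := by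
  have := Fact.mk hr
  have n : ∀ ε : Ω, Nrm (St G ε) (Op r (Opc 2 (St G ε))) := fun ε => (nrm_Opi _ _).Op r
  by_cases h0 : β = α
  · exact h0 ▸ (Op_le _ _).trans (Opi_le _ (St G α)) (pt_comm_mem hd.sq ((n α).le_N h) hx)
  by_cases h2 : r = 2
  · subst h2
    rw [eq_one_of_coprime_of_mem (isPGroup_Op 2 _) hx
      (Nat.coprime_two_right.2 (pt_odd_mem (odd_Opc _) (Op_le _ _ hx))), inv_one, one_mul, mul_one,
      hd.sq, one_smul]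
  obtain ⟨s, ε, δ, hs, s1, hδ, a⟩ := S.exists_Op ng h4 hr h2 h0
  obtain ⟨g, rfl⟩ := S.exists_conj h0 hs hd
  obtain rfl := S.smul_of_conj hs s1 h
  rw [← cj_St, ← cj_Opc, ← cj_Op' hr] at hx
  obtain ⟨x, hx', rfl⟩ := mem_cj'.1 hx
  obtain ⟨β, rfl⟩ : ∃ β', β = g • β' := ⟨g⁻¹ • β, (smul_inv_smul g β).symm⟩
  have f : β ≠ ε := fun e => h0 (e ▸ rfl)
  obtain ⟨c, c1, rfl⟩ := S.trans_C1 ng h4 hs s1 hδ f
  have := conj_smul (a _ (n ε c⁻¹ (inv_mem (S.C1_le hs s1 c1)) x hx')) c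
  rw [show c * (c⁻¹ * x * c⁻¹⁻¹ * s * (c⁻¹ * x * c⁻¹⁻¹)⁻¹ * s) * c⁻¹ =
    x * (c * s * c⁻¹) * x⁻¹ * (c * s * c⁻¹) by group, mem_C1_iff_conj.1 c1] at this
  have := conj_smul this g
  rwa [show g * (x * s * x⁻¹ * s) * g⁻¹ =
    g * x * g⁻¹ * (g * s * g⁻¹) * (g * x * g⁻¹)⁻¹ * (g * s * g⁻¹) by group] at this

variable (fa : ∀ g : G, (∀ β : Ω, g • β = β) → g = 1)
include fa

theorem Op_le_C1 (hr : r.Prime) (hd : Iv d) (h : d • α = α) : Op r (Opc 2 (St G α)) ≤ C1 d :=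
  fun _ hx => mem_C1_iff_conj.2
    ((eq_inv_of_mul_eq_one_left (fa _ (S.Op_triv ng h4 hr hd h hx))).trans hd.inv)

/-- `w = 1`. -/
theorem W_le (hd : Iv d) (h : d • α = α) : Opc 2 (St G α) ≤ C1 d := by
  rw [← C_zpowers]
  exact le_C_symm (le_C_of_le_C_Fit (nrm_zp ((nrm_Opi _ _).le_N h)) (cop_zpowers (odd_Opc _) hd.sq)
    (feit_thompson _ (odd_Opc _)) (le_C_symm (by
      rw [C_zpowers]; exact Fit_le_of_Op_le fun q hq => S.Op_le_C1 ng h4 fa hq hd h)))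

theorem EE_le_C_W (α : Ω) : EE G α ≤ C (Opc 2 (St G α)) :=
  EE_le_iff.2 fun _ a b => le_C1_iff.1 (S.W_le ng h4 fa a b)

/-- every prime divisor of `m` is `Fix2`. -/
theorem fix2_m (hp : p.Prime) (hs : Iv s) (h1 : s • α = α) (hd : p ∣ (C1 s).relIndex (St G α))
    (h : γ ≠ δ) (hR : SylIn p R (St G γ ⊓ St G δ)) : Fix2 R γ δ :=
  S.fix2_big ng h4 hp hs h1 (by
    rwa [relIndex_eq_one.2 (S.W_le ng h4 fa hs h1), mul_one]) h hR

end SE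

end CfsgSE
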