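import Cfsg.Agent.H4.McDC
import Cfsg.Prelude.Def_SporadicB

set_option autoImplicit false
set_option linter.unusedSectionVars false
set_option maxRecDepth 100000

/-! Local analysis for a group with an involution centralizer `2.Alt(8)`. -/

namespace CfsgMcL

open CfsgH3.TC CfsgH9 CfsgDC Subgroup Equiv

/-- the three-cycles `(i 6 7)` -/
def c3 (i : Fin 6) : alternatingGroup (Fin 8) :=
  ⟨swap (i.castAdd 2) 7 * swap (i.castAdd 2) 6, by
    rw [Perm.mem_alternatingGroup]; revert i; decide +kernel⟩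

/-- words for the double transpositions -/
def wd (x y : Fin 8) : List (Fin 6) :=
  if h : x.1 < 6 then
    if h' : y.1 < 6 then [⟨x, h⟩, ⟨y, h'⟩, ⟨y, h'⟩, ⟨x, h⟩]
    else if y = 6 then [⟨x, h⟩] else [⟨x, h⟩, ⟨x, h⟩]
  else if h' : y.1 < 6 then (if x = 6 then [⟨y, h'⟩] else [⟨y, h'⟩, ⟨y, h'⟩]) else []

theorem closure_c3 : closure (Set.range c3) = ⊤ := by
  have h1 : ∀ x y : Fin 8, x ≠ y → swap x y * swap 6 7 = ((wd x y).map c3).prod.1 := by
    decide +kernel
  have h2 : ∀ x y : Fin 8, x ≠ y → swap x y * swap 6 7 ∈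
      (closure (Set.range c3)).map (alternatingGroup (Fin 8)).subtype := fun x y h =>
    ⟨_, list_prod_mem fun _ hx => by
      obtain ⟨i, -, rfl⟩ := List.mem_map.1 hx
      exact subset_closure ⟨i, rfl⟩, (h1 x y h).symm⟩
  have h3 : alternatingGroup (Fin 8) ≤
      (closure (Set.range c3)).map (alternatingGroup (Fin 8)).subtype := by
    conv_lhs => rw [← Perm.closure_three_cycles_eq_alternating]
    rw [closure_le]
    intro f hf
    obtain ⟨x, hx⟩ : f.support.Nonempty := Finset.card_pos.1 (by rw [hf.card_support]; norm_num)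
    have h4 := Perm.mem_support.1 hx
    have := mul_mem (h2 x _ h4.symm) (inv_mem (h2 (f x) _ (f.injective.ne h4).symm))
    rwa [mul_inv_rev, swap_inv, swap_inv, mul_assoc, ← mul_assoc (swap 6 7), swap_mul_self,
      one_mul, ← (Perm.IsThreeCycle.eq_swap_mul_swap_iff_mem_support hf).2 hx] at this
  refine eq_top_iff.2 fun g _ => ?_
  obtain ⟨g', h, e⟩ := h3 g.2
  rwa [← show g' = g from Subtype.ext e]

/-- conjugating words -/
def cw (i j : Fin 6) : List (Fin 6) :=
  ![![[], [], [1, 2, 3, 1, 2], [1, 3, 2, 1, 3], [1, 4, 2, 1, 4], [1, 5, 2, 1, 5]],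
    ![[], [], [0, 1, 2, 0, 1], [0, 1, 3, 0, 1], [0, 1, 4, 0, 1], [0, 1, 5, 0, 1]],
    ![[], [], [], [0, 1, 2, 3, 0, 1], [0, 1, 2, 4, 0, 1], [0, 1, 2, 5, 0, 1]],
    ![[], [], [], [], [0, 1, 3, 4, 0, 1], [0, 1, 3, 5, 0, 1]],
    ![[], [], [], [], [], [0, 1, 4, 5, 0, 1]], ![[], [], [], [], [], []]] i j

theorem exists_gens {C : Type*} [Group C] [Finite C] {t : C} (ht : t ≠ 1)
    (hz : t ∈ center C) (h : Cfsg.IsNonsplitDoubleCover C (alternatingGroup (Fin 8))) :
    Nat.card C = 40320 ∧ ∃ val : ℕ → C, val 0 = 1 ∧ val 1 = t ∧ RelsHold val R7 ∧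
      gcl val 7 = ⊤ := by
  obtain ⟨h1, ⟨e⟩, h2⟩ := h
  let π : C →* alternatingGroup (Fin 8) := e.toMonoidHom.comp (QuotientGroup.mk' _)
  have hs : Function.Surjective π := e.surjective.comp (QuotientGroup.mk'_surjective _)
  have hk : ∀ x, π x = 1 ↔ x ∈ center C := fun x => by
    simp [π]
  have hA : Nat.card (alternatingGroup (Fin 8)) = 20160 := by
    rw [nat_card_alternatingGroup, Nat.card_eq_fintype_card, Fintype.card_fin]; rfl
  have hc : Nat.card C = 40320 := by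
    rw [card_eq_card_quotient_mul_card_subgroup (center C), h1, Nat.card_congr e.toEquiv, hA]
  have hZ : ∀ x, π x = 1 → x = 1 ∨ x = t := fun x hx => by
    obtain ⟨y, -, hy⟩ := (Nat.card_eq_two_iff' (1 : center C)).1 h1
    by_contra h3
    rw [not_or] at h3
    exact h3.2 (congrArg Subtype.val ((hy ⟨x, (hk x).1 hx⟩ fun e => h3.1 (congrArg Subtype.val e)).trans
      (hy ⟨t, hz⟩ fun e => ht (congrArg Subtype.val e)).symm))
  have hc1 : ∀ g, Commute g t := mem_center_iff.1 hz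
  have htt : t * t = 1 := (hZ _ ((hk _).2 (mul_mem hz hz))).resolve_right (by simpa using ht)
  have ht3 : t ^ 3 = t := by rw [pow_succ, pow_two, htt, one_mul]
  have hv : ∀ i, ∃ v, π v = c3 i ∧ v ^ 3 = 1 := fun i => by
    obtain ⟨x, hx⟩ := hs (c3 i)
    rcases hZ (x ^ 3) (by rw [map_pow, hx]; clear hx; revert i; decide +kernel) with h3 | h3
    · exact ⟨x, hx, h3⟩
    · exact ⟨x * t, by rw [map_mul, (hk t).2 hz, mul_one, hx],
        by rw [(hc1 x).mul_pow, h3, ht3, htt]⟩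
  choose v hv1 hv2 using hv
  have hu : ∀ x i, π x = c3 i → x ^ 3 = 1 → x = v i := fun x i h3 h4 => by
    rcases hZ ((v i)⁻¹ * x) (by rw [map_mul, map_inv, h3, hv1, inv_mul_cancel]) with h5 | h5
    · exact (inv_mul_eq_one.1 h5).symm
    · rw [inv_mul_eq_iff_eq_mul.1 h5, (hc1 _).mul_pow, hv2, ht3, one_mul] at h4
      exact absurd h4 ht
  have h3 := hZ ((v 0 * v 1) ^ 2) (by rw [map_pow, map_mul, hv1, hv1]; decide +kernel)
  generalize hε : (v 0 * v 1) ^ 2 = ε at h3
  have hε1 : ∀ g, Commute g ε := fun g => by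
    rcases h3 with rfl | rfl
    exacts [Commute.one_right g, hc1 g]
  have hε2 : ε * ε = 1 := by
    rcases h3 with rfl | rfl
    exacts [mul_one 1, htt]
  have h4 : ∀ i j, i < j → (v i * v j) ^ 2 = ε := fun i j hij => by
    have h5 : ∀ i j, i < j → ((cw i j).map c3).prod * c3 0 * (((cw i j).map c3).prod)⁻¹ = c3 i ∧
      ((cw i j).map c3).prod * c3 1 * (((cw i j).map c3).prod)⁻¹ = c3 j := by decide +kernel
    obtain ⟨s, hs⟩ := hs ((cw i j).map c3).prod
    rw [← hu (s * v 0 * s⁻¹) i (by simp only [map_mul, map_inv, hs, hv1, (h5 i j hij).1])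
        (by rw [conj_pow, hv2]; simp),
      ← hu (s * v 1 * s⁻¹) j (by simp only [map_mul, map_inv, hs, hv1, (h5 i j hij).2])
        (by rw [conj_pow, hv2]; simp), conj_mul, conj_pow, hε, (hε1 s).eq, mul_inv_cancel_right]
  let val := lv [ε, v 0, v 1, v 2, v 3, v 4, v 5]
  have hR : RelsHold val R7 := by
    have a1 : ∀ i, v i * (v i * v i) = 1 := fun i => by rw [← hv2 i, pow_succ', pow_two]
    have a2 : ∀ i, ε * (v i * (ε⁻¹ * (v i)⁻¹)) = 1 := fun i => by
      rw [← mul_assoc, ← (hε1 _).eq]; group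
    have a3 : ∀ i j, i < j → v i * (v j * (v i * (v j * ε⁻¹))) = 1 := fun i j hij => by
      rw [← h4 i j hij, pow_two]; group
    simp only [RelsHold, R7, List.mem_cons, List.not_mem_nil, or_false, forall_eq_or_imp, forall_eq,
      wval_cons, wval_nil, mul_one, sval]
    simp [val, lv, a1, a2, a3, hε2]
  have hm : (gcl val 7).map π = ⊤ := by
    rw [eq_top_iff, ← closure_c3, closure_le]
    rintro _ ⟨i, rfl⟩
    refine ⟨v i, ?_, hv1 i⟩
    fin_cases i
    exacts [mem_gcl (a := 2) (by norm_num) (by norm_num), mem_gcl (a := 3) (by norm_num) (by norm_num),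
      mem_gcl (a := 4) (by norm_num) (by norm_num), mem_gcl (a := 5) (by norm_num) (by norm_num),
      mem_gcl (a := 6) (by norm_num) (by norm_num), mem_gcl (a := 7) (by norm_num) (by norm_num)]
  rcases h3 with rfl | rfl
  · exfalso
    have h5 := (bd7 rfl hR (N := 1) (gcl_one val ▸ CfsgH8.finite_zpowers_le one_pos (pow_one _))).2
    have h6 : Function.Surjective (π.comp (gcl val 7).subtype) := by
      rwa [← MonoidHom.range_eq_top, MonoidHom.range_comp, range_subtype]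
    have h7 := Nat.card_le_card_of_surjective _ h6
    have h8 := ((Nat.bijective_iff_surjective_and_card _).2 ⟨h6, by omega⟩).1
    refine h2 (gcl val 7) (isComplement'_of_card_mul_and_disjoint (by rw [h1]; omega)
      (disjoint_def.2 fun {x} hx hx' => ?_))
    exact congrArg Subtype.val ((map_eq_one_iff _ h8 (x := ⟨x, hx'⟩)).1 ((hk x).2 hx))
  · refine ⟨hc, val, rfl, rfl, hR, eq_top_iff.2 fun g _ => ?_⟩
    obtain ⟨x, hx, e⟩ : π g ∈ (gcl val 7).map π := hm ▸ mem_top _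
    rcases hZ (x⁻¹ * g) (by rw [map_mul, map_inv, e, inv_mul_cancel]) with h5 | h5
    · rwa [← inv_mul_eq_one.1 h5]
    · rw [inv_mul_eq_iff_eq_mul.1 h5]
      exact mul_mem hx (mem_gcl (a := 1) le_rfl (by norm_num))

attribute [local irreducible] NT.get Model.wcode MM

variable {G : Type*} [Group G] {val : ℕ → G} {ψ : P8 →* G}

theorem exists_wm7 (h0 : val 0 = 1) (hR : RelsHold val R7) : ∃ ψ, WM MM lT lval 8 7 val ψ :=
  exists_wm ltab (by norm_num) lval0 h0
    (bd7' (Prod.ext (subVal_zero _ _) h0) ((lrels.subVal lval0 (by decide)).prod hR)) card_P8.ge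

/-- The centralizer of the involution is the image of the model. -/
structure Set8 (val : ℕ → G) (ψ : P8 →* G) : Prop where
  wm : WM MM lT lval 8 7 val ψ
  inj : Function.Injective ψ
  rng : ψ.range = centralizer {val 1}

theorem exists_set8 [Finite G] {t : G} (ht : t ≠ 1)
    (h : Cfsg.IsNonsplitDoubleCover (centralizer ({t} : Set G)) (alternatingGroup (Fin 8))) :
    ∃ val ψ, val 1 = t ∧ RelsHold val R7 ∧ Set8 val ψ := by
  obtain ⟨h1, val, h2, h3, h4, h5⟩ := exists_gens (t := ⟨t, mem_centralizer_singleton_iff.2 rfl⟩)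
    (fun e => ht (congrArg Subtype.val e))
    (mem_center_iff.2 fun g => Subtype.ext (mem_centralizer_singleton_iff.1 g.2)) h
  have h6 := h4.map (centralizer ({t} : Set G)).subtype
  have h7 := map_gcl (centralizer ({t} : Set G)).subtype val 7
  rw [h5, ← MonoidHom.range_eq_map, range_subtype] at h7
  obtain ⟨ψ, hψ⟩ := exists_wm7 (by simp [h2]) h6
  have h8 : (centralizer ({t} : Set G)).subtype (val 1) = t := by rw [h3]; rfl
  exact ⟨_, ψ, h8, h6, hψ, hψ.injective (by rw [← h7, h1, card_P8]), by rw [hψ.range, ← h7, h8]⟩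

noncomputable def hA : NT := (.node (.node (.node (.node (.node (.node (.node (.node (.leaf (nat_lit 0)) (.leaf (nat_lit 0))) (.leaf (nat_lit 26))) (.node (.node (.leaf (nat_lit 0)) (.leaf (nat_lit 0))) (.leaf (nat_lit 0)))) (.node (.node (.node (.leaf (nat_lit 7)) (.leaf (nat_lit 0))) (.leaf (nat_lit 19))) (.node (.node (.leaf (nat_lit 0)) (.leaf (nat_lit 0))) (.leaf (nat_lit 0))))) (.node (.node (.node (.node (.leaf (nat_lit 0)) (.leaf (nat_lit 0))) (.leaf (nat_lit 0))) (.node (.node (.leaf (nat_lit 0)) (.leaf (nat_lit 0))) (.leaf (nat_lit 0)))) (.node (.node (.node (.leaf (nat_lit 15)) (.leaf (nat_lit 0))) (.leaf (nat_lit 0))) (.node (.node (.leaf (nat_lit 0)) (.leaf (nat_lit 0))) (.leaf (nat_lit 0)))))) (.node (.node (.node (.node (.node (.leaf (nat_lit 0)) (.leaf (nat_lit 0))) (.leaf (nat_lit 0))) (.node (.node (.leaf (nat_lit 0)) (.leaf (nat_lit 0))) (.leaf (nat_lit 0)))) (.node (.node (.node (.leaf (nat_lit 0)) (.leaf (nat_lit 0)))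 (.leaf (nat_lit 0))) (.node (.node (.leaf (nat_lit 0)) (.leaf (nat_lit 0))) (.leaf (nat_lit 0))))) (.node (.node (.node (.node (.leaf (nat_lit 7)) (.leaf (nat_lit 0))) (.leaf (nat_lit 0))) (.node (.node (.leaf (nat_lit 0)) (.leaf (nat_lit 0))) (.leaf (nat_lit 0)))) (.node (.node (.node (.leaf (nat_lit 0)) (.leaf (nat_lit 0))) (.leaf (nat_lit 0))) (.node (.node (.leaf (nat_lit 0)) (.leaf (nat_lit 0))) (.leaf (nat_lit 0))))))) (.node (.node (.node (.node (.node (.node (.leaf (nat_lit 0)) (.leaf (nat_lit 0))) (.leaf (nat_lit 0))) (.node (.node (.leaf (nat_lit 0)) (.leaf (nat_lit 0))) (.leaf (nat_lit 0)))) (.node (.node (.node (.leaf (nat_lit 2)) (.leaf (nat_lit 0))) (.leaf (nat_lit 0))) (.node (.node (.leaf (nat_lit 0)) (.leaf (nat_lit 0))) (.leaf (nat_lit 0))))) (.node (.node (.node (.node (.leaf (nat_lit 0)) (.leaf (nat_lit 45))) (.leaf (nat_lit 0))) (.node (.node (.leaf (nat_lit 0)) (.leaf (nat_lit 0))) (.leaf (nat_lit 0)))) (.node (.node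 (.node (.leaf (nat_lit 0)) (.leaf (nat_lit 0))) (.leaf (nat_lit 0))) (.node (.node (.leaf (nat_lit 0)) (.leaf (nat_lit 0))) (.leaf (nat_lit 0)))))) (.node (.node (.node (.node (.node (.leaf (nat_lit 15)) (.leaf (nat_lit 0))) (.leaf (nat_lit 0))) (.node (.node (.leaf (nat_lit 0)) (.leaf (nat_lit 0))) (.leaf (nat_lit 0)))) (.node (.node (.node (.leaf (nat_lit 0)) (.leaf (nat_lit 0))) (.leaf (nat_lit 0))) (.node (.node (.leaf (nat_lit 0)) (.leaf (nat_lit 0))) (.leaf (nat_lit 0))))) (.node (.node (.node (.node (.leaf (nat_lit 0)) (.leaf (nat_lit 0))) (.leaf (nat_lit 0))) (.node (.node (.leaf (nat_lit 0)) (.leaf (nat_lit 0))) (.leaf (nat_lit 0)))) (.node (.node (.node (.leaf (nat_lit 0)) (.leaf (nat_lit 0))) (.leaf (nat_lit 0))) (.node (.node (.leaf (nat_lit 45)) (.leaf (nat_lit 0))) (.leaf (nat_lit 39)))))))) (.node (.node (.node (.node (.node (.node (.node (.leaf (nat_lit 0)) (.leaf (nat_lit 10))) (.leaf (nat_lit 0))) (.node (.node (.leaf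 (nat_lit 3)) (.leaf (nat_lit 0))) (.leaf (nat_lit 0)))) (.node (.node (.node (.leaf (nat_lit 0)) (.leaf (nat_lit 0))) (.leaf (nat_lit 0))) (.node (.node (.leaf (nat_lit 0)) (.leaf (nat_lit 0))) (.leaf (nat_lit 0))))) (.node (.node (.node (.node (.leaf (nat_lit 6)) (.leaf (nat_lit 32))) (.leaf (nat_lit 64))) (.node (.node (.leaf (nat_lit 0)) (.leaf (nat_lit 0))) (.leaf (nat_lit 0)))) (.node (.node (.node (.leaf (nat_lit 2)) (.leaf (nat_lit 0))) (.leaf (nat_lit 0))) (.node (.node (.leaf (nat_lit 0)) (.leaf (nat_lit 51))) (.leaf (nat_lit 0)))))) (.node (.node (.node (.node (.node (.leaf (nat_lit 0)) (.leaf (nat_lit 0))) (.leaf (nat_lit 0))) (.node (.node (.leaf (nat_lit 0)) (.leaf (nat_lit 0))) (.leaf (nat_lit 10)))) (.node (.node (.node (.leaf (nat_lit 3)) (.leaf (nat_lit 0))) (.leaf (nat_lit 0))) (.node (.node (.leaf (nat_lit 0)) (.leaf (nat_lit 0))) (.leaf (nat_lit 26))))) (.node (.node (.node (.node (.leaf (nat_lit 0)) (.leaf (nat_lit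 0))) (.leaf (nat_lit 0))) (.node (.node (.leaf (nat_lit 0)) (.leaf (nat_lit 0))) (.leaf (nat_lit 0)))) (.node (.node (.node (.leaf (nat_lit 0)) (.leaf (nat_lit 0))) (.leaf (nat_lit 0))) (.node (.node (.leaf (nat_lit 56)) (.leaf (nat_lit 0))) (.leaf (nat_lit 56))))))) (.node (.node (.node (.node (.node (.node (.leaf (nat_lit 0)) (.leaf (nat_lit 0))) (.leaf (nat_lit 0))) (.node (.node (.leaf (nat_lit 0)) (.leaf (nat_lit 0))) (.leaf (nat_lit 0)))) (.node (.node (.node (.leaf (nat_lit 0)) (.leaf (nat_lit 0))) (.leaf (nat_lit 0))) (.node (.node (.leaf (nat_lit 0)) (.leaf (nat_lit 0))) (.leaf (nat_lit 0))))) (.node (.node (.node (.node (.leaf (nat_lit 0)) (.leaf (nat_lit 0))) (.leaf (nat_lit 0))) (.node (.node (.leaf (nat_lit 0)) (.leaf (nat_lit 0))) (.leaf (nat_lit 0)))) (.node (.node (.node (.leaf (nat_lit 0)) (.leaf (nat_lit 0))) (.leaf (nat_lit 0))) (.node (.node (.leaf (nat_lit 0)) (.leaf (nat_lit 0))) (.leaf (nat_lit 0)))))) (.node (.node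 (.node (.node (.node (.leaf (nat_lit 16)) (.leaf (nat_lit 0))) (.leaf (nat_lit 0))) (.node (.node (.leaf (nat_lit 0)) (.leaf (nat_lit 51))) (.leaf (nat_lit 0)))) (.node (.node (.node (.leaf (nat_lit 0)) (.leaf (nat_lit 0))) (.leaf (nat_lit 19))) (.node (.node (.leaf (nat_lit 39)) (.leaf (nat_lit 0))) (.leaf (nat_lit 0))))) (.node (.node (.node (.node (.leaf (nat_lit 6)) (.leaf (nat_lit 64))) (.leaf (nat_lit 32))) (.node (.node (.leaf (nat_lit 0)) (.leaf (nat_lit 0))) (.leaf (nat_lit 0)))) (.node (.node (.node (.leaf (nat_lit 16)) (.leaf (nat_lit 0))) (.leaf (nat_lit 0))) (.node (.node (.leaf (nat_lit 0)) (.leaf (nat_lit 0))) (.leaf (nat_lit 0)))))))))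

namespace Set8

variable (h : Set8 val ψ)
include h

local notation "T" => val 1
local notation "U" => wval val wU
local notation "A" => wval val wA
local notation "W" => wval val wW
local notation "X" => wval val wX
local notation "Y" => wval val wY
local notation "S" => wval val wS

theorem mem {g : G} (hg : g * T = T * g) : g ∈ ψ.range :=
  h.rng ▸ mem_centralizer_singleton_iff.2 hg

theorem comm {g : G} {c : ℕ} (hg : Rep MM ψ g c) : g * T = T * g :=
  mem_centralizer_singleton_iff.1 (h.rng ▸ hg.mem)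

theorem rep (w : List ℕ) (hw : ∀ c ∈ w, c < 2 * 7 + 2 := by decide) :
    Rep MM ψ (wval val w) (MM.wcode lT w) := h.wm.rep w hw

theorem tt : T * T = 1 := (repT h.wm).of_o2 (by decide +kernel)

theorem uu : U * U = 1 := (h.rep wU).of_o2 (by decide +kernel)

theorem ut : U * T = T * U := h.comm (h.rep wU)

theorem t_ne : T ≠ 1 := (repT h.wm).ne h.inj Rep.one (by decide +kernel)

theorem u_ne : U ≠ 1 := (h.rep wU).ne h.inj Rep.one (by decide +kernel)

theorem u_ne_t : U ≠ T := (h.rep wU).ne h.inj (repT h.wm) (by decide +kernel)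

theorem invol {g : G} (h1 : g * T = T * g) (h2 : g * g = 1) :
    g = 1 ∨ g = T ∨ ∃ k, k * T = T * k ∧ k * U * k⁻¹ = g := by
  obtain ⟨x, rfl⟩ := h.mem h1
  obtain ⟨u, e1, e2⟩ := h.rep wU
  have h3 : u.1 = wval lval wU := MM.enc_inj (e2.trans (ltab.enc_wval (by decide)).symm)
  rw [← map_mul, map_eq_one_iff _ h.inj] at h2
  rcases CfsgMcL.invol x.2 (congrArg Subtype.val h2) with h4 | h4 | ⟨k, hk, h4⟩
  · exact Or.inl (by rw [show x = 1 from Subtype.ext h4, map_one])
  · refine Or.inr (Or.inl ?_)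
    rw [← h.wm.hv 1 le_rfl (by norm_num)]
    exact congrArg ψ (Subtype.ext (h4.trans (coe_subVal le_rfl (by norm_num)).symm))
  · refine Or.inr (Or.inr ⟨ψ ⟨k, hk⟩, h.comm ⟨_, rfl, rfl⟩, ?_⟩)
    rw [← e1, ← map_inv, ← map_mul, ← map_mul]
    rw [← h3] at h4
    exact congrArg ψ (Subtype.ext h4)

theorem repB' {b : ℕ} (hb : b < 192) : ∃ k, Rep MM ψ k (tB.get b) ∧ k * U = U * k := by
  obtain ⟨x, hx, e⟩ := tB_mem b hb
  obtain ⟨u, e1, e2⟩ := h.rep wU
  have h3 : u.1 = wval lval wU := MM.enc_inj (e2.trans (ltab.enc_wval (by decide)).symm)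
  refine ⟨ψ ⟨x, Q8_le hx⟩, ⟨_, rfl, e⟩, ?_⟩
  rw [← e1, ← map_mul, ← map_mul]
  have h4 := mem_centralizer_singleton_iff.1 (Q8_cent hx)
  rw [← h3] at h4
  exact congrArg ψ (Subtype.ext h4)

end Set8

/-- `g` permutes the involutions of the four-group cyclically. -/
def Rot (val : ℕ → G) (g : G) : Prop :=
  g * val 1 * g⁻¹ = wval val wU ∧ g * wval val wU * g⁻¹ = wval val wU * val 1

namespace Set8

variable (h : Set8 val ψ)
include h

local notation "T" => val 1
local notation "U" => wval val wU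
local notation "A" => wval val wA
local notation "W" => wval val wW
local notation "X" => wval val wX
local notation "Y" => wval val wY
local notation "S" => wval val wS

theorem rot3 {g : G} (hg : Rot val g) : g * (U * T) * g⁻¹ = T := by
  rw [← conj_mul, hg.1, hg.2, mul_assoc, ← h.ut, ← mul_assoc, h.uu, one_mul]

theorem rot_mul {g k : G} (hg : Rot val g) (h1 : k * T = T * k) (h2 : k * U = U * k) :
    Rot val (k * g) := by
  constructor
  · calc _ = k * (g * T * g⁻¹) * k⁻¹ := by group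
      _ = _ := by rw [hg.1, h2, mul_inv_cancel_right]
  · calc _ = k * (g * U * g⁻¹) * k⁻¹ := by group
      _ = _ := by rw [hg.2, ← mul_assoc, h2, mul_assoc U, h1, ← mul_assoc, mul_inv_cancel_right]

theorem rot_four {g : G} (hg : Rot val g) : Rot val (g * (g * (g * g))) := by
  constructor
  · calc _ = g * (g * (g * (g * T * g⁻¹) * g⁻¹) * g⁻¹) * g⁻¹ := by group
      _ = _ := by rw [hg.1, hg.2, h.rot3 hg, hg.1]
  · calc _ = g * (g * (g * (g * U * g⁻¹) * g⁻¹) * g⁻¹) * g⁻¹ := by group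
      _ = _ := by rw [hg.2, h.rot3 hg, hg.1, hg.2]

theorem rot_rep {g x : G} {c : ℕ} (hg : Rot val g) (h1 : Rep MM ψ x c) (h2 : x * U = U * x) :
    ∃ b, b < 192 ∧ Rep MM ψ (g * x * g⁻¹) (tB.get b) := by
  refine repB h.wm h.inj (fun _ => h.mem) ?_ ?_
  · rw [← h.rot3 hg, conj_mul, conj_mul, ← mul_assoc x, h2, mul_assoc U, h.comm h1, mul_assoc U]
  · rw [← hg.1, conj_mul, conj_mul, h.comm h1]

theorem exists_rot {g : G} (h1 : Commute T (g * T * g⁻¹)) (h2 : g * T * g⁻¹ ≠ T) :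
    ∃ y, Rot val y := by
  have key : ∀ g, Commute T (g * T * g⁻¹) → g * T * g⁻¹ ≠ T →
      ∃ k, k * T = T * k ∧ k * U * k⁻¹ = g * T * g⁻¹ := fun g h1 h2 =>
    ((h.invol h1.symm.eq (by rw [conj_mul, h.tt]; simp)).resolve_left
      (by simpa using h.t_ne)).resolve_left h2
  obtain ⟨k, -, h3⟩ := key g h1 h2
  have h4 : k⁻¹ * g * T * (k⁻¹ * g)⁻¹ = U := by
    rw [← mul_left_inj k⁻¹, ← mul_right_inj k, ← mul_assoc k U, h3]; group
  generalize k⁻¹ * g = g0 at h4
  obtain ⟨c, h5, h6⟩ := key g0⁻¹ (by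
    have : Commute (g0⁻¹ * U * g0⁻¹⁻¹) (g0⁻¹ * T * g0⁻¹⁻¹) := by
      rw [Commute, SemiconjBy, conj_mul, conj_mul, h.ut]
    rwa [← h4, show g0⁻¹ * (g0 * T * g0⁻¹) * g0⁻¹⁻¹ = T by group] at this) (fun e => h.u_ne_t (by
      rw [← h4]
      conv_lhs => rw [← e]
      group))
  have a1 : g0 * c * T * (g0 * c)⁻¹ = U := by
    rw [mul_assoc g0, h5, ← h4]; group
  have a2 : g0 * c * U * (g0 * c)⁻¹ = T :=
    calc _ = g0 * (c * U * c⁻¹) * g0⁻¹ := by group
      _ = _ := by rw [h6]; group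
  have a3 : S * U * S⁻¹ = U * T :=
    (repS h.wm).conj (h.rep wU) ((h.rep wU).mul (repT h.wm)) (by decide +kernel)
  generalize g0 * c = g1 at a1 a2
  refine ⟨g1 * S, ?_, ?_⟩
  · rw [mul_assoc g1, h.comm (repS h.wm), ← a1]; group
  · calc _ = g1 * (S * U * S⁻¹) * g1⁻¹ := by group
      _ = _ := by rw [a3, ← conj_mul, a1, a2, h.ut]

theorem stageA {g : G} (hg : Rot val g) : ∃ y, Rot val y ∧ y * A * y⁻¹ = A := by
  obtain ⟨b, hb, e⟩ := h.rot_rep hg (h.rep wA) ((h.rep wA).comm (h.rep wU) (by decide +kernel))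
  have h1 : allLt 192 (fun b => bimp (MM.o3 (tB.get b)) (bor (Nat.beq (tB.get b) MM.one)
      (band (Nat.ble (Nat.succ (hA.get b)) 192)
        (bor (Nat.beq (MM.mul (tB.get (hA.get b)) (tB.get b))
          (MM.mul (MM.wcode lT wA) (tB.get (hA.get b))))
        (Nat.beq (MM.mul (tB.get (hA.get b)) (tB.get b))
          (MM.mul (MM.wcode lT (invW wA)) (tB.get (hA.get b)))))))) = true := by decide +kernel
  have h2 : A ^ 3 = 1 := (h.rep wA).of_o3 (by decide +kernel)
  rcases bor_iff.1 (bimp_iff.1 (allLt_iff.1 h1 b hb) (e.o3 h.inj (by rw [conj_pow, h2]; simp)))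
    with h3 | h3
  · exact absurd (by simpa using e.eq' Rep.one h3)
      ((h.rep wA).ne h.inj Rep.one (by decide +kernel))
  obtain ⟨h3, h4⟩ := band_iff.1 h3
  obtain ⟨k, hk, h5⟩ := h.repB' (Nat.le_of_ble_eq_true h3)
  have h6 := h.rot_mul hg (h.comm hk) h5
  have h7 : k * g * A * (k * g)⁻¹ = k * (g * A * g⁻¹) * k⁻¹ := by group
  rcases bor_iff.1 h4 with h4 | h4
  · exact ⟨_, h6, h7.trans (hk.conj e (h.rep wA) h4)⟩
  · replace h7 := h7.trans (hk.conj e (rep_inv h.wm wA (by decide)) h4)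
    refine ⟨_, h.rot_four h6, ?_⟩
    generalize k * g = z at h7
    have h8 : z * A⁻¹ * z⁻¹ = A := by rw [← conj_inv, h7, inv_inv]
    calc _ = z * (z * (z * (z * A * z⁻¹) * z⁻¹) * z⁻¹) * z⁻¹ := by group
      _ = _ := by rw [h7, h8, h7, h8]

end Set8

/-- conjugation by the element of order three -/
noncomputable def cA (x : ℕ) : ℕ := MM.mul (MM.mul (MM.wcode lT wA) x) (MM.wcode lT (invW wA))

noncomputable def pF (x : ℕ) : Bool :=
  band (MM.o2 x) (Nat.beq (MM.mul (MM.mul x (cA x)) (cA (cA x))) MM.one)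

noncomputable def kF (k x z : ℕ) : Bool :=
  band (Nat.beq (MM.mul k x) (MM.mul (MM.wcode lT wW) k))
    (Nat.beq (MM.mul k z) (MM.mul (MM.wcode lT wX) k))

theorem chkB : allLt 192 (fun b => bimp (pF (tB.get b)) (allLt 192 fun b' => bimp (pF (tB.get b'))
    (bimp (Nat.beq (MM.mul (MM.mul (tB.get b) (tB.get b')) (MM.mul (tB.get b) (tB.get b')))
      (MM.wcode lT [2]))
    (bimp (Nat.beq (MM.mul (MM.mul (tB.get b) (cA (tB.get b'))) (MM.mul (tB.get b) (cA (tB.get b'))))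
      (MM.wcode lT wU))
    (bor (kF MM.one (tB.get b) (tB.get b')) (bor (kF (MM.wcode lT wA) (tB.get b) (tB.get b'))
      (kF (MM.wcode lT (invW wA)) (tB.get b) (tB.get b')))))))) = true := by decide +kernel

theorem chkC : allLt 192 (fun b => bimp (MM.cm (tB.get b) (MM.wcode lT wA))
    (bimp (MM.cm (tB.get b) (MM.wcode lT wW)) (bimp (MM.cm (tB.get b) (MM.wcode lT wX))
      (bor (Nat.beq (tB.get b) MM.one) (bor (Nat.beq (tB.get b) (MM.wcode lT [2]))
        (bor (Nat.beq (tB.get b) (MM.wcode lT wU))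
          (Nat.beq (tB.get b) (MM.mul (MM.wcode lT wU) (MM.wcode lT [2]))))))))) = true := by
  decide +kernel

namespace Set8

variable (h : Set8 val ψ)
include h

local notation "T" => val 1
local notation "U" => wval val wU
local notation "A" => wval val wA
local notation "W" => wval val wW
local notation "X" => wval val wX
local notation "Y" => wval val wY
local notation "S" => wval val wS

theorem rep_cA {x : G} {c : ℕ} (hx : Rep MM ψ x c) : Rep MM ψ (A * x * A⁻¹) (cA c) :=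
  ((h.rep wA).mul hx).mul (rep_inv h.wm wA (by decide))

theorem pF_iff {x : G} {c : ℕ} (hx : Rep MM ψ x c) :
    pF c = true ↔ x * x = 1 ∧ x * (A * x * A⁻¹) * (A * (A * x * A⁻¹) * A⁻¹) = 1 := by
  have := (hx.mul (h.rep_cA hx)).mul (h.rep_cA (h.rep_cA hx))
  rw [pF, band_iff]
  exact ⟨fun e => ⟨hx.of_o2 e.1, this.eq' Rep.one e.2⟩,
    fun e => ⟨hx.o2 h.inj e.1, this.beq h.inj Rep.one e.2⟩⟩

theorem stageB {g : G} (hg : Rot val g) (ha : g * A * g⁻¹ = A) : ∃ y, Rot val y ∧ YR0 val y := by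
  obtain ⟨b, hb, e⟩ := h.rot_rep hg (h.rep wW) ((h.rep wW).comm (h.rep wU) (by decide +kernel))
  obtain ⟨b', hb', e'⟩ := h.rot_rep hg (h.rep wY) ((h.rep wY).comm (h.rep wU) (by decide +kernel))
  have h1 : ∀ x, A * (g * x * g⁻¹) * A⁻¹ = g * (A * x * A⁻¹) * g⁻¹ := fun x => by
    conv_lhs => rw [← ha]
    group
  have h2 : ∀ {x : G} {c c' : ℕ}, Rep MM ψ x c → Rep MM ψ (g * x * g⁻¹) c' → pF c = true →
      pF c' = true := fun a1 a2 a3 => by
    rw [h.pF_iff a1] at a3
    rw [h.pF_iff a2, h1, h1, conj_mul, conj_mul, conj_mul, a3.1, a3.2]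
    simp
  have h3 : W * Y * (W * Y) = U * T := (((h.rep wW).mul (h.rep wY)).mul
    ((h.rep wW).mul (h.rep wY))).eq' ((h.rep wU).mul (repT h.wm)) (by decide +kernel)
  have h4 : W * (A * Y * A⁻¹) * (W * (A * Y * A⁻¹)) = T := (((h.rep wW).mul (h.rep_cA (h.rep wY))).mul
    ((h.rep wW).mul (h.rep_cA (h.rep wY)))).eq' (repT h.wm) (by decide +kernel)
  have h5 := bimp_iff.1 (bimp_iff.1 (bimp_iff.1 (allLt_iff.1 (bimp_iff.1 (allLt_iff.1 chkB b hb)
    (h2 (h.rep wW) e (by decide +kernel))) b' hb') (h2 (h.rep wY) e' (by decide +kernel)))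
    (((e.mul e').mul (e.mul e')).beq h.inj (repT h.wm) (by
      rw [conj_mul, conj_mul, h3, h.rot3 hg])))
    (((e.mul (h.rep_cA e')).mul (e.mul (h.rep_cA e'))).beq h.inj (h.rep wU) (by
      rw [h1, conj_mul, conj_mul, h4, hg.1]))
  have key : ∀ {k : G} {c : ℕ}, Rep MM ψ k c → k * U = U * k → k * A = A * k →
      kF c (tB.get b) (tB.get b') = true → ∃ y, Rot val y ∧ YR0 val y := by
    intro k c a1 a2 a3 a4
    rw [kF, band_iff] at a4
    have a5 := h.rot_mul hg (h.comm a1) a2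
    have a6 : ∀ {x z : G}, k * (g * x * g⁻¹) * k⁻¹ = z → z * (k * g) = k * g * x := by
      rintro x _ rfl
      group
    exact ⟨_, a5, a6 (by rw [ha, a3, mul_inv_cancel_right]), a6 (a1.conj e (h.rep wW) a4.1),
      a6 (a1.conj e' (h.rep wX) a4.2), by rw [← a5.1, inv_mul_cancel_right]⟩
  have hau : A * U = U * A := (h.rep wA).comm (h.rep wU) (by decide +kernel)
  rcases bor_iff.1 h5 with h5 | h5
  · exact key Rep.one (by simp) (by simp) h5
  rcases bor_iff.1 h5 with h5 | h5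
  · exact key (h.rep wA) hau rfl h5
  · exact key (rep_inv h.wm wA (by decide)) (Commute.inv_left hau) (by simp) h5

theorem center {g : G} (h1 : g * T = T * g) (h2 : g * U = U * g) (h3 : g * A = A * g)
    (h4 : g * W = W * g) (h5 : g * X = X * g) : g = 1 ∨ g = T ∨ g = U ∨ g = U * T := by
  obtain ⟨b, hb, e⟩ := repB h.wm h.inj (fun _ => h.mem) h1 h2
  have := bimp_iff.1 (bimp_iff.1 (bimp_iff.1 (allLt_iff.1 chkC b hb) (e.cm h.inj (h.rep wA) h3))
    (e.cm h.inj (h.rep wW) h4)) (e.cm h.inj (h.rep wX) h5)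
  simp only [bor_iff] at this
  exact this.imp (e.eq' Rep.one) (Or.imp (e.eq' (repT h.wm)) (Or.imp (e.eq' (h.rep wU))
    (e.eq' ((h.rep wU).mul (repT h.wm)))))

theorem stageC {y : G} (hg : Rot val y) (hy : YR0 val y) : y ^ 3 = 1 := by
  have h1 : Rep MM ψ (1 : G)⁻¹ MM.one := by rw [inv_one]; exact Rep.one
  have h2 : ∀ z, y ^ 3 = z → y * z * y⁻¹ = z := by
    rintro _ rfl
    group
  rcases h.center (g := y ^ 3)
    (by simpa using hy.cy3 h.wm Rep.one h1 (repT h.wm) 4 135 68 (by decide +kernel))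
    (by simpa using hy.cy3 h.wm Rep.one h1 (h.rep wU) 135 68 4 (by decide +kernel))
    (Commute.pow_left hy.ya.symm 3)
    (by simpa using hy.cy3 h.wm Rep.one h1 (h.rep wW) 2 2 2 (by decide +kernel))
    (by simpa using hy.cy3 h.wm Rep.one h1 (h.rep wX) 41 50 3 (by decide +kernel))
    with e | e | e | e
  · exact e
  · exact absurd (hg.1.symm.trans (h2 _ e)) h.u_ne_t
  · exact absurd (by simpa using hg.2.symm.trans (h2 _ e)) h.t_ne
  · exact absurd (by simpa using (h.rot3 hg).symm.trans (h2 _ e)) h.u_ne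

theorem stageD {y : G} (hg : Rot val y) (hy : YR0 val y) : ∃ y, YR val y := by
  have h0 := h.stageC hg hy
  have h1 : Rep MM ψ S⁻¹ cS := by
    rw [inv_eq_of_mul_eq_one_right (ss h.wm)]
    exact repS h.wm
  have h2 : ∀ z, (y * S) ^ 2 = z → y * (S * z * S⁻¹) * y⁻¹ = z := by
    rintro _ rfl
    rw [pow_two]
    group
  have h3 : S * U * S⁻¹ = U * T :=
    (repS h.wm).conj (h.rep wU) ((h.rep wU).mul (repT h.wm)) (by decide +kernel)
  have h4 : S * A * S⁻¹ = A⁻¹ :=
    (repS h.wm).conj (h.rep wA) (rep_inv h.wm wA (by decide)) (by decide +kernel)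
  have h5 : ∀ z : G, (z * S) ^ 2 = 1 → z * S * z = S := fun z e => by
    rw [← mul_left_inj S, ss h.wm, ← e, pow_two, mul_assoc _ z]
  have h6 : y * A * y⁻¹ = A := by rw [← hy.ya, mul_inv_cancel_right]
  rcases h.center (g := (y * S) ^ 2)
    (hy.cy2 h.wm (repS h.wm) h1 (repT h.wm) 4 68 (by decide +kernel))
    (hy.cy2 h.wm (repS h.wm) h1 (h.rep wU) 68 4 (by decide +kernel))
    (by
      rw [← mul_inv_eq_iff_eq_mul]
      calc _ = y * (S * (y * (S * A * S⁻¹) * y⁻¹) * S⁻¹) * y⁻¹ := by rw [pow_two]; group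
        _ = _ := by rw [h4, ← conj_inv (b := y), h6, ← conj_inv, h4, inv_inv, h6])
    (hy.cy2 h.wm (repS h.wm) h1 (h.rep wW) 2 2 (by decide +kernel))
    (hy.cy2 h.wm (repS h.wm) h1 (h.rep wX) 41 3 (by decide +kernel))
    with e | e | e | e
  · exact ⟨y, hy, h0, h5 y e⟩
  · have := h2 _ e
    rw [h.comm (repS h.wm), mul_inv_cancel_right, hg.1] at this
    exact absurd this h.u_ne_t
  · have := h2 _ e
    rw [h3, h.rot3 hg] at this
    exact absurd this.symm h.u_ne_t
  · have key : ∀ {x z : G}, x * U = U * x → z * U = U * z → x * y = y * z →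
        x * (U * y * U) = U * y * U * z := fun a1 a2 a3 => by
      rw [← mul_assoc, ← mul_assoc, a1, mul_assoc U, a3, mul_assoc U, mul_assoc y, a2]
      simp only [mul_assoc]
    have hau : A * U = U * A := (h.rep wA).comm (h.rep wU) (by decide +kernel)
    have hwu : W * U = U * W := (h.rep wW).comm (h.rep wU) (by decide +kernel)
    have hu : U⁻¹ = U := inv_eq_of_mul_eq_one_right h.uu
    refine ⟨U * y * U, ⟨key hau hau hy.ya, key hwu hwu hy.yw,
      key ((h.rep wX).comm (h.rep wU) (by decide +kernel))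
        ((h.rep wY).comm (h.rep wU) (by decide +kernel)) hy.yx, key rfl h.ut.symm hy.yu⟩,
      by rw [show U * y * U = U * y * U⁻¹ by rw [hu], conj_pow, h0]; simp, h5 _ ?_⟩
    have a1 : U * y * U = T * y :=
      calc _ = U * (y * U * y⁻¹) * y := by group
        _ = _ := by rw [hg.2, ← mul_assoc, h.uu, one_mul]
    calc _ = T * (y * (S * T * S⁻¹) * y⁻¹) * (y * S) ^ 2 := by rw [a1, pow_two, pow_two]; group
      _ = 1 := by
        rw [h.comm (repS h.wm), mul_inv_cancel_right, hg.1, e, mul_assoc, ← mul_assoc U, h.uu,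
          one_mul, h.tt]

theorem exists_y {g : G} (h1 : Commute T (g * T * g⁻¹)) (h2 : g * T * g⁻¹ ≠ T) :
    ∃ y, YR val y ∧ (y * wval val wM1) ^ 3 = 1 ∧ (y * wval val wM2) ^ 3 = 1 := by
  obtain ⟨y1, a1⟩ := h.exists_rot h1 h2
  obtain ⟨y2, a2, a3⟩ := h.stageA a1
  obtain ⟨y3, a4, a5⟩ := h.stageB a2 a3
  obtain ⟨y, a6⟩ := h.stageD a4 a5
  exact ⟨y, a6, a6.tri h.wm h.inj fun _ => h.mem⟩

end Set8

end CfsgMcL
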