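import Cfsg.Agent.H8.Pres
import Cfsg.Agent.H9.Pres3

set_option autoImplicit false
set_option linter.unusedSectionVars false

/-! A verified checker for double coset enumeration.  A finite group `Γ` with a model is mapped by
`φ` into `X`, and `y` is a further element of `X`.  Nodes are the elements
`nd k = nd (P k) * φ (τ k) * y`; a fact `(i, j, n)` says `nd i ∈ H * nd j * φ n`. -/

namespace CfsgDC

open CfsgH9 CfsgH8 Subgroup

/-- The tables. -/
structure Dat where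
  P : NT
  Sg : NT
  T : NT
  nT : ℕ
  B : NT
  B2 : NT
  nB : ℕ
  R0 : NT
  R1 : NT
  R2 : NT
  s0 : ℕ
  s1 : ℕ
  ex : ℕ
  Fi : NT
  Fj : NT
  Fn : NT
  Fm : NT

variable {Γ : Type*} [Group Γ] {X : Type*} [Group X] (M : Model Γ) (D : Dat)

/-- The code attached to a node. -/
noncomputable def tau (k : ℕ) : ℕ := D.T.get (Nat.mod (D.Sg.get k) D.nT)

/-- Continuations. -/
abbrev Kt : Type := ℕ → ℕ → List ℕ → Bool

/-- Split a list. -/
noncomputable def hd (R : List ℕ) (f : ℕ → List ℕ → Bool) : Bool :=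
  List.rec (motive := fun _ => Bool) false (fun r R' _ => f r R') R

noncomputable def up (i m : ℕ) (R : List ℕ) (k : Kt) : Bool :=
  frcA (D.P.get i) fun p => band (Nat.ble (Nat.succ p) i) (frcA (tau D i) fun c => k p c (m :: R))

noncomputable def down (l i m : ℕ) (R : List ℕ) (k : Kt) : Bool :=
  hd R fun r R' => band (Nat.beq (D.P.get l) i) (band (Nat.ble (Nat.succ i) l)
    (band (Nat.beq m (tau D l)) (k l r R')))

noncomputable def slide (b i m : ℕ) (R : List ℕ) (k : Kt) : Bool :=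
  hd R fun r R' => band (Nat.ble (Nat.succ b) D.nB) (frcA (M.mul m (D.B.get b)) fun m' =>
    frcA (M.mul (D.B2.get b) r) fun r' => k i m' (r' :: R'))

noncomputable def eqf (lo t f i m : ℕ) (R : List ℕ) (k : Kt) : Bool :=
  band (Nat.ble lo f) (band (Nat.ble (Nat.succ f) t) (band (Nat.beq (D.Fi.get f) i)
    (frcA (D.Fj.get f) fun j => frcA (M.mul (D.Fn.get f) m) fun m' => k j m' R)))

noncomputable def eqi (lo t f i m : ℕ) (R : List ℕ) (k : Kt) : Bool :=
  band (Nat.ble lo f) (band (Nat.ble (Nat.succ f) t) (band (Nat.beq (D.Fj.get f) i)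
    (frcA (D.Fi.get f) fun j => frcA (D.Fn.get f) fun n => frcA (M.pow 12 n (Nat.succ (Nat.mod D.ex 4095))) fun n' =>
      band (Nat.beq (M.mul n n') M.one) (frcA (M.mul n' m) fun m' => k j m' R))))

noncomputable def rel (ok : ℕ → Bool) (q i m : ℕ) (R : List ℕ) (k : Kt) : Bool :=
  hd R fun r R' => hd R' fun r' R'' => band (ok q) (band (Nat.beq r (D.R0.get q))
    (frcA (M.mul m (D.R1.get q)) fun m' => frcA (M.mul (D.R2.get q) r') fun r'' =>
      k i m' (r'' :: R'')))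

noncomputable def back (i m : ℕ) (R : List ℕ) (k : Kt) : Bool :=
  hd R fun r R' => hd R' fun r' R'' => band (Nat.beq r D.s0)
    (frcA (M.mul m D.s1) fun m' => frcA (M.mul m' r') fun m'' => k i m'' R'')

noncomputable def root (rt : Bool) (i : ℕ) (R : List ℕ) (k : Kt) : Bool :=
  band rt (band (Nat.beq i 0) (k 0 M.one R))

/-- Conditional. -/
noncomputable def ite' (c a b : Bool) : Bool := Bool.rec b a c

noncomputable def step (rt : Bool) (ok : ℕ → Bool) (lo t op a i m : ℕ) (R : List ℕ) (k : Kt) :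
    Bool :=
  ite' (Nat.ble op 4)
    (ite' (Nat.ble op 2) (ite' (Nat.ble op 1) (up D i m R k) (down D a i m R k))
      (ite' (Nat.ble op 3) (slide M D a i m R k) (eqf M D lo t a i m R k)))
    (ite' (Nat.ble op 6) (ite' (Nat.ble op 5) (eqi M D lo t a i m R k) (rel M D ok a i m R k))
      (ite' (Nat.ble op 7) (back M D i m R k) (root M rt i R k)))

/-- Run the moves packed in a number, 20 bits each. -/
noncomputable def run (rt : Bool) (ok : ℕ → Bool) (lo t : ℕ) (fin : Kt) (fuel : ℕ) : ℕ → Kt :=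
  Nat.rec (motive := fun _ => ℕ → Kt) (fun _ _ _ _ => false)
    (fun _ ih mv i m R => ite' (Nat.beq mv 0) (fin i m R)
      (frcA (Nat.land mv 15) fun op => frcA (Nat.land (Nat.shiftRight mv 4) 65535) fun a =>
        frcA (Nat.shiftRight mv 20) fun mv' => step M D rt ok lo t op a i m R (ih mv'))) fuel

/-- The stack is empty. -/
noncomputable def nil (R : List ℕ) : Bool :=
  List.rec (motive := fun _ => Bool) true (fun _ _ _ => false) R

/-- Check of one fact. -/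
noncomputable def chk (rt : Bool) (ok : ℕ → Bool) (lo t : ℕ) : Bool :=
  frcA t fun t => frcA (D.Fm.get t) fun mv => frcA (D.Fi.get t) fun i => run M D rt ok lo t
    (fun j n R => band (nil R) (band (Nat.beq j (D.Fj.get t)) (Nat.beq n (D.Fn.get t)))) 40 mv
      i M.one []

/-- Check of one entry of the final table. -/
noncomputable def cls (nF : ℕ) (L : List ℕ) (CM : NT) (x : ℕ) : Bool :=
  frcA (CM.get x) fun mv => frcA (L.getD (Nat.div x D.nT) 0) fun i =>
    frcA (D.T.get (Nat.mod x D.nT)) fun m =>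
    run M D true (fun _ => false) 0 nF (fun j _ R => band (nil R) (bnot (allL L fun l =>
      bnot (Nat.beq l j)))) 40 mv i m [M.one]

theorem frcA_eq {α : Type} (x : ℕ) (f : ℕ → α) : frcA x f = f x := by cases x <;> rfl

theorem hd_iff {R : List ℕ} {f : ℕ → List ℕ → Bool} (h : hd R f = true) :
    ∃ r R', R = r :: R' ∧ f r R' = true := by
  cases R with
  | nil => cases h
  | cons r R' => exact ⟨r, R', rfl, h⟩

theorem ite'_iff {c a b : Bool} (h : ite' c a b = true) : a = true ∨ b = true := by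
  cases c
  exacts [Or.inr h, Or.inl h]

variable (φ : Γ →* X) (y : X) (H : Subgroup X)

/-- The nodes. -/
noncomputable def nd (k : ℕ) : X :=
  if _h : D.P.get k < k then nd (D.P.get k) * φ (M.dec (tau D k)) * y else 1
termination_by k

/-- The value of a stack. -/
def RL : List ℕ → X → Prop
  | [], r => r = 1
  | c :: R, r => ∃ x r', M.enc x = c ∧ RL R r' ∧ r = y * φ x * r'

/-- The value of a state. -/
def Rep (i m : ℕ) (R : List ℕ) (g : X) : Prop :=
  ∃ h ∈ H, ∃ x r, M.enc x = m ∧ RL M φ y R r ∧ g = h * nd M D φ y i * φ x * r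

/-- Validity of a fact. -/
def Val (f : ℕ) : Prop := Rep M D φ y H (D.Fj.get f) (D.Fn.get f) [] (nd M D φ y (D.Fi.get f))

/-- The hypotheses on the tables. -/
structure OK (rt : Bool) (ok : ℕ → Bool) : Prop where
  nT : 0 < D.nT
  hT : ∀ j, j < D.nT → ∃ x, M.enc x = D.T.get j
  hB : ∀ b, b < D.nB → ∃ x x', M.enc x = D.B.get b ∧ M.enc x' = D.B2.get b ∧ φ x * y * φ x' = y
  hR : ∀ q, ok q = true → ∃ x0 x1 x2, M.enc x0 = D.R0.get q ∧ M.enc x1 = D.R1.get q ∧
    M.enc x2 = D.R2.get q ∧ y * φ x0 * y = φ x1 * y * φ x2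
  hs : ∃ x0 x1, M.enc x0 = D.s0 ∧ M.enc x1 = D.s1 ∧ y * φ x0 * y = φ x1
  hrt : rt = true → ∀ x, φ x ∈ H

variable {M D φ y H} {rt : Bool} {ok : ℕ → Bool}

theorem nd_zero : nd M D φ y 0 = 1 := by rw [nd, dif_neg (Nat.not_lt_zero _)]

theorem OK.enc_tau (h : OK M D φ y H rt ok) (k : ℕ) : M.enc (M.dec (tau D k)) = tau D k :=
  Model.enc_dec (h.hT _ (Nat.mod_lt _ h.nT))

/-- The continuation is reached in a state with the same value. -/
def Go (M : Model Γ) (D : Dat) (φ : Γ →* X) (y : X) (H : Subgroup X) (k : Kt) (g : X) : Prop :=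
  ∃ i m R, k i m R = true ∧ Rep M D φ y H i m R g

variable {lo t a i m : ℕ} {R : List ℕ} {k : Kt} {g : X}

theorem OK.up (h : OK M D φ y H rt ok) (h1 : up D i m R k = true) (h2 : Rep M D φ y H i m R g) :
    Go M D φ y H k g := by
  simp only [CfsgDC.up, frcA_eq, band_iff] at h1
  obtain ⟨c, hc, x, r, hx, hr, rfl⟩ := h2
  refine ⟨_, _, _, h1.2, c, hc, _, _, h.enc_tau i, ⟨x, r, hx, hr, rfl⟩, ?_⟩
  rw [nd, dif_pos (show D.P.get i < i from Nat.le_of_ble_eq_true h1.1)]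
  simp only [mul_assoc]

theorem OK.down (h : OK M D φ y H rt ok) (h1 : down D a i m R k = true)
    (h2 : Rep M D φ y H i m R g) : Go M D φ y H k g := by
  obtain ⟨r, R', rfl, h3⟩ := hd_iff h1
  simp only [band_iff] at h3
  obtain ⟨h3, h4, h5, h6⟩ := h3
  obtain ⟨c, hc, x, _, hx, ⟨x', r', hx', hr, rfl⟩, rfl⟩ := h2
  refine ⟨_, _, _, h6, c, hc, x', r', hx', hr, ?_⟩
  have e := Nat.eq_of_beq_eq_true h3
  have e' : M.dec (tau D a) = x := M.enc_inj (by rw [h.enc_tau, hx, Nat.eq_of_beq_eq_true h5])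
  rw [nd.eq_1 M D φ y a, dif_pos (e ▸ Nat.le_of_ble_eq_true h4), e, e']
  simp only [mul_assoc]

theorem OK.slide (h : OK M D φ y H rt ok) (h1 : slide M D a i m R k = true)
    (h2 : Rep M D φ y H i m R g) : Go M D φ y H k g := by
  obtain ⟨r, R', rfl, h3⟩ := hd_iff h1
  simp only [band_iff, frcA_eq] at h3
  obtain ⟨c, hc, x, _, rfl, ⟨x', r', rfl, hr, rfl⟩, rfl⟩ := h2
  obtain ⟨b, b', hb, hb', e⟩ := h.hB a (Nat.le_of_ble_eq_true h3.1)
  refine ⟨_, _, _, h3.2, c, hc, x * b, _, by rw [M.enc_mul, hb],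
    ⟨b' * x', r', by rw [M.enc_mul, hb'], hr, rfl⟩, ?_⟩
  have : y * φ x' * r' = φ b * y * φ b' * φ x' * r' := by rw [e]
  rw [this]
  simp only [mul_assoc, map_mul]

theorem eqf_ok (hv : ∀ f, lo ≤ f → f < t → Val M D φ y H f) (h1 : eqf M D lo t a i m R k = true)
    (h2 : Rep M D φ y H i m R g) : Go M D φ y H k g := by
  simp only [eqf, band_iff, frcA_eq] at h1
  obtain ⟨h3, h4, h5, h6⟩ := h1
  obtain ⟨c, hc, x, r, rfl, hr, rfl⟩ := h2
  obtain ⟨c', hc', x', _, hx', rfl, e⟩ :=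
    hv a (Nat.le_of_ble_eq_true h3) (Nat.le_of_ble_eq_true h4)
  refine ⟨_, _, _, h6, c * c', mul_mem hc hc', x' * x, r, by rw [M.enc_mul, hx'], hr, ?_⟩
  rw [← Nat.eq_of_beq_eq_true h5, e]
  simp only [mul_assoc, map_mul, one_mul]

theorem eqi_ok (hv : ∀ f, lo ≤ f → f < t → Val M D φ y H f) (h1 : eqi M D lo t a i m R k = true)
    (h2 : Rep M D φ y H i m R g) : Go M D φ y H k g := by
  simp only [eqi, band_iff, frcA_eq] at h1
  obtain ⟨h3, h4, h5, h6, h7⟩ := h1
  obtain ⟨c, hc, x, r, rfl, hr, rfl⟩ := h2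
  obtain ⟨c', hc', x', _, hx', rfl, e⟩ :=
    hv a (Nat.le_of_ble_eq_true h3) (Nat.le_of_ble_eq_true h4)
  have hlt : Nat.mod D.ex 4095 < 4095 := Nat.mod_lt _ (by norm_num)
  rw [← hx', Model.enc_pow _ _ _ (Nat.succ_pos _) (by omega)] at h6 h7
  have e2 := Nat.eq_of_beq_eq_true h6
  rw [← M.enc_mul, ← M.enc_one] at e2
  rw [← inv_eq_of_mul_eq_one_right (M.enc_inj e2)] at h7
  refine ⟨_, _, _, h7, c * c'⁻¹, mul_mem hc (inv_mem hc'), x'⁻¹ * x, r, M.enc_mul _ _, hr, ?_⟩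
  rw [← Nat.eq_of_beq_eq_true h5, e]
  simp [mul_assoc]

theorem OK.rel (h : OK M D φ y H rt ok) (h1 : rel M D ok a i m R k = true)
    (h2 : Rep M D φ y H i m R g) : Go M D φ y H k g := by
  obtain ⟨r, R', rfl, h3⟩ := hd_iff h1
  obtain ⟨r', R'', rfl, h3'⟩ := hd_iff h3
  simp only [band_iff, frcA_eq] at h3'
  clear h3
  obtain ⟨h3, h4, h5⟩ := h3'
  obtain ⟨c, hc, x, _, rfl, ⟨x', _, rfl, ⟨x'', z, rfl, hr, rfl⟩, rfl⟩, rfl⟩ := h2
  obtain ⟨x0, x1, x2, e0, e1, e2, e⟩ := h.hR a h3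
  obtain rfl : x' = x0 := M.enc_inj (by rw [e0, Nat.eq_of_beq_eq_true h4])
  refine ⟨_, _, _, h5, c, hc, x * x1, _, by rw [M.enc_mul, e1],
    ⟨x2 * x'', z, by rw [M.enc_mul, e2], hr, rfl⟩, ?_⟩
  have : y * φ x' * (y * φ x'' * z) = (y * φ x' * y) * (φ x'' * z) := by simp only [mul_assoc]
  rw [this, e]
  simp only [mul_assoc, map_mul]

theorem OK.back (h : OK M D φ y H rt ok) (h1 : back M D i m R k = true)
    (h2 : Rep M D φ y H i m R g) : Go M D φ y H k g := by
  obtain ⟨r, R', rfl, h3⟩ := hd_iff h1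
  obtain ⟨r', R'', rfl, h3'⟩ := hd_iff h3
  simp only [band_iff, frcA_eq] at h3'
  obtain ⟨h4, h5⟩ := h3'
  obtain ⟨c, hc, x, _, rfl, ⟨x', _, rfl, ⟨x'', z, rfl, hr, rfl⟩, rfl⟩, rfl⟩ := h2
  obtain ⟨x0, x1, e0, e1, e⟩ := h.hs
  obtain rfl : x' = x0 := M.enc_inj (by rw [e0, Nat.eq_of_beq_eq_true h4])
  refine ⟨_, _, _, h5, c, hc, x * x1 * x'', z, by rw [M.enc_mul, M.enc_mul, e1], hr, ?_⟩
  have : y * φ x' * (y * φ x'' * z) = (y * φ x' * y) * (φ x'' * z) := by simp only [mul_assoc]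
  rw [this, e]
  simp only [mul_assoc, map_mul]

theorem OK.root (h : OK M D φ y H rt ok) (h1 : root M rt i R k = true)
    (h2 : Rep M D φ y H i m R g) : Go M D φ y H k g := by
  simp only [CfsgDC.root, band_iff] at h1
  obtain ⟨h3, h4, h5⟩ := h1
  obtain ⟨c, hc, x, r, rfl, hr, rfl⟩ := h2
  refine ⟨_, _, _, h5, c * φ x, mul_mem hc (h.hrt h3 x), 1, r, M.enc_one, hr, ?_⟩
  rw [Nat.eq_of_beq_eq_true h4, nd_zero]
  simp

theorem OK.step (h : OK M D φ y H rt ok) (hv : ∀ f, lo ≤ f → f < t → Val M D φ y H f) {op : ℕ}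
    (h1 : step M D rt ok lo t op a i m R k = true) (h2 : Rep M D φ y H i m R g) :
    Go M D φ y H k g := by
  rcases ite'_iff h1 with h1 | h1 <;> rcases ite'_iff h1 with h1 | h1 <;>
    rcases ite'_iff h1 with h1 | h1
  exacts [h.up h1 h2, h.down h1 h2, h.slide h1 h2, eqf_ok hv h1 h2, eqi_ok hv h1 h2, h.rel h1 h2,
    h.back h1 h2, h.root h1 h2]

theorem run_succ (n mv : ℕ) : run M D rt ok lo t k (n + 1) mv i m R = ite' (Nat.beq mv 0) (k i m R)
    (step M D rt ok lo t (Nat.land mv 15) (Nat.land (Nat.shiftRight mv 4) 65535) i m R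
      (run M D rt ok lo t k n (Nat.shiftRight mv 20))) := by
  rw [← frcA_eq (Nat.shiftRight mv 20) fun mv' => step M D rt ok lo t _ _ i m R
      (run M D rt ok lo t k n mv'),
    ← frcA_eq (Nat.land (Nat.shiftRight mv 4) 65535) fun a => frcA (Nat.shiftRight mv 20)
      fun mv' => step M D rt ok lo t _ a i m R (run M D rt ok lo t k n mv'),
    ← frcA_eq (Nat.land mv 15) fun op => frcA (Nat.land (Nat.shiftRight mv 4) 65535) fun a =>
      frcA (Nat.shiftRight mv 20) fun mv' => step M D rt ok lo t op a i m R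
        (run M D rt ok lo t k n mv')]
  rfl

theorem OK.run (h : OK M D φ y H rt ok) (hv : ∀ f, lo ≤ f → f < t → Val M D φ y H f) (fuel : ℕ)
    {mv : ℕ} (h1 : run M D rt ok lo t k fuel mv i m R = true) (h2 : Rep M D φ y H i m R g) :
    Go M D φ y H k g := by
  induction fuel generalizing mv i m R with
  | zero => cases h1
  | succ n ih =>
    rw [run_succ] at h1
    rcases ite'_iff h1 with h1 | h1
    · exact ⟨_, _, _, h1, h2⟩
    · obtain ⟨i', m', R', h3, h4⟩ := h.step hv h1 h2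
      exact ih h3 h4

theorem eq_nil (h : nil R = true) : R = [] := by
  cases R
  · rfl
  · cases h

theorem OK.facts (h : OK M D φ y H rt ok) {n : ℕ} (h1 : allR lo n (chk M D rt ok lo) = true) (f : ℕ)
    (h2 : lo ≤ f) (h3 : f < lo + n) : Val M D φ y H f := by
  induction f using Nat.strong_induction_on with
  | _ f ih =>
  have h4 := allR_iff.1 h1 f h2 h3
  simp only [chk, frcA_eq] at h4
  obtain ⟨j, m, R, h5, h6⟩ := h.run (g := nd M D φ y (D.Fi.get f))
    (fun f' a b => ih f' b a (b.trans h3)) _ h4 ⟨1, one_mem _, 1, 1, M.enc_one, rfl, by simp⟩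
  simp only [band_iff] at h5
  rwa [eq_nil h5.1, Nat.eq_of_beq_eq_true h5.2.1, Nat.eq_of_beq_eq_true h5.2.2] at h6

theorem OK.mono (h : OK M D φ y H rt ok) {ok' : ℕ → Bool} (h' : ∀ q, ok' q = true → ok q = true) :
    OK M D φ y H rt ok' := ⟨h.nT, h.hT, h.hB, fun q hq => h.hR q (h' q hq), h.hs, h.hrt⟩

/-- The mirror image of `Model.treeF`. -/
noncomputable def tree2 (M : Model Γ) (r : ℕ) (s t P : NT) (j : ℕ) : Bool :=
  Bool.rec (Nat.beq (t.get j) (M.mul (t.get (Nat.div (P.get j) r)) (s.get (Nat.mod (P.get j) r))))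
    (Nat.beq (t.get j) M.one) (Nat.beq j 0)

theorem slide_of_tree {r n : ℕ} {s s' B B2 P : NT} (hr : 0 < r)
    (hs : ∀ a, a < r → ∃ x x', M.enc x = s.get a ∧ M.enc x' = s'.get a ∧ φ x * y * φ x' = y)
    (h1 : allLt n (M.treeF r s B P) = true) (h2 : allLt n (tree2 M r s' B2 P) = true) (b : ℕ)
    (hb : b < n) : ∃ x x', M.enc x = B.get b ∧ M.enc x' = B2.get b ∧ φ x * y * φ x' = y := by
  induction b using Nat.strong_induction_on with
  | _ j ih =>
  have h3 := allLt_iff.1 h1 j hb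
  have h4 := allLt_iff.1 h2 j hb
  unfold Model.treeF at h3
  unfold tree2 at h4
  cases h0 : Nat.beq j 0
  · rw [h0] at h3 h4
    obtain ⟨h5, h6⟩ := band_iff.1 h3
    have h7 : Nat.div (P.get j) r < j := Nat.le_of_ble_eq_true h5
    obtain ⟨x, x', e1, e2, e3⟩ := ih _ h7 (h7.trans hb)
    obtain ⟨z, z', e4, e5, e6⟩ := hs (Nat.mod (P.get j) r) (Nat.mod_lt _ hr)
    refine ⟨z * x, x' * z', by rw [M.enc_mul, e1, e4, Nat.eq_of_beq_eq_true h6],
      by rw [M.enc_mul, e2, e5, Nat.eq_of_beq_eq_true h4], ?_⟩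
    calc _ = φ z * (φ x * y * φ x') * φ z' := by simp only [map_mul, mul_assoc]
      _ = y := by rw [e3, e6]
  · rw [h0] at h3 h4
    exact ⟨1, 1, by rw [M.enc_one, Nat.eq_of_beq_eq_true h3],
      by rw [M.enc_one, Nat.eq_of_beq_eq_true h4], by simp⟩

/-- A collapse. -/
theorem Val.false {f : ℕ} (h : Val M D φ y ⊥ f) (hφ : Function.Injective φ)
    (h1 : band (Nat.beq (D.Fi.get f) (D.Fj.get f)) (bnot (Nat.beq (D.Fn.get f) M.one)) = true) :
    False := by
  obtain ⟨c, hc, x, _, hx, rfl, e⟩ := h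
  rw [band_iff, bnot_iff] at h1
  rw [mem_bot.1 hc, Nat.eq_of_beq_eq_true h1.1, one_mul, mul_one, left_eq_mul,
    map_eq_one_iff φ hφ] at e
  exact h1.2 (by rw [← hx, e, M.enc_one]; exact Nat.beq_refl _)

/-- The stabilizer of a node. -/
noncomputable def Stab (M : Model Γ) (D : Dat) (φ : Γ →* X) (y : X) (H : Subgroup X) (i : ℕ) :
    Subgroup Γ := H.comap ((MulAut.conj (nd M D φ y i)).toMonoidHom.comp φ)

theorem mem_Stab {x : Γ} : x ∈ Stab M D φ y H i ↔ nd M D φ y i * φ x * (nd M D φ y i)⁻¹ ∈ H :=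
  Iff.rfl

theorem OK.index_zero (h : OK M D φ y H true ok) : (Stab M D φ y H 0).index ≤ 1 := by
  rw [show Stab M D φ y H 0 = ⊤ from eq_top_iff.2 fun x _ => by
    simpa [mem_Stab, nd_zero] using h.hrt rfl x, index_top]

/-- The facts `S 0, …, S (n-1)` give different elements of the stabilizer. -/
noncomputable def stb (D : Dat) (nF i : ℕ) (S : NT) (lo j : ℕ) : Bool :=
  frcA (S.get j) fun f => band (Nat.ble (Nat.succ f) nF) (band (Nat.beq (D.Fi.get f) i)
    (band (Nat.beq (D.Fj.get f) i) (bor (Nat.beq j lo)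
      (Nat.ble (Nat.succ (D.Fn.get (S.get (Nat.pred j)))) (D.Fn.get f)))))

theorem index_le [Finite Γ] {nF n c : ℕ} (hv : ∀ f, 0 ≤ f → f < nF → Val M D φ y H f) {S : NT}
    (h1 : allR lo n (stb D nF i S lo) = true) (hc : Nat.card Γ ≤ c * n) (hn : 0 < n) :
    (Stab M D φ y H i).index ≤ c := by
  have h2 : ∀ j : Fin n, ∃ x : Stab M D φ y H i, M.enc x = D.Fn.get (S.get (lo + j)) := by
    intro j
    have h3 := allR_iff.1 h1 (lo + j) (by omega) (by omega)
    simp only [stb, frcA_eq, band_iff] at h3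
    obtain ⟨c, hc, x, _, hx, rfl, e⟩ := hv _ (Nat.zero_le _) (Nat.le_of_ble_eq_true h3.1)
    rw [Nat.eq_of_beq_eq_true h3.2.1, Nat.eq_of_beq_eq_true h3.2.2.1] at e
    refine ⟨⟨x, mem_Stab.2 ?_⟩, hx⟩
    have : nd M D φ y i * φ x * (nd M D φ y i)⁻¹ = c⁻¹ := by
      rw [mul_inv_eq_iff_eq_mul, eq_inv_mul_iff_mul_eq, ← mul_assoc, ← mul_one (_ * φ x), ← e]
    rw [this]
    exact inv_mem hc
  choose F hF using h2
  have h4 : StrictMono fun j : Fin n => D.Fn.get (S.get (lo + j)) := by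
    obtain ⟨n, rfl⟩ : ∃ k, n = k + 1 := ⟨n - 1, by omega⟩
    rw [Fin.strictMono_iff_lt_succ]
    intro j
    have h3 := allR_iff.1 h1 (lo + j.succ) (by omega) (by omega)
    simp only [stb, frcA_eq, band_iff, bor_iff] at h3
    rcases h3.2.2.2 with h5 | h5
    · have := Nat.eq_of_beq_eq_true h5
      simp at this
    · exact Nat.le_of_ble_eq_true h5
  have h5 : n ≤ Nat.card (Stab M D φ y H i) := by
    simpa using Nat.card_le_card_of_injective F fun a b e => h4.injective (by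
      simp only [← hF, e])
  have h6 := (Stab M D φ y H i).index_mul_card
  exact Nat.le_of_mul_le_mul_right (((Nat.mul_le_mul_left _ h5).trans h6.le).trans hc) hn

/-- The bound for the order. -/
theorem OK.card_le [Finite Γ] [Finite H] (h : OK M D φ y H true fun _ => false) {nF : ℕ}
    (hv : ∀ f, 0 ≤ f → f < nF → Val M D φ y H f) {L : List ℕ} (h0 : 0 ∈ L) {CM : NT} {N : ℕ}
    (hN : N = L.length * D.nT) (h1 : allLt N (cls M D nF L CM) = true)
    (hT : ∀ x, ∃ j, j < D.nT ∧ ∃ b, b < D.nB ∧ M.enc x = M.mul (D.T.get j) (D.B.get b))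
    (hy : IsOfFinOrder y) (c : ℕ → ℕ) (hc : ∀ i ∈ L, (Stab M D φ y H i).index ≤ c i) :
    Bd (closure (Set.range φ ∪ {y})) ((L.map c).sum * Nat.card H) := by
  let Q : X → Prop := fun g => ∃ i ∈ L, ∃ c ∈ H, ∃ x, g = c * nd M D φ y i * φ x
  have q1 : ∀ g, Q g → Q (g * y) := by
    rintro _ ⟨i, hi, c, hc, x, rfl⟩
    obtain ⟨l, hl, rfl⟩ := List.getElem_of_mem hi
    obtain ⟨j, hj, b, hb, e⟩ := hT x
    obtain ⟨x1, e1⟩ := h.hT j hj
    obtain ⟨x2, x3, e2, -, e3⟩ := h.hB b hb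
    rw [← e1, ← e2, ← M.enc_mul] at e
    have h3 := allLt_iff.1 h1 (j + D.nT * l) (by rw [hN]; nlinarith)
    have e4 : Nat.div (j + D.nT * l) D.nT = l := by
      change (j + D.nT * l) / D.nT = l
      rw [Nat.add_mul_div_left _ _ h.nT, Nat.div_eq_of_lt hj, zero_add]
    have e5 : Nat.mod (j + D.nT * l) D.nT = j := by
      change (j + D.nT * l) % D.nT = j
      rw [Nat.add_mul_mod_self_left, Nat.mod_eq_of_lt hj]
    simp only [cls, frcA_eq, e4, e5, List.getD_eq_getElem _ _ hl] at h3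
    obtain ⟨i', m, R, h5, h6⟩ := h.run (g := nd M D φ y L[l] * φ x1 * y) hv _ h3
      ⟨1, one_mem _, x1, y, e1, ⟨1, 1, M.enc_one, rfl, by simp⟩, by simp⟩
    rw [band_iff, bnot_iff, allL_iff] at h5
    rw [eq_nil h5.1] at h6
    obtain ⟨c', hc', x', _, -, rfl, e6⟩ := h6
    refine ⟨i', by_contra fun h7 => h5.2 fun l hl => bnot_iff.2 fun h8 => h7 ?_, c * c',
      mul_mem hc hc', x' * x3⁻¹, ?_⟩
    · rwa [← Nat.eq_of_beq_eq_true h8]
    · have e7 : φ x2 * y = y * (φ x3)⁻¹ := by rw [eq_mul_inv_iff_mul_eq, e3]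
      rw [M.enc_inj e, map_mul, map_mul, map_inv]
      calc _ = c * (nd M D φ y L[l] * φ x1 * (φ x2 * y)) := by simp only [mul_assoc]
        _ = c * (nd M D φ y L[l] * φ x1 * y) * (φ x3)⁻¹ := by rw [e7]; simp only [mul_assoc]
        _ = _ := by rw [e6]; simp only [mul_assoc, mul_one]
  have q2 : ∀ g x, Q g → Q (g * φ x) := by
    rintro _ x' ⟨i, hi, c, hc, x, rfl⟩
    exact ⟨i, hi, c, hc, x * x', by rw [map_mul, mul_assoc]⟩
  have q3 : ∀ g ∈ closure (Set.range φ ∪ {y}), Q g := by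
    intro g hg
    induction hg using closure_induction_right with
    | one => exact ⟨0, h0, 1, one_mem _, 1, by simp [nd_zero]⟩
    | mul_right g _ z hz ih =>
      rcases hz with ⟨x, rfl⟩ | rfl
      exacts [q2 _ _ ih, q1 _ ih]
    | mul_inv_cancel g _ z hz ih =>
      rcases hz with ⟨x, rfl⟩ | rfl
      · rw [← map_inv]
        exact q2 _ _ ih
      · have h4 : ∀ n : ℕ, Q (g * z ^ n) := fun n => by
          induction n with
          | zero => simpa using ih
          | succ n ih' => rw [pow_succ, ← mul_assoc]; exact q1 _ ih'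
        rw [show z⁻¹ = z ^ (orderOf z - 1) by
          rw [inv_eq_iff_mul_eq_one, ← pow_succ', Nat.sub_add_cancel hy.orderOf_pos,
            pow_orderOf_eq_one]]
        exact h4 _
  let F : (Σ l : Fin L.length, Γ ⧸ Stab M D φ y H L[l]) × H → X := fun p =>
    p.2 * nd M D φ y L[p.1.1] * (φ p.1.2.out)⁻¹
  have q4 : (closure (Set.range φ ∪ {y}) : Set X) ⊆ Set.range F := by
    intro g hg
    obtain ⟨i, hi, c, hc, x, rfl⟩ := q3 g hg
    obtain ⟨l, hl, rfl⟩ := List.getElem_of_mem hi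
    obtain ⟨s, hs⟩ := QuotientGroup.mk_out_eq_mul (Stab M D φ y H L[l]) x⁻¹
    refine ⟨⟨⟨⟨l, hl⟩, (x⁻¹ : Γ)⟩, ⟨c * _, mul_mem hc (mem_Stab.1 s.2)⟩⟩, ?_⟩
    simp only [F]
    erw [hs]
    simp [mul_assoc]
  refine ⟨(Set.finite_range F).subset q4, (Nat.card_mono (Set.finite_range F) q4).trans
    ((Finite.card_range_le F).trans ?_)⟩
  rw [Nat.card_prod, Nat.card_sigma, ← Fin.sum_univ_fun_getElem]
  exact Nat.mul_le_mul_right _ (Finset.sum_le_sum fun l _ => hc _ (List.getElem_mem _))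

end CfsgDC
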