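import Cfsg.Agent.SZ.BN_c
import Cfsg.Agent.H1.PlaneMain

set_option autoImplicit false
set_option linter.unusedSectionVars false

/-! The geometry of the large elementary abelian subgroups of `L₃(q)`, `q` even. -/

namespace CfsgL3

open Subgroup CfsgH5 CfsgH6 CfsgFT CfsgSZ MulAction
open scoped commutatorElement

universe u

variable {G : Type u} [Group G] [Finite G]

scoped instance cjAct : MulAction G (Subgroup G) where
  smul := cj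
  one_smul := cj_one
  mul_smul := fun g h X => (cj_cj g h X).symm

theorem trans_of_card {α : Type*} [MulAction G α] [Finite α] {R S : Subgroup G} {Λ : Set α} {x y : α}
    (h1 : ∀ r ∈ R, r • x ∈ Λ) (h2 : ∀ r ∈ R, r • x = x → r ∈ S) (h3 : Λ.ncard ≤ S.relIndex R)
    (hy : y ∈ Λ) : ∃ r ∈ R, r • x = y := by
  refine (Set.eq_of_subset_of_ncard_le (s := {y | ∃ g ∈ R, g • x = y}) ?_ (h3.trans ?_)).ge hy
  · rintro _ ⟨g, hg, rfl⟩; exact h1 g hg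
  rw [← CfsgH1.relIndex_stabilizer, ← inf_relIndex_right (stabilizer G x)]
  exact relIndex_le_of_le_left (fun r hr => h2 r hr.2 hr.1) (relIndex_ne_zero' _ _)

/-- the vertices: elementary abelian subgroups of order `q²`. -/
def Vx (M : Subgroup G) (q : ℕ) (A : Subgroup G) : Prop := A ≤ M ∧ ElAb 2 A ∧ Nat.card A = q ^ 2
def Adj (A B : Subgroup G) : Prop := A ≠ B ∧ A ⊓ B ≠ ⊥

structure Tri (M : Subgroup G) (q : ℕ) (ty : Subgroup G → Prop) : Prop where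
  two : 2 ≤ q
  simple : ∀ K, NormalIn K M → K = ⊥ ∨ K = M
  ne_ty : ∀ {A B}, Vx M q A → Vx M q B → Adj A B → (ty A ↔ ¬ ty B)
  join : ∀ {A B}, Vx M q A → Vx M q B → A ≠ B → (ty A ↔ ty B) → ∃ D, Vx M q D ∧ Adj A D ∧ Adj B D
  uniq : ∀ {A B D E}, Vx M q A → Vx M q B → Vx M q D → Vx M q E → Adj A D → Adj B D → Adj A E →
    Adj B E → A = B ∨ D = E
  card_inf : ∀ {A B}, Vx M q A → Vx M q B → Adj A B → Nat.card ↥(A ⊓ B) = q
  cover : ∀ z ∈ M, z * z = 1 → ∀ b : Prop, ∃ A, Vx M q A ∧ (ty A ↔ b) ∧ z ∈ A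
  fix : ∀ {A W a}, Vx M q A → Vx M q W → (ty A ↔ ¬ ty W) → a ∈ A → a ≠ 1 → cj a W = W → Adj A W

variable {M A B D E W X : Subgroup G} {q : ℕ} {ty : Subgroup G → Prop} {a b c g z : G}

theorem Adj.symm (h : Adj A B) : Adj B A := ⟨h.1.symm, inf_comm A B ▸ h.2⟩
theorem adj_cj : Adj (cj g A) (cj g B) ↔ Adj A B := by
  rw [Adj, ← cj_inf, ne_eq, ne_eq, cj_inj, cj_eq_bot]; rfl
theorem Adj.of_mem (h : A ≠ B) (h1 : z ∈ A) (h2 : z ∈ B) (h3 : z ≠ 1) : Adj A B :=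
  ⟨h, fun e => h3 (mem_bot.1 (e ▸ mem_inf.2 ⟨h1, h2⟩))⟩
theorem Adj.exists (h : Adj A B) : ∃ z ∈ A, z ∈ B ∧ z ≠ 1 := by
  obtain ⟨z, hz, h⟩ := (bot_or_exists_ne_one _).resolve_left h.2
  exact ⟨z, hz.1, hz.2, h⟩
theorem Vx.cjj (h : Vx M q A) (g : G) : Vx (cj g M) q (cj g A) :=
  ⟨cj_mono h.1, h.2.1.cjj g, (card_cj _ _).trans h.2.2⟩
theorem Vx.cjN (h : Vx M q A) (hg : g ∈ N M) : Vx M q (cj g A) := mem_N.1 hg ▸ h.cjj g
theorem Vx.cjM (h : Vx M q A) (hg : g ∈ M) : Vx M q (cj g A) := h.cjN (le_N _ hg)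
theorem Vx.sq (h : Vx M q A) (ha : a ∈ A) : a * a = 1 := ElAb.sq h.2.1 ha
theorem Vx.comm (h : Vx M q A) (ha : a ∈ A) (hb : b ∈ A) : a * b = b * a := h.2.1.1 a ha b hb
theorem Vx.p2 (h : Vx M q A) : IsPGroup 2 A := h.2.1.isPGroup
theorem Vx.leN (h : Vx M q A) : A ≤ N M := h.1.trans (le_N _)
theorem mem_cj_of_comm (hz : z ∈ A) (h : g * z = z * g) : z ∈ cj g A := by
  rw [mem_cj, mul_assoc, ← h, inv_mul_cancel_left]; exact hz

namespace Tri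

variable (T : Tri M q ty)
include T

theorem not : Tri M q fun A => ¬ ty A :=
  ⟨T.two, T.simple, fun h1 h2 h => by have := T.ne_ty h1 h2 h; tauto,
    fun h1 h2 h3 h => T.join h1 h2 h3 (by tauto), T.uniq, T.card_inf, fun z h1 h2 b => by
      obtain ⟨A, h3, h4, h5⟩ := T.cover z h1 h2 (¬ b); exact ⟨A, h3, by tauto, h5⟩,
    fun h1 h2 h => T.fix h1 h2 (by tauto)⟩

theorem congr {ty' : Subgroup G → Prop} (h : ∀ A, Vx M q A → (ty' A ↔ ty A)) : Tri M q ty' :=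
  ⟨T.two, T.simple, fun h1 h2 h3 => by rw [h _ h1, h _ h2]; exact T.ne_ty h1 h2 h3,
    fun h1 h2 h3 h4 => T.join h1 h2 h3 (by rwa [h _ h1, h _ h2] at h4), T.uniq, T.card_inf,
    fun z h1 h2 b => by
      obtain ⟨A, h3, h4, h5⟩ := T.cover z h1 h2 b; exact ⟨A, h3, by rwa [h _ h3], h5⟩,
    fun h1 h2 h3 => T.fix h1 h2 (by rwa [h _ h1, h _ h2] at h3)⟩

theorem eq_of_mem (hA : Vx M q A) (hB : Vx M q B) (h : ty A ↔ ty B) (h1 : z ∈ A) (h2 : z ∈ B)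
    (h3 : z ≠ 1) : A = B := by
  by_contra n
  have := T.ne_ty hA hB (.of_mem n h1 h2 h3)
  tauto

theorem adj_of_mem (hA : Vx M q A) (hB : Vx M q B) (h : ty A ↔ ¬ ty B) (h1 : z ∈ A) (h2 : z ∈ B)
    (h3 : z ≠ 1) : Adj A B := .of_mem (by rintro rfl; tauto) h1 h2 h3

theorem ty_nb (hA : Vx M q A) (hB : Vx M q B) (hD : Vx M q D) (h1 : Adj A B) (h2 : Adj A D) :
    ty B ↔ ty D := by
  have := T.ne_ty hA hB h1; have := T.ne_ty hA hD h2; tauto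

theorem ty_cj (hg : g ∈ N M) (hA : Vx M q A) (hB : Vx M q B) (h : ty A ↔ ty B) :
    ty (cj g A) ↔ ty (cj g B) := by
  by_cases e : A = B
  · rw [e]
  obtain ⟨D, hD, h1, h2⟩ := T.join hA hB e h
  exact T.ty_nb (hD.cjN hg) (hA.cjN hg) (hB.cjN hg) (adj_cj.2 h1.symm) (adj_cj.2 h2.symm)

theorem pres (hg : g ∈ N M) (hA : Vx M q A) (h : ty (cj g A) ↔ ty A) (hB : Vx M q B) :
    ty (cj g B) ↔ ty B := by
  have h1 := T.ty_cj hg hA hB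
  have h2 := T.ty_cj (inv_mem hg) (hA.cjN hg) (hB.cjN hg)
  rw [cj_inv_cj, cj_inv_cj] at h2
  tauto

theorem pres_fix (hg : g ∈ N M) (hA : Vx M q A) (h : cj g A = A) (hB : Vx M q B) :
    ty (cj g B) ↔ ty B := T.pres hg hA (by rw [h]) hB

theorem exists_ty (b : Prop) : ∃ A, Vx M q A ∧ (ty A ↔ b) := by
  obtain ⟨A, h1, h2, -⟩ := T.cover 1 (one_mem _) (mul_one 1) b
  exact ⟨A, h1, h2⟩

theorem ne_bot (hA : Vx M q A) : A ≠ ⊥ := one_lt_card.1 (by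
  rw [hA.2.2]; have := T.two; nlinarith)

theorem gen (h : ∀ A, Vx M q A → A ≤ X) : M ≤ X := by
  obtain ⟨A, hA, -⟩ := T.exists_ty True
  rcases T.simple (sSup {A | Vx M q A}) ⟨sSup_le fun _ h => h.1,
    Nrm.sSup fun g hg _ h => Vx.cjM h hg⟩ with e | e
  · exact absurd (eq_bot_iff.2 ((le_sSup (s := {A | Vx M q A}) hA).trans e.le)) (T.ne_bot hA)
  · exact e.ge.trans (sSup_le h)

theorem gen' (b : Prop) (h : ∀ A, Vx M q A → (ty A ↔ b) → A ≤ X) : M ≤ X :=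
  T.gen fun A hA a ha => by
    obtain ⟨B, h1, h2, h3⟩ := T.cover a (hA.1 ha) (hA.sq ha) b
    exact h B h1 h2 h3

theorem ty_mem (hg : g ∈ M) (hA : Vx M q A) : ty (cj g A) ↔ ty A := by
  let X : Subgroup G :=
    { carrier := {g | g ∈ N M ∧ ∀ B, Vx M q B → (ty (cj g B) ↔ ty B)}
      one_mem' := ⟨one_mem _, fun B _ => by rw [cj_one]⟩
      mul_mem' := fun h1 h2 => ⟨mul_mem h1.1 h2.1, fun B hB => by
        rw [← cj_cj, h1.2 _ (hB.cjN h2.1), h2.2 _ hB]⟩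
      inv_mem' := fun h => ⟨inv_mem h.1, fun B hB => by
        rw [← h.2 _ (hB.cjN (inv_mem h.1)), cj_cj_inv]⟩ }
  exact (T.gen (X := X) (fun B hB b hb => ⟨hB.leN hb, fun _ => T.pres_fix (hB.leN hb) hB
    (cj_self hb)⟩) hg).2 A hA

theorem cj_eq_of_comm (hg : g ∈ N M) (hA : Vx M q A) (h : ty (cj g A) ↔ ty A) (hz : z ∈ A)
    (h1 : z ≠ 1) (h2 : g * z = z * g) : cj g A = A :=
  T.eq_of_mem (hA.cjN hg) hA h (mem_cj_of_comm hz h2) hz h1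

theorem nrm (hA : Vx M q A) (hB : Vx M q B) (h : Adj A B) (ha : a ∈ A) : cj a B = B := by
  obtain ⟨z, h1, h2, h3⟩ := h.exists
  exact T.cj_eq_of_comm (hA.leN ha) hB (T.ty_mem (hA.1 ha) hB) h2 h3 (hA.comm ha h1)

theorem nrm' (hA : Vx M q A) (hB : Vx M q B) (h : Adj A B) : Nrm A B :=
  nrm_of_le_N fun _ ha => mem_N.2 (T.nrm hA hB h ha)

theorem card_nb (hA : Vx M q A) : {B | Vx M q B ∧ Adj A B}.ncard = q + 1 := by
  have h1 := ncard_eq_mul_of_rel (A := sharp A) (B := {B | Vx M q B ∧ Adj A B}) (k := q - 1)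
    (fun z B => z ∈ B) (fun z hz => by
      obtain ⟨B, h1, h2, h3⟩ := T.cover z (hA.1 hz.1) (hA.sq hz.1) (¬ ty A)
      exact ⟨B, ⟨h1, T.adj_of_mem hA h1 (by tauto) hz.1 h3 hz.2⟩, h3⟩)
    (fun z hz B hB D hD h1 h2 => T.eq_of_mem hB.1 hD.1 (T.ty_nb hA hB.1 hD.1 hB.2 hD.2) h1 h2 hz.2)
    fun B hB => by
      rw [← T.card_inf hA hB.1 hB.2, ← ncard_sharp]
      congr 1; ext z; simp only [sharp, Set.mem_ofPred_eq, mem_inf]; tauto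
  rw [ncard_sharp, hA.2.2] at h1
  obtain ⟨r, rfl⟩ := Nat.exists_eq_add_of_le' (T.two.trans' one_le_two)
  have := T.two
  refine Nat.eq_of_mul_eq_mul_right (m := r) (by omega) ?_
  rw [Nat.add_sub_cancel] at h1
  rw [← h1]; symm; apply Nat.eq_sub_of_add_eq; ring

theorem third (hA : Vx M q A) (B D : Subgroup G) : ∃ E, Vx M q E ∧ Adj A E ∧ E ≠ B ∧ E ≠ D := by
  obtain ⟨E, h1, h2⟩ := CfsgH1.exists_ne_ne_of_three_le (s := {B | Vx M q B ∧ Adj A B})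
    (by rw [T.card_nb hA]; have := T.two; omega) B D
  exact ⟨E, h1.1, h1.2, h2⟩

theorem card_nb' (hA : Vx M q A) (hB : Vx M q B) (h : Adj A B) :
    {D | Vx M q D ∧ Adj A D ∧ D ≠ B}.ncard = q := by
  have := Set.ncard_sdiff_singleton_of_mem (s := {B | Vx M q B ∧ Adj A B}) ⟨hB, h⟩
  rw [T.card_nb hA, Nat.add_sub_cancel] at this
  refine Eq.trans ?_ this; congr 1; ext; simp [and_assoc]

theorem card_ty (b : Prop) : {B | Vx M q B ∧ (ty B ↔ b)}.ncard = q ^ 2 + q + 1 := by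
  obtain ⟨A, hA, hb⟩ := T.exists_ty b
  have h1 := ncard_eq_mul_of_rel (A := {B | Vx M q B ∧ (ty B ↔ b)} \ {A})
    (B := {B | Vx M q B ∧ Adj A B}) (k := q) Adj (fun B hB => by
      obtain ⟨D, h1, h2, h3⟩ := T.join hA hB.1.1 (Ne.symm hB.2) (hb.trans hB.1.2.symm)
      exact ⟨D, ⟨h1, h2⟩, h3⟩)
    (fun B hB D hD E hE h1 h2 => (T.uniq hB.1.1 hA hD.1 hE.1 h1 hD.2 h2 hE.2).resolve_left hB.2)
    fun D hD => by
      refine Eq.trans ?_ (T.card_nb' hD.1 hA hD.2.symm)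
      congr 1; ext B
      exact ⟨fun h => ⟨h.1.1.1, h.2.symm, h.1.2⟩, fun h => ⟨⟨⟨h.1,
        (T.ty_nb hD.1 h.1 hA h.2.1 hD.2.symm).trans hb⟩, h.2.2⟩, h.2.1.symm⟩⟩
  rw [← Set.ncard_sdiff_singleton_add_one (a := A) (s := {B | Vx M q B ∧ (ty B ↔ b)}) ⟨hA, hb⟩, h1, T.card_nb hA]; ring

theorem card_opp (hA : Vx M q A) :
    {W | Vx M q W ∧ (ty A ↔ ¬ ty W) ∧ ¬ Adj A W}.ncard = q ^ 2 := by
  have := Set.ncard_sdiff (s := {B | Vx M q B ∧ Adj A B}) (t := {B | Vx M q B ∧ (ty B ↔ ¬ ty A)})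
    fun B hB => ⟨hB.1, T.ne_ty hB.1 hA hB.2.symm⟩
  rw [T.card_nb hA, T.card_ty, add_assoc, Nat.add_sub_cancel] at this
  rw [← this]; congr 1; ext W
  simp only [Set.mem_ofPred_eq, Set.mem_sdiff]; tauto

theorem exists_opp (hA : Vx M q A) : ∃ W, Vx M q W ∧ (ty A ↔ ¬ ty W) ∧ ¬ Adj A W :=
  (Set.ncard_pos (s := {W | Vx M q W ∧ (ty A ↔ ¬ ty W) ∧ ¬ Adj A W})).1 (by
    rw [T.card_opp hA]; have := T.two; positivity)

theorem even : 2 ∣ q := by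
  obtain ⟨A, hA, -⟩ := T.exists_ty True
  exact Nat.prime_two.dvd_of_dvd_pow (hA.2.2 ▸ prime_dvd_card_of_isPGroup Nat.prime_two hA.p2
    (T.ne_bot hA))

theorem semi (hA : Vx M q A) (hB : Vx M q B) (hD : Vx M q D) (h1 : Adj A B) (h2 : Adj A D)
    (h3 : D ≠ B) (hb : b ∈ B) (h : cj b D = D) : b ∈ A := by
  by_contra n
  have b1 : b ≠ 1 := fun e => n (e ▸ one_mem _)
  obtain ⟨E, hE, h4, h5⟩ := T.cover b (hB.1 hb) (hB.sq hb) (ty A)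
  rcases T.uniq hA hE hB hD h1 (T.adj_of_mem hE hB (h4.trans (T.ne_ty hA hB h1)) h5 hb b1) h2
    (T.fix hE hD (h4.trans (T.ne_ty hA hD h2)) h5 b1 h) with e | e
  exacts [n (e ▸ h5), h3 e.symm]

theorem relIndex_eq (hA : Vx M q A) (hB : Vx M q B) (h : Adj A B) : A.relIndex B = q := by
  have := card_inf_mul_relIndex A B
  rwa [T.card_inf hA hB h, hB.2.2, sq, mul_right_inj' (by have := T.two; omega)] at this

theorem trans_nb (hA : Vx M q A) (hB : Vx M q B) (h : Adj A B) (hX : X ≤ B) (h1 : q ≤ A.relIndex X)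
    (hD : Vx M q D) (h2 : Adj A D) (h3 : D ≠ B) (hE : Vx M q E) (h4 : Adj A E) (h5 : E ≠ B) :
    ∃ b ∈ X, cj b D = E :=
  trans_of_card (Λ := {D | Vx M q D ∧ Adj A D ∧ D ≠ B}) (S := A)
    (fun b hb => ⟨hD.cjM (hB.1 (hX hb)), T.nrm hB hA h.symm (hX hb) ▸ adj_cj.2 h2,
      fun e => h3 (cj_inj.1 (e.trans (cj_self (hX hb)).symm))⟩)
    (fun b hb e => T.semi hA hB hD h h2 h3 (hX hb) e) ((T.card_nb' hA hB h).le.trans h1) ⟨hE, h4, h5⟩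

theorem trans_nb' (hA : Vx M q A) (hB : Vx M q B) (h : Adj A B)
    (hD : Vx M q D) (h2 : Adj A D) (h3 : D ≠ B) (hE : Vx M q E) (h4 : Adj A E) (h5 : E ≠ B) :
    ∃ b ∈ B, cj b D = E := T.trans_nb hA hB h le_rfl (T.relIndex_eq hA hB h).ge hD h2 h3 hE h4 h5

theorem trans_opp (hA : Vx M q A) (hD : Vx M q D) (h2 : ty A ↔ ¬ ty D) (h3 : ¬ Adj A D)
    (hE : Vx M q E) (h4 : ty A ↔ ¬ ty E) (h5 : ¬ Adj A E) : ∃ a ∈ A, cj a D = E :=
  trans_of_card (Λ := {W | Vx M q W ∧ (ty A ↔ ¬ ty W) ∧ ¬ Adj A W}) (S := ⊥)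
    (fun a ha => ⟨hD.cjM (hA.1 ha), by
      change _ ↔ ¬ ty (cj a D); rwa [T.ty_mem (hA.1 ha) hD], fun e => h3 (adj_cj.1
        ((cj_self ha).symm ▸ e))⟩)
    (fun a ha e => by_contra fun n => h3 (T.fix hA hD h2 ha n e))
    (by rw [T.card_opp hA, relIndex_bot_left, hA.2.2]) ⟨hE, h4, h5⟩

theorem cent (hA : Vx M q A) (hB : Vx M q B) (h : Adj A B) (ha : a ∈ A) (hb : b ∈ B)
    (e : b * a = a * b) : a ∈ B ∨ b ∈ A := by
  refine or_iff_not_imp_left.2 fun n => ?_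
  have a1 : a ≠ 1 := fun e => n (e ▸ one_mem _)
  obtain ⟨D, hD, h4, h5⟩ := T.cover a (hA.1 ha) (hA.sq ha) (ty B)
  exact T.semi hA hB hD h (T.adj_of_mem hA hD ((T.ne_ty hA hB h).trans h4.not.symm) ha h5 a1)
    (fun e => n (e ▸ h5)) hb (T.cj_eq_of_comm (hB.leN hb) hD (T.ty_mem (hB.1 hb) hD) h5 a1 e)

theorem comm_mem (hA : Vx M q A) (hB : Vx M q B) (h : Adj A B) (ha : a ∈ A) (hb : b ∈ B) :
    ⁅b, a⁆ ∈ A ⊓ B :=
  mem_inf.2 ⟨mul_mem (T.nrm' hB hA h.symm b hb a ha) (inv_mem ha), by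
    simpa [commutatorElement_def, mul_assoc] using mul_mem hb (T.nrm' hA hB h a ha _ (inv_mem hb))⟩

theorem cls (hA : Vx M q A) (hB : Vx M q B) (h : Adj A B) (ha : a ∈ A) (n : a ∉ B)
    (hz : z ∈ A ⊓ B) : ∃ b ∈ B, b * a * b⁻¹ = z * a := by
  obtain ⟨_, rfl, u, hu, h⟩ := (Set.eq_of_subset_of_ncard_le
    (clSupp_subset fun b hb => T.comm_mem hA hB h ha hb) (by
      rw [ncard_image_mul, ncard_class, T.card_inf hA hB h, ← T.relIndex_eq hA hB h,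
        ← inf_relIndex_right (C1 a)]
      exact relIndex_le_of_le_left (fun b hb => (T.cent hA hB h ha hb.2
        (mem_C1.1 hb.1)).resolve_left n) (relIndex_ne_zero' _ _))).ge ⟨z, hz, rfl⟩
  exact ⟨u, hu, h.symm⟩

theorem trans_sharp (hA : Vx M q A) (hX : ∀ B, Vx M q B → Adj A B → B ≤ X) (ha : a ∈ A) (a1 : a ≠ 1)
    (hb : b ∈ A) (b1 : b ≠ 1) : ∃ g ∈ X, g * a * g⁻¹ = b := by
  have key : ∀ {a b B}, a ∈ A → b ∈ A → Vx M q B → Adj A B → a ∈ B → a ≠ 1 → b ∉ B →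
      ∃ g ∈ X, g * a * g⁻¹ = b := fun {a b B} ha hb hB h haB a1 n => by
    have h1 := mul_mem hb ha
    obtain ⟨D, hD, h4, h5⟩ := T.cover _ (hA.1 h1) (hA.sq h1) (ty B)
    have n1 : b * a ∉ B := by rwa [mul_mem_cancel_right haB]
    have h6 := T.adj_of_mem hA hD ((T.ne_ty hA hB h).trans h4.not.symm) h1 h5
      fun e => n1 (e ▸ one_mem _)
    obtain ⟨g, hg, e⟩ := T.cls hA hD h6 ha (fun e => n1 (T.eq_of_mem hD hB h4 e haB a1 ▸ h5)) ⟨h1, h5⟩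
    exact ⟨g, hX D hD h6 hg, by rw [e, mul_assoc, hA.sq ha, mul_one]⟩
  obtain ⟨B, hB, h4, h5⟩ := T.cover a (hA.1 ha) (hA.sq ha) (¬ ty A)
  have h := T.adj_of_mem hA hB (by tauto) ha h5 a1
  by_cases n : b ∈ B
  · obtain ⟨D, hD, h6, h7, -⟩ := T.third hA B B
    obtain ⟨d, d1, d2, d3⟩ := h6.exists
    have n1 : ∀ x ∈ B, x ≠ 1 → x ∉ D := fun x h1 h2 h3 =>
      h7 (T.eq_of_mem hD hB (T.ty_nb hA hD hB h6 h) h3 h1 h2)
    obtain ⟨g, hg, e⟩ := key ha d1 hB h h5 a1 fun e => n1 d e d3 d2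
    obtain ⟨g', hg', e'⟩ := key d1 hb hD h6 d2 d3 (n1 b n b1)
    exact ⟨_, mul_mem hg' hg, by rw [← e', ← e]; group⟩
  · exact key ha hb hB h h5 a1 n

theorem eq_of_nb (hA : Vx M q A) (hB : Vx M q B) (h : ∀ D, Vx M q D → Adj A D → Adj B D) : A = B := by
  obtain ⟨D, hD, h1, -⟩ := T.third hA A A
  obtain ⟨E, hE, h2, h3, -⟩ := T.third hA D D
  exact (T.uniq hA hB hD hE h1 (h D hD h1) h2 (h E hE h2)).resolve_right h3.symm

theorem cent_of_fix (hc : c ∈ N M) (b : Prop) (h : ∀ W, Vx M q W → (ty W ↔ b) → cj c W = W) :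
    c ∈ C M := by
  refine le_C1_iff.1 (T.gen' (¬ b) fun A hA h1 a ha => ?_)
  have h2 : cj c A = A := (T.eq_of_nb hA (hA.cjN hc) fun D hD h2 =>
    h D hD (by have := T.ne_ty hA hD h2; tauto) ▸ adj_cj.2 h2).symm
  obtain ⟨W, hW, h3, h4⟩ := T.exists_opp hA
  have h5 := h W hW (by tauto)
  have h6 := h _ (hW.cjM (hA.1 ha)) ((T.ty_mem (hA.1 ha) hW).trans (by tauto))
  have h7 : a⁻¹ * (c * a * c⁻¹) = 1 := by_contra fun n => h4 (T.fix hA hW h3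
    (mul_mem (inv_mem ha) (conj_mem_of_mem_N (mem_N.2 h2) ha)) n (by
      rw [← cj_cj, ← cj_cj, ← cj_cj, (cj_eq_iff.1 h5).symm, h6, cj_inv_cj]))
  rw [mem_C1_iff_conj', eq_comm, ← inv_mul_eq_one, h7]

theorem exists_cent (hc : c ∈ N M) (hA : Vx M q A) (h : c ∈ C A) : ∃ a ∈ A, a⁻¹ * c ∈ C M := by
  have h1 := fun B => T.pres_fix (B := B) hc hA (cj_of_mem_C h)
  obtain ⟨W, hW, h3, h4⟩ := T.exists_opp hA
  obtain ⟨a, ha, e⟩ := T.trans_opp hA hW h3 h4 (hW.cjN hc) (by rwa [h1 W hW])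
    fun e => h4 (adj_cj.1 ((cj_of_mem_C h).symm ▸ e))
  have h5 := mul_mem (inv_mem (hA.leN ha)) hc
  have h6 : ∀ x ∈ A, x * (a⁻¹ * c) = a⁻¹ * c * x := fun x hx => by
    rw [← mul_assoc, hA.comm hx (inv_mem ha), mul_assoc, mem_C.1 h x hx, mul_assoc]
  refine ⟨a, ha, T.cent_of_fix h5 (¬ ty A) fun D hD h7 => ?_⟩
  by_cases h8 : Adj A D
  · obtain ⟨z, z1, z2, z3⟩ := h8.exists
    exact T.cj_eq_of_comm h5 hD (T.pres_fix h5 hA (cj_of_mem_C (mem_C.2 h6)) hD) z2 z3 (h6 z z1).symm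
  · obtain ⟨x, hx, rfl⟩ := T.trans_opp hA hW h3 h4 hD (by tauto) h8
    rw [cj_cj, ← h6 x hx, ← cj_cj, ← cj_cj, ← e, cj_inv_cj]

theorem center (h1 : c ∈ M) (h2 : c ∈ C M) : c = 1 := by
  rcases T.simple (Z M) (normalIn_Z _) with e | e
  · exact mem_bot.1 (e ▸ mem_inf.2 ⟨h1, h2⟩)
  obtain ⟨A, hA, -⟩ := T.exists_ty True
  obtain ⟨W, hW, h3, h4⟩ := T.exists_opp hA
  obtain ⟨a, ha, a1⟩ := (bot_or_exists_ne_one _).resolve_left (T.ne_bot hA)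
  exact absurd (T.fix hA hW h3 ha a1 (cj_of_mem_C (C_anti hW.1 (e.ge (hA.1 ha)).2))) h4

theorem mem_or (hA : Vx M q A) (hB : Vx M q B) (h : Adj A B) (hz : z ∈ M) (h1 : z * z = 1)
    (h2 : cj z A = A) (h3 : cj z B = B) : z ∈ A ∨ z ∈ B := by
  by_cases z1 : z = 1
  · exact .inl (z1 ▸ one_mem _)
  have h0 := T.ne_ty hA hB h
  obtain ⟨D, hD, h4, h5⟩ := T.cover z hz h1 (ty A)
  obtain ⟨E, hE, h6, h7⟩ := T.cover z hz h1 (ty B)
  rcases T.uniq hA hD hB hE h (T.fix hD hB (by tauto) h5 z1 h3)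
    (T.fix hE hA (by tauto) h7 z1 h2).symm (T.adj_of_mem hD hE (by tauto) h5 h7 z1) with e | e
  exacts [.inl (e ▸ h5), .inr (e ▸ h7)]

theorem trans_ty (hA : Vx M q A) (hB : Vx M q B) (h : ty A ↔ ty B) : ∃ g ∈ M, cj g A = B := by
  by_cases e : A = B
  · exact ⟨1, one_mem _, by rw [cj_one, e]⟩
  obtain ⟨D, hD, h1, h2⟩ := T.join hA hB e h
  obtain ⟨E, hE, h3, h4, h5⟩ := T.third hD A B
  obtain ⟨g, hg, e⟩ := T.trans_nb' hD hE h3 hA h1.symm h4.symm hB h2.symm h5.symm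
  exact ⟨g, hE.1 hg, e⟩

theorem trans_flag (hA : Vx M q A) (hB : Vx M q B) (h : Adj A B) (hD : Vx M q D) (hE : Vx M q E)
    (h' : Adj D E) (h1 : ty A ↔ ty D) : ∃ g ∈ M, cj g A = D ∧ cj g B = E := by
  obtain ⟨g, hg, rfl⟩ := T.trans_ty hA hD h1
  obtain ⟨W, hW, h3, h4, h5⟩ := T.third hD (cj g B) E
  obtain ⟨w, hw, e⟩ := T.trans_nb' hD hW h3 (hB.cjM hg) (adj_cj.2 h) h4.symm hE h' h5.symm
  exact ⟨_, mul_mem (hW.1 hw) hg, by rw [← cj_cj, T.nrm hW hD h3.symm hw], by rw [← cj_cj, e]⟩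

theorem adj_of_le (hX : ¬ M ≤ X) (hA : Vx M q A) (hB : Vx M q B) (h : Adj A B) (h1 : A ≤ X)
    (h2 : B ≤ X) (hD : Vx M q D) (h3 : D ≤ X) (h4 : ty A ↔ ¬ ty D) : Adj A D := by
  by_contra n
  have h5 : ∀ E, Vx M q E → (ty A ↔ ¬ ty E) → ¬ Adj A E → E ≤ X := fun E hE h5 h6 => by
    obtain ⟨a, ha, rfl⟩ := T.trans_opp hA hD h4 n hE h5 h6
    exact cj_le_of_le h3 (h1 ha)
  refine hX (T.gen' (¬ ty A) fun E hE h6 => ?_)
  by_cases h7 : Adj A E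
  · obtain ⟨Y, hY, h8, h9, -⟩ := T.third hE A A
    have h10 : ∀ W, Vx M q W → Adj Y W → W ≠ E → W ≤ X := fun W hW h10 h11 =>
      h5 W hW (by have := T.ty_nb hY hW hE h10 h8.symm; tauto) fun h12 =>
        (T.uniq hY hA hW hE h10 h12 h8.symm h7).elim h9 h11
    obtain ⟨W, hW, h11, h12, -⟩ := T.third hY E E
    obtain ⟨W', hW', h13, h14, h15⟩ := T.third hY E W
    obtain ⟨w, hw, rfl⟩ := T.trans_nb' hY hW h11 hW' h13 h15 hE h8.symm h12.symm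
    exact cj_le_of_le (h10 W' hW' h13 h14) (h10 W hW h11 h12 hw)
  · exact h5 E hE (by tauto) h7

theorem star_of (hX : ¬ M ≤ X) (hA : Vx M q A) (hB : Vx M q B) (h : Adj A B) (h1 : A ≤ X)
    (h2 : B ≤ X) (hD : Vx M q D) (h3 : D ≤ X) (h4 : Adj A D) (h5 : D ≠ B) (hE : Vx M q E) :
    E ≤ X ↔ E = A ∨ Adj A E := by
  refine ⟨fun h6 => ?_, ?_⟩
  · by_cases h7 : ty A ↔ ¬ ty E
    · exact .inr (T.adj_of_le hX hA hB h h1 h2 hE h6 h7)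
    have h8 := T.ne_ty hA hB h
    have h9 := T.ne_ty hA hD h4
    exact .inl ((T.uniq hE hA hB hD (T.adj_of_le hX hB hA h.symm h2 h1 hE h6 (by tauto)).symm h
      (T.adj_of_le hX hD hA h4.symm h3 h1 hE h6 (by tauto)).symm h4).resolve_right h5.symm)
  rintro (rfl | h6)
  · exact h1
  by_cases e : E = B
  · exact e ▸ h2
  obtain ⟨b, hb, rfl⟩ := T.trans_nb' hA hB h hD h4 h5 hE h6 e
  exact cj_le_of_le h3 (h2 hb)

theorem shape (hX : ¬ M ≤ X) (hA : Vx M q A) (hB : Vx M q B) (h : Adj A B) (h1 : A ≤ X)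
    (h2 : B ≤ X) : (∀ E, Vx M q E → E ≤ X → E = A ∨ E = B) ∨
      ∃ A, Vx M q A ∧ ∀ E, Vx M q E → (E ≤ X ↔ E = A ∨ Adj A E) := by
  refine or_iff_not_imp_left.2 fun n => ?_
  push Not at n
  obtain ⟨D, hD, h3, h4, h5⟩ := n
  have h8 := T.ne_ty hA hB h
  by_cases h7 : ty A ↔ ¬ ty D
  · exact ⟨A, hA, fun E => T.star_of hX hA hB h h1 h2 hD h3
      (T.adj_of_le hX hA hB h h1 h2 hD h3 h7) h5⟩
  · exact ⟨B, hB, fun E => T.star_of hX hB hA h.symm h2 h1 hD h3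
      (T.adj_of_le hX hB hA h.symm h2 h1 hD h3 (by tauto)) h4⟩

end Tri

end CfsgL3
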