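import Cfsg.Agent.H4.L3a

set_option autoImplicit false
set_option linter.unusedSectionVars false

/-! Collineations of the plane of `L₃(q)`, `q` even. -/

namespace CfsgL3

open Subgroup CfsgH5 CfsgH6 CfsgFT CfsgSZ MulAction
open scoped commutatorElement

universe u

variable {G : Type u} [Group G] [Finite G]

theorem exists_fix_of_invol {α : Type*} [Finite α] {Λ : Set α} (θ : α → α) (h1 : ∀ x ∈ Λ, θ x ∈ Λ)
    (h2 : ∀ x ∈ Λ, θ (θ x) = x) (h3 : ¬ 2 ∣ Λ.ncard) : ∃ x ∈ Λ, θ x = x := by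
  classical
  have := Fintype.ofFinite Λ
  have h4 : Function.Involutive fun x : Λ => (⟨θ x, h1 x x.2⟩ : Λ) := fun x => Subtype.ext (h2 x x.2)
  obtain ⟨x, hx⟩ := Equiv.Perm.exists_fixed_point_of_prime (p := 2) (n := 1) (σ := h4.toPerm)
    (by rwa [← Nat.card_eq_fintype_card]) (Equiv.ext h4)
  exact ⟨x, x.2, congrArg Subtype.val hx⟩

theorem exists_sq {X : Subgroup G} (h : ¬ Odd (Nat.card X)) : ∃ e ∈ X, e ≠ 1 ∧ e * e = 1 := by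
  obtain ⟨u, hu, h⟩ := exists_mem_orderOf_eq Nat.prime_two (Nat.not_odd_iff_even.1 h).two_dvd
  refine ⟨u, hu, fun e => ?_, by rw [← pow_two, ← h, pow_orderOf_eq_one]⟩
  rw [e, orderOf_one] at h; exact absurd h (by decide)

theorem le_of_card_lt {X Y : Subgroup G} (h : Nat.card X < 2 * Nat.card ↥(Y ⊓ X)) : X ≤ Y := by
  rw [← card_inf_mul_relIndex Y X, mul_comm 2] at h
  have := Nat.lt_of_mul_lt_mul_left h
  have := relIndex_pos Y X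
  exact relIndex_eq_one.1 (by omega)

variable {M A B D E W X : Subgroup G} {q : ℕ} {ty : Subgroup G → Prop} {a b c g z : G}

namespace Tri

variable (T : Tri M q ty)
include T

theorem exists_notMem (hA : Vx M q A) (hB : Vx M q B) (h : A ≠ B) : ∃ b ∈ B, b ∉ A := by
  by_contra n
  push Not at n
  exact h (eq_of_le_of_card_eq n (hB.2.2.trans hA.2.2.symm)).symm

theorem inf_eq_bot (hA : Vx M q A) (hB : Vx M q B) (h : ty A ↔ ty B) (n : A ≠ B) : A ⊓ B = ⊥ :=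
  eq_bot_iff.2 fun _ hz => by_contra fun e => n (T.eq_of_mem hA hB h hz.1 hz.2 e)

theorem card_sup (hA : Vx M q A) (hB : Vx M q B) (h : Adj A B) : Nat.card ↥(A ⊔ B) = q ^ 3 := by
  have := card_sup_mul (.inl (T.nrm' hA hB h))
  rw [T.card_inf hA hB h, hA.2.2, hB.2.2] at this
  refine Nat.eq_of_mul_eq_mul_right (m := q) (by have := T.two; omega) ?_
  rw [this]; ring

theorem p2_sup (hA : Vx M q A) (hB : Vx M q B) (h : Adj A B) : IsPGroup 2 ↥(A ⊔ B) :=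
  isPGroup_sup Nat.prime_two hA.p2 hB.p2 (.inl (T.nrm' hA hB h))

theorem mem_inf_of_cent (hA : Vx M q A) (hB : Vx M q B) (h : Adj A B) (hz : z ∈ M) (h1 : z * z = 1)
    (h2 : z ∈ C A) (h3 : z ∈ C B) : z ∈ A ⊓ B := by
  obtain ⟨b, hb, n⟩ := T.exists_notMem hA hB h.1
  obtain ⟨a, ha, n'⟩ := T.exists_notMem hB hA h.1.symm
  rcases T.mem_or hA hB h hz h1 (cj_of_mem_C h2) (cj_of_mem_C h3) with e | e
  exacts [⟨e, (T.cent hA hB h e hb (mem_C.1 h3 b hb)).resolve_right n⟩,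
    ⟨(T.cent hB hA h.symm e ha (mem_C.1 h2 a ha)).resolve_right n', e⟩]

/-- an involutory homology is trivial. -/
theorem homol (θ : Subgroup G → Subgroup G) (hA : Vx M q A) (hW : Vx M q W) (h1 : ty A ↔ ¬ ty W)
    (h2 : ¬ Adj A W) (t1 : ∀ D, Vx M q D → (ty D ↔ ty A) → Vx M q (θ D) ∧ θ (θ D) = D)
    (t2 : ∀ P, Vx M q P → (ty A ↔ ¬ ty P) → ∃ P', Vx M q P' ∧ ∀ D, Vx M q D → Adj P D → Adj P' (θ D))
    (t3 : ∀ P, Vx M q P → Adj A P → ∀ D, Vx M q D → Adj P D → Adj P (θ D))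
    (t4 : ∀ D, Vx M q D → Adj W D → Adj W (θ D)) (hD : Vx M q D) (h3 : ty D ↔ ty A) : θ D = D := by
  have fx : ∀ {D P P'}, Vx M q D → (ty D ↔ ty A) → Vx M q P → Vx M q P' → P ≠ P' → Adj P D →
      Adj P' D → Adj P (θ D) → Adj P' (θ D) → θ D = D := fun hD h hP hP' n a b c d =>
    ((T.uniq hP hP' hD (t1 _ hD h).1 a b c d).resolve_left n).symm
  have fA : θ A = A := (T.eq_of_nb hA (t1 A hA .rfl).1 fun P hP h => (t3 P hP h A hA h.symm).symm).symm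
  have fW : ∀ D, Vx M q D → Adj W D → θ D = D := fun D hD h => by
    have h4 : ty D ↔ ty A := by have := T.ne_ty hW hD h; tauto
    obtain ⟨P, hP, h5, h6⟩ := T.join hA hD (fun e => h2 (e ▸ h.symm)) h4.symm
    exact fx hD h4 hP hW (fun e => h2 (e ▸ h5)) h6.symm h (t3 P hP h5 D hD h6.symm) (t4 D hD h)
  have key : ∀ D2 W0 D, Vx M q D2 → θ D2 = D2 → ¬ Adj W D2 → D2 ≠ A → Vx M q W0 → Adj A W0 →
      Adj W0 D2 → Vx M q D → (ty D ↔ ty A) → ¬ Adj W0 D → θ D = D :=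
    fun D2 W0 D h4 h5 h6 h7 h8 h9 h10 hD h11 h12 => by
    have h13 := T.ty_nb h8 h4 hA h10 h9.symm
    obtain ⟨P, hP, a1, a2⟩ := T.join hD h4 (fun e => h12 (e ▸ h10)) (h11.trans h13.symm)
    have a3 : ty A ↔ ¬ ty P := h11.symm.trans (T.ne_ty hD hP a1)
    obtain ⟨D3, a4, a5, a6⟩ := T.join hP hW (fun e => h6 (e ▸ a2.symm)) (by tauto)
    obtain ⟨P', hP', a7⟩ := t2 P hP a3
    obtain rfl := (T.uniq hP hP' h4 a4 a2.symm (h5 ▸ a7 D2 h4 a2.symm) a5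
      (fW D3 a4 a6 ▸ a7 D3 a4 a5)).resolve_right fun e => h6 (e ▸ a6)
    obtain ⟨Q, hQ, b1, b2⟩ := T.join hA hD (fun e => h12 (e ▸ h9.symm)) h11.symm
    refine fx hD h11 hP hQ (fun e => h12 ?_) a1.symm b2.symm (a7 D hD a1.symm) (t3 Q hQ b1 D hD b2.symm)
    exact (T.uniq h4 hA hP h8 a2 (e ▸ b1) h10.symm h9).resolve_left h7 ▸ a1.symm
  have jn : ∀ W0, Vx M q W0 → Adj A W0 → ∃ D1, Vx M q D1 ∧ Adj W0 D1 ∧ D1 ≠ A ∧ Adj W D1 ∧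
      ∀ D, Vx M q D → Adj W0 D → Adj W D → D = D1 := fun W0 h4 h5 => by
    have n : W0 ≠ W := fun e => h2 (e ▸ h5)
    obtain ⟨D1, a1, a2, a3⟩ := T.join h4 hW n (by have := T.ne_ty hA h4 h5; tauto)
    exact ⟨D1, a1, a2, fun e => h2 (e ▸ a3.symm), a3, fun D hD a b =>
      (T.uniq h4 hW hD a1 a b a2 a3).resolve_left n⟩
  obtain ⟨W0, a1, a2, -⟩ := T.third hA A A
  obtain ⟨D1, b1, b2, b3, b4, b5⟩ := jn W0 a1 a2
  obtain ⟨D2, ⟨⟨c1, c2, c3⟩, c4⟩, c5⟩ := exists_fix_of_invol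
    (Λ := {D | Vx M q D ∧ Adj W0 D ∧ D ≠ A} \ {D1}) θ (fun D ⟨⟨c1, c2, c3⟩, c4⟩ => by
      have := t1 D c1 (T.ty_nb a1 c1 hA c2 a2.symm)
      exact ⟨⟨this.1, t3 W0 a1 a2 D c1 c2, fun e => c3 (by rw [← this.2, e, fA])⟩,
        fun e => c4 (by rw [← this.2, e]; exact fW D1 b1 b4)⟩)
    (fun D h => (t1 D h.1.1 (T.ty_nb a1 h.1.1 hA h.1.2.1 a2.symm)).2) (by
      rw [Set.ncard_sdiff_singleton_of_mem (s := {D | Vx M q D ∧ Adj W0 D ∧ D ≠ A}) ⟨b1, b2, b3⟩,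
        T.card_nb' a1 hA a2.symm]
      have := T.even; have := T.two; omega)
  have k1 := fun D => key D2 W0 D c1 c5 (fun h => c4 (b5 D2 c1 c2 h)) c3 a1 a2 c2
  by_cases h4 : Adj W0 D
  swap
  · exact k1 D hD h3 h4
  by_cases h5 : D = A
  · rw [h5, fA]
  obtain ⟨W1, d1, d2, d3, -⟩ := T.third hA W0 W0
  obtain ⟨E1, -, -, -, -, e5⟩ := jn W1 d1 d2
  obtain ⟨D3, f1, f2, f3, f4⟩ := T.third d1 A E1
  exact key D3 W1 D f1 (k1 D3 f1 (T.ty_nb d1 f1 hA f2 d2.symm) fun h =>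
    (T.uniq d1 a1 f1 hA f2 h d2.symm a2.symm).elim d3 f3) (fun h => f4 (e5 D3 f1 f2 h)) f3 d1 d2 f2
    hD h3 fun h => (T.uniq d1 a1 hD hA h h4 d2.symm a2.symm).elim d3 h5

theorem axis (hc : c ∈ N M) (h1 : c * c = 1) (hA : Vx M q A)
    (h : ∀ P, Vx M q P → Adj A P → cj c P = P) : ∃ a ∈ A, a⁻¹ * c ∈ C M := by
  have h2 : cj c A = A := (T.eq_of_nb hA (hA.cjN hc) fun D hD h2 => h D hD h2 ▸ adj_cj.2 h2).symm
  obtain ⟨W, hW, h3, h4⟩ := T.exists_opp hA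
  obtain ⟨a, ha, e⟩ := T.trans_opp hA hW h3 h4 (hW.cjN hc) (by rwa [T.pres_fix hc hA h2 hW])
    fun e => h4 (adj_cj.1 (h2.symm ▸ e))
  have h5 := mul_mem (inv_mem (hA.leN ha)) hc
  have h6 : cj (a⁻¹ * c) W = W := by rw [← cj_cj, ← e, cj_inv_cj]
  have h7 : a⁻¹ * c * (a⁻¹ * c) = 1 := by_contra fun n => h4 (T.fix hA hW h3 (by
    simpa [mul_assoc, inv_eq_of_sq h1] using mul_mem (inv_mem ha)
      (conj_mem_of_mem_N (mem_N.2 h2) (inv_mem ha))) n (by rw [← cj_cj, h6, h6]))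
  refine ⟨a, ha, T.cent_of_fix h5 (ty A) fun D hD => T.homol _ hA hW h3 h4
    (fun D hD _ => ⟨hD.cjN h5, by rw [cj_cj, h7, cj_one]⟩)
    (fun P hP _ => ⟨_, hP.cjN h5, fun D _ => adj_cj.2⟩) (fun P hP h8 D _ h9 => ?_)
    (fun D _ h8 => h6 ▸ adj_cj.2 h8) hD⟩
  have := (adj_cj (g := a⁻¹ * c)).2 h9
  rwa [← cj_cj a⁻¹ c P, h P hP h8, T.nrm hA hP h8 (inv_mem ha)] at this

theorem half (hA : Vx M q A) (hB : Vx M q B) (h : Adj A B) (hD : Vx M q D) (h1 : Adj B D)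
    (h2 : D ≠ A) (h3 : X ≤ N B) (h4 : X ≤ N D)
    (h5 : q < 2 * {E | Vx M q E ∧ Adj A E ∧ E ≠ B ∧ X ≤ N E}.ncard) (hE : Vx M q E) (h6 : Adj A E) :
    X ≤ N E := by
  obtain ⟨E0, a1, a2, a3, a4⟩ := (Set.ncard_pos
    (s := {E | Vx M q E ∧ Adj A E ∧ E ≠ B ∧ X ≤ N E})).1 (by omega)
  have h7 := T.inf_eq_bot hA hD (T.ty_nb hB hA hD h.symm h1) h2.symm
  have h8 := fun E => T.trans_nb (E := E) hA hB h (X := B ⊓ D) inf_le_left (by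
    rw [relIndex_of_inf_eq_bot (eq_bot_iff.2 ((inf_le_inf_left _ inf_le_right).trans h7.le)),
      T.card_inf hB hD h1]) a1 a2 a3
  have h9 : B ⊓ D ≤ C X := le_of_card_lt (by
    rw [T.card_inf hB hD h1]
    refine h5.trans_le (Nat.mul_le_mul_left _ ((Set.ncard_le_ncard (t := (fun r => cj r E0) ''
      (C X ⊓ (B ⊓ D) : Subgroup G)) ?_).trans (Set.ncard_image_le)))
    rintro E ⟨b1, b2, b3, b4⟩
    obtain ⟨r, hr, rfl⟩ := h8 E b1 b2 b3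
    refine ⟨r, ⟨mem_C.2 fun y hy => ?_, hr⟩, rfl⟩
    have c1 := mul_mem (inv_mem hr) (((nrm_of_le_N h3).inf (nrm_of_le_N h4)) y hy r hr)
    have c2 := mem_bot.1 (h7 ▸ mem_inf.2 ⟨T.semi hA hB a1 h a2 a3 c1.1 (by
      rw [← cj_cj, ← cj_cj, ← cj_cj, mem_N.1 (inv_mem (a4 hy)), mem_N.1 (b4 hy), cj_inv_cj]), c1.2⟩)
    rwa [inv_mul_eq_one, eq_mul_inv_iff_mul_eq, eq_comm] at c2)
  by_cases e : E = B
  · exact e ▸ h3
  obtain ⟨r, hr, rfl⟩ := h8 E hE h6 e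
  exact fun y hy => mem_N.2 (by rw [cj_cj, mem_C.1 (h9 hr) y hy, ← cj_cj, mem_N.1 (a4 hy)])

theorem odd_mul (hA : Vx M q A) (hD : Vx M q D) (hE : Vx M q E) (h1 : Adj A D) (h2 : Adj A E)
    (h3 : D ≠ E) (ha : a ∈ D) (h4 : a ∉ A) (hb : b ∈ E) (h5 : b ∉ A) : ¬ 2 ∣ orderOf (a * b) := by
  rintro ⟨k, hk⟩
  have a2 := hD.sq ha
  have b2 := hE.sq hb
  have y1 : (a * b) ^ k ≠ 1 := pow_ne_one_of_lt_orderOf (by have := orderOf_pos (a * b); omega)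
    (by have := orderOf_pos (a * b); omega)
  have y2 : (a * b) ^ k * (a * b) ^ k = 1 := by rw [← pow_add, ← two_mul, ← hk, pow_orderOf_eq_one]
  have y3 := conj_pow_inv (u := a) (c := a * b) (by
    rw [mul_inv_rev, inv_eq_of_sq a2, inv_eq_of_sq b2, ← mul_assoc, a2, one_mul]) k
  have y4 := conj_pow_inv (u := b) (c := a * b) (by
    rw [mul_inv_rev, inv_eq_of_sq a2, inv_eq_of_sq b2, mul_assoc, mul_assoc, b2, mul_one]) k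
  rw [inv_eq_of_sq y2, mul_inv_eq_iff_eq_mul] at y3 y4
  have y5 := pow_mem (mul_mem (hD.1 ha) (hE.1 hb)) k
  have y6 := mem_N.1 (pow_mem (mul_mem (mem_N.2 (T.nrm hD hA h1.symm ha))
    (mem_N.2 (T.nrm hE hA h2.symm hb))) k)
  obtain ⟨Y, hY, y7, y8⟩ := T.cover _ y5 y2 (¬ ty A)
  have key : ∀ {D x}, Vx M q D → Adj A D → x ∈ D → x ∉ A → x * (a * b) ^ k = (a * b) ^ k * x →
      D = Y := fun {D x} hD h1 hx n e => by
    have x1 : x ≠ 1 := fun e => n (e ▸ one_mem _)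
    obtain ⟨P, hP, p1, p2⟩ := T.cover x (hD.1 hx) (hD.sq hx) (ty A)
    exact (T.uniq hA hP hD hY h1 (T.adj_of_mem hP hD (p1.trans (T.ne_ty hA hD h1)) p2 hx x1)
      (T.fix hY hA y7 y8 y1 y6).symm (T.fix hY hP (by tauto) y8 y1 (T.cj_eq_of_comm (le_N _ y5) hP
        (T.ty_mem y5 hP) p2 x1 e.symm)).symm).resolve_left fun e => n (e ▸ p2)
  exact h3 ((key hD h1 ha h4 y3).trans (key hE h2 hb h5 y4).symm)

theorem torus (hA : Vx M q A) (hD : Vx M q D) (hW : Vx M q W) (h1 : Adj A D) (h2 : Adj D W)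
    (h3 : W ≠ A) (hX : ∀ B, Vx M q B → Adj A B → B ≤ X) (h4 : A ≤ X) (h5 : X ≤ M) (h6 : X ≤ N A) :
    ∃ H ≤ X, Odd (Nat.card H) ∧ H ≤ N D ∧ H ≤ N W ∧
      (∀ w ∈ D ⊓ W, w ≠ 1 → ∀ w' ∈ D ⊓ W, w' ≠ 1 → ∃ h ∈ H, h * w * h⁻¹ = w') ∧
      ∀ a ∈ A, a ∉ D → ∀ a' ∈ A, a' ∉ D → ∃ h ∈ H, h * a * h⁻¹ * a'⁻¹ ∈ D := by
  obtain ⟨Y, hY, y1, y2⟩ := T.exists_opp hD
  have t1 := T.ne_ty hA hD h1
  have t2 := T.ty_nb hD hA hW h1.symm h2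
  have key : ∀ g ∈ X, cj g D = D → cj g W = W → ∃ d ∈ D, d * g ∈ X ⊓ N D ⊓ N W ⊓ N Y :=
    fun g hg e e' => by
    obtain ⟨d, hd, h⟩ := T.trans_opp hD (hY.cjM (h5 hg)) (by rwa [T.ty_mem (h5 hg) hY])
      (fun h => y2 (adj_cj.1 (e.symm ▸ h))) hY y1 y2
    exact ⟨d, hd, ⟨⟨mul_mem (hX D hD h1 hd) hg, mul_mem (le_N _ hd) (mem_N.2 e)⟩,
      mul_mem (mem_N.2 (T.nrm hD hW h2 hd)) (mem_N.2 e')⟩, mem_N.2 (by rw [← cj_cj, h])⟩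
  refine ⟨X ⊓ N D ⊓ N W ⊓ N Y, fun _ h => h.1.1.1, by_contra fun n => ?_, fun _ h => h.1.1.2, fun _ h => h.1.2,
    fun w hw w1 w' hw' w2 => ?_, fun a ha n a' ha' n' => ?_⟩
  · obtain ⟨z, hz, z1, z2⟩ := exists_sq n
    obtain ⟨E, hE, e1, e2⟩ := T.cover z (h5 hz.1.1.1) z2 (ty D)
    exact y2 ((T.uniq hA hW hD hE h1 h2.symm (T.fix hE hA (by tauto) e2 z1
      (mem_N.1 (h6 hz.1.1.1))).symm (T.fix hE hW (by tauto) e2 z1 (mem_N.1 hz.1.2)).symm).resolve_left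
        h3.symm ▸ T.fix hE hY (by tauto) e2 z1 (mem_N.1 hz.2))
  · obtain ⟨E, hE, e1, e2, -⟩ := T.third hA D D
    obtain ⟨x, hx, n⟩ := T.exists_notMem hA hE e1.1
    have k : ∀ w ∈ D ⊓ W, w ≠ 1 → ∃ g ∈ X, g * x * g⁻¹ = w := fun w hw w1 => by
      obtain ⟨k, hk⟩ := invol_conj_of_odd (hD.sq hw.1) (hE.sq hx) (T.odd_mul hA hD hE h1 e1 e2.symm
        hw.1 (fun h => h3 (T.eq_of_mem hW hA t2.symm hw.2 h w1)) hx n)
      exact ⟨_, pow_mem (mul_mem (hX D hD h1 hw.1) (hX E hE e1 hx)) k, hk⟩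
    obtain ⟨g, hg, rfl⟩ := k w hw w1
    obtain ⟨g', hg', e⟩ := k w' hw' w2
    have g1 := mul_mem hg' (inv_mem hg)
    have g2 : g' * g⁻¹ * (g * x * g⁻¹) * (g' * g⁻¹)⁻¹ = w' := by rw [← e]; group
    obtain ⟨d, hd, h⟩ := key _ g1 (T.eq_of_mem (hD.cjM (h5 g1)) hD (T.ty_mem (h5 g1) hD)
      (g2 ▸ conj_mem_cj.2 hw.1) hw'.1 w2) (T.eq_of_mem (hW.cjM (h5 g1)) hW (T.ty_mem (h5 g1) hW)
        (g2 ▸ conj_mem_cj.2 hw.2) hw'.2 w2)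
    refine ⟨_, h, ?_⟩
    rw [← mul_inv_cancel_right w' d, ← hD.comm hd hw'.1, ← g2]; group
  · have a1 : a' ≠ 1 := fun e => n' (e ▸ one_mem _)
    obtain ⟨g, hg, e⟩ := T.trans_sharp hA hX ha (fun e => n (e ▸ one_mem _)) ha' a1
    obtain ⟨E, hE, e1, e2⟩ := T.cover a' (hA.1 ha') (hA.sq ha') (ty D)
    have e3 := T.adj_of_mem hA hE (by tauto) ha' e2 a1
    obtain ⟨d, hd, e4⟩ := T.trans_nb' hA hE e3 (hD.cjM (h5 hg)) (mem_N.1 (h6 hg) ▸ adj_cj.2 h1)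
      (fun h => n (conj_mem_cj.1 (h ▸ e ▸ e2))) hD h1 fun h => n' (h ▸ e2)
    have g1 := mul_mem (hX E hE e3 hd) hg
    rw [cj_cj] at e4
    obtain ⟨b, hb, e5⟩ := T.trans_nb' hD hA h1.symm (hW.cjM (h5 g1)) (e4 ▸ adj_cj.2 h2)
      (fun h => h3 (cj_inj.1 (h.trans (mem_N.1 (h6 g1)).symm))) hW h2 h3
    obtain ⟨d', hd', h⟩ := key _ (mul_mem (h4 hb) g1) (by rw [← cj_cj, e4, T.nrm hA hD h1 hb])
      (by rw [← cj_cj, e5])
    refine ⟨_, h, ?_⟩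
    rw [show d' * (b * (d * g)) * a * (d' * (b * (d * g)))⁻¹ =
      d' * (b * (d * (g * a * g⁻¹) * d⁻¹) * b⁻¹) * d'⁻¹ by group, e, hE.comm hd e2,
      mul_inv_cancel_right, hA.comm hb ha', mul_inv_cancel_right]
    exact (T.comm_mem hA hD h1 ha' hd').2

end Tri

end CfsgL3
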