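import Cfsg.Agent.H4.L3b

set_option autoImplicit false
set_option linter.unusedSectionVars false

/-! Doubly transitive groups of even degree with `L₃(q)`, `q` even, normal in a point stabilizer:
the stabilizers of two points (parabolic case). -/

namespace CfsgL3

open Subgroup CfsgH5 CfsgH6 CfsgFT CfsgSZ MulAction
open scoped commutatorElement

universe u v

structure Sit (G : Type u) (Ω : Type v) [Group G] [MulAction G Ω] where
  M : Ω → Subgroup G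
  q : ℕ
  ty : Ω → Subgroup G → Prop
  tri : ∀ x, Tri (M x) q (ty x)
  cj_M : ∀ g x, cj g (M x) = M (g • x)
  le_St : ∀ x, M x ≤ stabilizer G x
  two : ∀ {x y x' y' : Ω}, x ≠ y → x' ≠ y' → ∃ g : G, g • x = x' ∧ g • y = y'
  faith : ∀ g : G, (∀ x : Ω, g • x = x) → g = 1
  even : Even (Nat.card Ω)

variable {G : Type u} {Ω : Type v} [Group G] [Finite G] [MulAction G Ω] [Finite Ω]

theorem cj_St (g : G) (x : Ω) : cj g (stabilizer G x) = stabilizer G (g • x) := by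
  ext h
  rw [mem_cj, mem_stabilizer_iff, mem_stabilizer_iff, mul_smul, mul_smul, inv_smul_eq_iff]

theorem cj_le_St {g : G} {x : Ω} {A : Subgroup G} :
    cj g A ≤ stabilizer G (g • x) ↔ A ≤ stabilizer G x := by rw [← cj_St, cj_le_cj]

theorem Tri.le_sup_inf {M A D E : Subgroup G} {q : ℕ} {ty : Subgroup G → Prop} (T : Tri M q ty)
    (hA : Vx M q A) (hD : Vx M q D) (hE : Vx M q E) (h1 : Adj A D) (h2 : Adj A E) (h3 : D ≠ E) :
    A ≤ A ⊓ D ⊔ A ⊓ E := by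
  refine (eq_of_le_of_card_eq (sup_le inf_le_left inf_le_left) ?_).ge
  rw [card_sup_of_inf_eq_bot (X := A ⊓ D) (Y := A ⊓ E) (.inl (nrm_of_commute fun a ha b hb => hA.comm ha.1 hb.1))
    (eq_bot_iff.2 ((inf_le_inf inf_le_right inf_le_right).trans
      (T.inf_eq_bot hD hE (T.ty_nb hA hD hE h1 h2) h3).le)), T.card_inf hA hD h1,
    T.card_inf hA hE h2, hA.2.2, sq]

namespace Sit

variable (S : Sit G Ω)

abbrev V (x : Ω) (A : Subgroup G) : Prop := Vx (S.M x) S.q A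
def Fl (x y : Ω) : Prop := ∃ A B, S.V x A ∧ S.V x B ∧ Adj A B ∧ A ≤ stabilizer G y ∧
  B ≤ stabilizer G y ∧ ∀ E, S.V x E → E ≤ stabilizer G y → E = A ∨ E = B
def Ce (x y : Ω) (A : Subgroup G) : Prop :=
  S.V x A ∧ ∀ E, S.V x E → (E ≤ stabilizer G y ↔ E = A ∨ Adj A E)

variable {S} {x y x' y' : Ω} {A B D E : Subgroup G} {a b c g z : G}

theorem V_cj (h : S.V x A) (g : G) : S.V (g • x) (cj g A) := by
  rw [V, ← S.cj_M]; exact h.cjj g
theorem V_cj' (h : S.V (g • x) A) : S.V x (cj g⁻¹ A) := by simpa using V_cj h g⁻¹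
theorem V_St (h : S.V x A) : A ≤ stabilizer G x := h.1.trans (S.le_St x)
theorem V_of (h : S.V x A) (h' : A ≤ S.M y) : S.V y A := ⟨h', h.2⟩
theorem mem_NM (h : g • x = x) : g ∈ N (S.M x) := mem_N.2 (by rw [S.cj_M, h])
theorem conj_M (h : z ∈ S.M x) (g : G) : g * z * g⁻¹ ∈ S.M (g • x) := S.cj_M g x ▸ conj_mem_cj.2 h

variable (S) in
include S in
theorem exists_ne (x : Ω) : ∃ y, y ≠ x := by
  by_contra n
  push Not at n
  have := S.even
  rw [Nat.card_eq_one_iff_exists.2 ⟨x, n⟩] at this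
  exact absurd this (by decide)

variable (S) in
include S in
theorem trans (x y : Ω) : ∃ g : G, g • x = y := by
  obtain ⟨x', h⟩ := S.exists_ne x
  obtain ⟨y', h'⟩ := S.exists_ne y
  obtain ⟨g, h, -⟩ := S.two h.symm h'.symm
  exact ⟨g, h⟩

theorem not_le (h : x ≠ y) : ¬ S.M x ≤ stabilizer G y := fun e => by
  obtain ⟨A, hA, -⟩ := (S.tri x).exists_ty True
  refine (S.tri x).ne_bot hA (eq_bot_iff.2 fun a ha => S.faith a fun y' => ?_)
  by_cases n : x = y'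
  · exact n ▸ V_St hA ha
  obtain ⟨g, h1, rfl⟩ := S.two h n
  exact cj_le_St.2 e (by rw [S.cj_M, h1]; exact hA.1 ha)

theorem exists_move (h : x ≠ y) : ∃ n ∈ S.M x, n • y ≠ y := by
  simpa [SetLike.le_def] using not_le (S := S) h

theorem smul_ne (h : x ≠ y) (hg : g • x = x) : x ≠ g • y := fun e =>
  h ((smul_left_cancel_iff g).1 (hg.trans e))

theorem ncard_ne (x : Ω) : {y | x ≠ y}.ncard + 1 = Nat.card Ω := by
  rw [← Set.ncard_univ, ← Set.ncard_sdiff_singleton_add_one (Set.mem_univ x)]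
  congr 2; ext; simp [eq_comm]

theorem exists_flag (h : x ≠ y) : ∃ A B, S.V x A ∧ S.V x B ∧ Adj A B ∧ A ≤ stabilizer G y ∧
    B ≤ stabilizer G y := by
  obtain ⟨A, hA, -⟩ := (S.tri x).exists_ty True
  obtain ⟨B, hB, h1, -⟩ := (S.tri x).third hA A A
  have h2 := relIndex_dvd_of_normalIn (H := stabilizer G y ⊓ stabilizer G x) inf_le_right
    ⟨S.le_St x, nrm_of_le_N fun g hg => mem_NM (S := S) hg⟩
  rw [inf_relIndex_right, ← inf_relIndex_right, inf_assoc, inf_eq_right.2 (S.le_St x),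
    inf_relIndex_right, CfsgH1.relIndex_stabilizer, CfsgH1.relIndex_stabilizer,
    show {y' | ∃ g ∈ stabilizer G x, g • y = y'} = {y | x ≠ y} from Set.ext fun y' =>
      ⟨fun ⟨g, hg, e⟩ => e ▸ smul_ne h hg, fun h' => S.two h h'⟩] at h2
  obtain ⟨_, ⟨g, hg, rfl⟩, h3⟩ := exists_fixed_of_not_dvd_ncard ((S.tri x).p2_sup hA hB h1)
    {y' | ∃ g ∈ S.M x, g • y = y'} (fun u _ ⟨g, hg, e⟩ =>
      ⟨_, mul_mem (sup_le hA.1 hB.1 u.2) hg, by rw [mul_smul, e]; rfl⟩) fun e => by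
    have := e.trans h2
    have := S.even.two_dvd
    have := ncard_ne x
    omega
  have h4 : ∀ {D}, D ≤ A ⊔ B → cj g⁻¹ D ≤ stabilizer G y := fun h => by
    rw [← cj_le_St (g := g), cj_cj_inv]; exact fun d hd => h3 ⟨d, h hd⟩
  exact ⟨_, _, hA.cjM (inv_mem hg), hB.cjM (inv_mem hg), adj_cj.2 h1, h4 le_sup_left, h4 le_sup_right⟩

theorem Ce.cjj (h : S.Ce x y A) (g : G) : S.Ce (g • x) (g • y) (cj g A) :=
  ⟨V_cj h.1 g, fun E hE => by
    rw [← cj_cj_inv g E, cj_le_St, h.2 _ (V_cj' hE), cj_inj, adj_cj]⟩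

theorem Fl.cjj (h : S.Fl x y) (g : G) : S.Fl (g • x) (g • y) := by
  obtain ⟨A, B, h1, h2, h3, h4, h5, h6⟩ := h
  refine ⟨_, _, V_cj h1 g, V_cj h2 g, adj_cj.2 h3, cj_le_St.2 h4, cj_le_St.2 h5, fun E hE h => ?_⟩
  rw [← cj_cj_inv g E, cj_le_St] at h
  rw [← cj_cj_inv g E, cj_inj, cj_inj]
  exact h6 _ (V_cj' hE) h

variable (S) in
theorem shape : (∀ x y, x ≠ y → S.Fl x y) ∨ ∀ x y, x ≠ y → ∃ A, S.Ce x y A := by
  refine or_iff_not_imp_left.2 fun n x y h => ?_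
  push Not at n
  obtain ⟨x', y', h', n⟩ := n
  obtain ⟨A, B, h1, h2, h3, h4, h5⟩ := exists_flag (S := S) h'
  obtain ⟨g, rfl, rfl⟩ := S.two h' h
  obtain ⟨D, hD⟩ := ((S.tri x').shape (not_le h') h1 h2 h3 h4 h5).resolve_left fun e =>
    n ⟨A, B, h1, h2, h3, h4, h5, e⟩
  exact ⟨_, Ce.cjj hD g⟩

theorem Ce.le (h : S.Ce x y A) : A ≤ stabilizer G y := (h.2 A h.1).2 (.inl rfl)
theorem Ce.nb (h : S.Ce x y A) (hD : S.V x D) (h' : Adj A D) : D ≤ stabilizer G y :=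
  (h.2 D hD).2 (.inr h')

theorem Ce.uniq (h : S.Ce x y A) (h' : S.Ce x y B) : A = B := by
  by_contra n
  have h1 := ((h.2 B h'.1).1 h'.le).resolve_left (Ne.symm n)
  obtain ⟨E, hE, h2, h3, -⟩ := (S.tri x).third h.1 B B
  have := (S.tri x).ne_ty h'.1 hE (((h'.2 E hE).1 (h.nb hE h2)).resolve_left h3)
  have := (S.tri x).ty_nb h.1 h'.1 hE h1 h2
  tauto

theorem Ce.nrm (h : S.Ce x y A) (h1 : g • x = x) (h2 : g • y = y) : cj g A = A := by
  have := h.cjj g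
  rw [h1, h2] at this
  exact this.uniq h

theorem eq_one_of_cent (h1 : c ∈ C (S.M x)) (h2 : c • x = x)
    (h : ∀ y, x ≠ y → ∃ n ∈ S.M x, c • n • y = n • y) : c = 1 := S.faith c fun y => by
  by_cases e : x = y
  · exact e ▸ h2
  obtain ⟨n, hn, h⟩ := h y e
  rwa [← mul_smul, ← mem_C.1 h1 n hn, mul_smul, smul_left_cancel_iff] at h

section P

variable (hP : ∀ x y, x ≠ y → ∃ A, S.Ce x y A)
include hP

theorem Ce.le_M (hxy : x ≠ y) (h : S.Ce x y A) : A ≤ S.M y := by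
  by_contra n
  have T := S.tri x
  have h1 : A ⊓ S.M y = ⊥ := eq_bot_iff.2 fun z hz => by_contra fun z1 => n fun a ha => by
    by_cases a1 : a = 1
    · exact a1 ▸ one_mem _
    obtain ⟨g, hg, rfl⟩ := T.trans_sharp h.1 (fun B => h.nb) hz.1 z1 ha a1
    exact conj_mem_of_mem_N (mem_NM hg) hz.2
  have k : ∀ x' y' A', x' ≠ y' → S.Ce x' y' A' → A' ⊓ S.M y' = ⊥ := fun x' y' A' h' hA => by
    obtain ⟨g, rfl, rfl⟩ := S.two hxy h'
    rw [hA.uniq (h.cjj g), ← S.cj_M, ← cj_inf, h1, cj_bot]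
  obtain ⟨B, hB⟩ := hP y x hxy.symm
  have h2 : ∀ D, S.V x D → D ≤ stabilizer G y → B ≤ C D := fun D hD h2 b hb => mem_C.2 fun d hd => by
    have := mem_bot.1 (k y x B hxy.symm hB ▸ mem_inf.2 ⟨mul_mem (conj_mem_of_mem_N (mem_N.2
      (hB.nrm (h2 hd) (V_St hD hd))) hb) (inv_mem hb), by
        simpa [mul_assoc] using mul_mem (hD.1 hd) (conj_mem_of_mem_N (mem_NM (hB.le hb))
          (inv_mem (hD.1 hd)))⟩)
    rwa [mul_inv_eq_one, mul_inv_eq_iff_eq_mul] at this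
  have h3 : B ≤ C (S.M x) := fun b hb => T.cent_of_fix (mem_NM (hB.le hb)) _ fun W hW h3 => by
    by_cases e : A = W
    · exact cj_of_mem_C (h2 W hW (e ▸ h.le) hb)
    obtain ⟨D, hD, h4, h5⟩ := T.join h.1 hW e h3.symm
    obtain ⟨z, z1, z2, z3⟩ := h5.exists
    exact T.cj_eq_of_comm (mem_NM (hB.le hb)) hW (T.pres_fix (mem_NM (hB.le hb)) h.1
      (cj_of_mem_C (h2 A h.1 h.le hb)) hW) z1 z3 (mem_C.1 (h2 D hD (h.nb hD h4) hb) z z2).symm
  obtain ⟨g, hg, e⟩ := exists_move (S := S) hxy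
  have h4 := (hB.cjj g).1
  rw [cj_of_mem_C (le_C_symm h3 hg)] at h4
  obtain ⟨D, hD⟩ := hP y _ e.symm
  have h5 := eq_bot_iff.2 ((inf_le_inf_left D h4.1).trans (k _ _ _ e.symm hD).le)
  rcases (hD.2 B hB.1).1 (V_St h4) with e | e
  · exact (S.tri y).ne_bot hB.1 (by rwa [← e, inf_idem] at h5)
  · exact e.2 h5

theorem Ce.symm (hxy : x ≠ y) (h : S.Ce x y A) : S.Ce y x A := by
  have h1 := V_of h.1 (h.le_M hP hxy)
  obtain ⟨B, hB⟩ := hP y x hxy.symm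
  rcases (hB.2 A h1).1 (V_St h.1) with e | e
  · exact e ▸ hB
  obtain ⟨D, hD, h2, h3, -⟩ := (S.tri y).third hB.1 A A
  obtain ⟨d, hd, n⟩ := (S.tri y).exists_notMem hB.1 hD h2.1
  exact absurd ((S.tri y).semi hB.1 hD h1 h2 e h3.symm hd (h.nrm (hB.nb hD h2 hd) (V_St hD hd))) n

theorem Ce.ty_iff (hxy : x ≠ y) (hxy' : x ≠ y') (h : S.Ce x y A) (h' : S.Ce x y' B) :
    S.ty x A ↔ S.ty x B := by
  by_contra n
  obtain ⟨g, h1, rfl⟩ := S.two hxy hxy'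
  have h2 := h.cjj g
  rw [h1] at h2
  obtain rfl := h'.uniq h2
  have k : ∀ b : Prop, {y | x ≠ y ∧ ∃ A, S.Ce x y A ∧ (S.ty x A ↔ b)}.ncard ≤
      {y | x ≠ y ∧ ∃ A, S.Ce x y A ∧ (S.ty x A ↔ ¬ b)}.ncard := fun b =>
    Set.ncard_le_ncard_of_injOn (g • ·) (fun y ⟨h3, D, h4, h5⟩ => ⟨smul_ne h3 h1, cj g D,
      h1 ▸ h4.cjj g, by
        have := fun e => n ((S.tri x).pres (mem_NM h1) h4.1 e h.1).symm
        tauto⟩) (MulAction.injective g).injOn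
  have k1 := k True
  have k2 := k (¬ True)
  rw [not_not] at k2
  have h3 := ncard_ne x
  rw [show {y | x ≠ y} = {y | x ≠ y ∧ ∃ A, S.Ce x y A ∧ (S.ty x A ↔ True)} ∪
    {y | x ≠ y ∧ ∃ A, S.Ce x y A ∧ (S.ty x A ↔ ¬ True)} from Set.ext fun y => ⟨fun h => by
      obtain ⟨A, hA⟩ := hP x y h
      by_cases e : S.ty x A
      exacts [.inl ⟨h, A, hA, by tauto⟩, .inr ⟨h, A, hA, by tauto⟩], fun h => h.elim (·.1) (·.1)⟩,
    Set.ncard_union_eq (Set.disjoint_left.2 (by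
      rintro y ⟨_, A, h1, h2⟩ ⟨_, B, h3, h4⟩
      obtain rfl := h1.uniq h3; tauto))] at h3
  have := S.even.two_dvd
  omega

theorem Ce.of_le (hxy : x ≠ y) (hxy' : x ≠ y') (h : S.Ce x y A) (h' : A ≤ stabilizer G y') :
    S.Ce x y' A := by
  obtain ⟨B, hB⟩ := hP x y' hxy'
  rcases (hB.2 A h.1).1 h' with e | e
  · exact e ▸ hB
  have := (S.tri x).ne_ty hB.1 h.1 e
  have := h.ty_iff hP hxy hxy' hB
  tauto

theorem Ce.nb_le_M (hxy : x ≠ y) (h : S.Ce x y A) (hE : S.V y E) (h1 : Adj A E) : E ≤ S.M x := by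
  have T := S.tri x
  have T' := S.tri y
  have h' := h.symm hP hxy
  obtain ⟨z, z1, z2, z3⟩ := h1.exists
  obtain ⟨D, hD, h2, z4⟩ := T.cover z (h.1.1 z1) (h.1.sq z1) (¬ S.ty x A)
  have h3 := T.adj_of_mem h.1 hD (by tauto) z1 z4 z3
  have h4 : A ⊓ E ≤ A ⊓ D := fun w hw => ⟨hw.1, by_contra fun n => n ((eq_of_le_of_card_eq
    (X := A ⊓ D) (Y := A ⊓ E) (fun u hu => ⟨hu.1, by
      obtain ⟨d, hd, e⟩ := T.cls h.1 hD h3 hw.1 n hu
      have d1 := mem_NM (S := S) (h.nb hD h3 hd)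
      have := conj_mem_of_mem_N (mem_N.2 (T'.cj_eq_of_comm d1 hE
        (T'.pres_fix d1 h'.1 (T.nrm hD h.1 h3.symm hd) hE) z2 z3 (hD.comm hd z4))) hw.2
      rwa [e, mul_mem_cancel_right (mem_inf.1 hw).2] at this⟩)
    ((T.card_inf h.1 hD h3).trans (T'.card_inf h'.1 hE h1).symm)).ge hw).2⟩
  have h5 := (eq_of_le_of_card_eq h4 ((T'.card_inf h'.1 hE h1).trans (T.card_inf h.1 hD h3).symm)).ge
  intro e he
  obtain ⟨D1, hD1, h6, h7, -⟩ := T.third h.1 D D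
  have h8 := T.inf_eq_bot hD hD1 (T.ty_nb h.1 hD hD1 h3 h6) h7.symm
  obtain ⟨w, w1, w2, w3⟩ := h6.exists
  obtain ⟨d, hd, h9⟩ := T.cls h.1 hD h3 w1 (fun n => w3 (mem_bot.1 (h8 ▸ mem_inf.2 ⟨n, w2⟩)))
    (h4 (T'.comm_mem h'.1 hE h1 w1 he))
  have c1 : (d⁻¹ * e) • x = x := mul_mem (inv_mem (V_St hD hd)) (h'.nb hE h1 he)
  have c2 := mem_NM (S := S) c1
  have c3 := T.cj_eq_of_comm c2 hD1 (T.pres_fix c2 h.1 (h.nrm c1
    (mul_mem (inv_mem (h.nb hD h3 hd)) (V_St hE he))) hD1) w2 w3 (by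
      rw [commutatorElement_def, inv_mul_cancel_right] at h9
      rw [show d⁻¹ * e * w = d⁻¹ * (e * w * e⁻¹) * e by group, ← h9]; group)
  have c4 : A ⊓ D ≤ C1 (d⁻¹ * e) := fun u hu => mem_C1.2 (by
    rw [← mul_assoc, hD.comm hu.2 (inv_mem hd), mul_assoc, hE.comm (h5 hu).2 he, mul_assoc])
  have c5 : A ⊓ D1 ≤ C1 (d⁻¹ * e) := fun u hu =>
    mem_C1_iff_conj'.2 (mul_inv_eq_one.1 (mem_bot.1 (h8 ▸ mem_inf.2 ⟨by
      have := mul_mem (mul_mem (inv_mem hd) (mem_inf.1 (h4 (T'.comm_mem h'.1 hE h1 hu.1 he))).2)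
        (T.nrm' h.1 hD h3 u hu.1 d hd)
      simpa [commutatorElement_def, mul_assoc] using this,
      mul_mem (conj_mem_of_mem_N (mem_N.2 c3) hu.2) (inv_mem (mem_inf.1 hu).2)⟩)))
  obtain ⟨a, ha, h10⟩ := T.exists_cent c2 h.1 (le_C1_iff.1
    ((T.le_sup_inf h.1 hD hD1 h3 h6 h7.symm).trans (sup_le c4 c5)))
  have h11 := eq_one_of_cent h10 (mul_mem (inv_mem (V_St h.1 ha)) c1) fun y' hy => by
    obtain ⟨B, hB⟩ := hP x y' hy
    obtain ⟨n, hn, rfl⟩ := T.trans_ty hB.1 h.1 (hB.ty_iff hP hy hxy h)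
    have h11 := (cj_le_St (g := n)).2 hB.le
    refine ⟨n, hn, mul_mem (inv_mem (h11 ha)) (mul_mem (inv_mem ((h.of_le hP hxy
      (smul_ne hy (S.le_St x hn)) h11).nb hD h3 hd)) ?_)⟩
    by_cases e : y = n • y'
    · exact e ▸ V_St hE he
    · exact (h'.of_le hP hxy.symm e h11).nb hE h1 he
  rw [inv_mul_eq_one, eq_inv_mul_iff_mul_eq] at h11
  exact h11 ▸ mul_mem (hD.1 hd) (h.1.1 ha)

theorem le_M_P (hA : S.V x A) (h : A ≤ stabilizer G y) : A ≤ S.M y := by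
  by_cases e : x = y
  · exact e ▸ hA.1
  obtain ⟨B, hB⟩ := hP x y e
  rcases (hB.2 A hA).1 h with h1 | h1
  · exact h1 ▸ hB.le_M hP e
  · exact (hB.symm hP e).nb_le_M hP (Ne.symm e) hA h1

end P

end Sit

end CfsgL3
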