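import Cfsg.Agent.H4.L3c
import Cfsg.Agent.FT.BG45_b

set_option autoImplicit false
set_option linter.unusedSectionVars false

/-! Doubly transitive groups of even degree with `L₃(q)`, `q` even, normal in a point stabilizer:
the Borel case does not occur. -/

namespace CfsgL3

open Subgroup CfsgH5 CfsgH6 CfsgFT CfsgSZ MulAction
open scoped commutatorElement

universe u v

theorem ncard_le_mul_of_rel {α β : Type*} [Finite α] [Finite β] {A : Set α} {B : Set β}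
    (R : α → β → Prop) {k : ℕ} (h1 : ∀ a ∈ A, ∃ b ∈ B, R a b)
    (h3 : ∀ b ∈ B, {a | R a b}.ncard ≤ k) : A.ncard ≤ B.ncard * k := by
  classical
  have := Fintype.ofFinite α
  have := Fintype.ofFinite β
  rw [Set.ncard_eq_toFinset_card', Set.ncard_eq_toFinset_card']
  refine (Finset.card_le_card (t := B.toFinset.biUnion fun b => {a | R a b}.toFinset) fun a ha => ?_).trans
    (Finset.card_biUnion_le_card_mul _ _ _ fun b hb => ?_)
  · simpa using h1 a (by simpa using ha)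
  · rw [← Set.ncard_eq_toFinset_card']; exact h3 b (by simpa using hb)

variable {G : Type u} {Ω : Type v} [Group G] [Finite G] [MulAction G Ω] [Finite Ω]

theorem exists_cent_invol {K V : Subgroup G} (hV : IsPGroup 2 V) (h : NormalIn K V) (n : K ≠ ⊥) :
    ∃ z ∈ K, z ≠ 1 ∧ z * z = 1 ∧ z ∈ C V := by
  obtain ⟨z, hz, h1, h2⟩ := exists_sq_of_isPGroup (hV.to_le (inf_le_left.trans h.le))
    (inf_Z_ne_bot_of_nilpotent (nilpotent_of_isPGroup Nat.prime_two hV) h n)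
  exact ⟨z, hz.1, h1, h2, hz.2.2⟩

namespace Sit

variable {S : Sit G Ω} {x y x' y' : Ω} {A B D E A' B' : Subgroup G} {a b c g z : G}

def blk (x : Ω) (A B : Subgroup G) : Set Ω :=
  {y | x ≠ y ∧ A ≤ stabilizer G y ∧ B ≤ stabilizer G y}

theorem blk_comm : blk x A B = blk x B A := by ext; simp only [blk, Set.mem_ofPred_eq]; tauto

theorem ncard_blk_cj (g : G) : (blk (g • x) (cj g A) (cj g B)).ncard = (blk x A B).ncard := by
  rw [← Set.ncard_image_of_injective (blk x A B) (MulAction.injective g)]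
  congr 1
  ext y
  obtain ⟨y, rfl⟩ := MulAction.surjective g y
  rw [(MulAction.injective g).mem_set_image]
  simp only [blk, Set.mem_ofPred_eq, cj_le_St, ne_eq, smul_left_cancel_iff]

theorem exists_conj_flag (hA : S.V x A) (hB : S.V x B) (h : Adj A B) (hA' : S.V x A')
    (hB' : S.V x B') (h' : Adj A' B') : ∃ g ∈ S.M x, blk x (cj g A) (cj g B) = blk x A' B' := by
  by_cases e : S.ty x A ↔ S.ty x A'
  · obtain ⟨g, hg, rfl, rfl⟩ := (S.tri x).trans_flag hA hB h hA' hB' h' e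
    exact ⟨g, hg, rfl⟩
  · obtain ⟨g, hg, rfl, rfl⟩ := (S.tri x).trans_flag hA hB h hB' hA' h'.symm (by
      have := (S.tri x).ne_ty hA' hB' h'; tauto)
    exact ⟨g, hg, blk_comm⟩

variable (S) in
theorem exists_m [Nonempty Ω] : ∃ m, 0 < m ∧ ∀ x A B, S.V x A → S.V x B → Adj A B →
    (blk x A B).ncard = m := by
  obtain ⟨x⟩ := ‹Nonempty Ω›
  obtain ⟨y, h⟩ := S.exists_ne x
  obtain ⟨A, B, h1, h2, h3, h4, h5⟩ := exists_flag (S := S) h.symm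
  refine ⟨(blk x A B).ncard, (Set.ncard_pos (s := blk x A B)).2 ⟨y, h.symm, h4, h5⟩,
    fun x' A' B' h6 h7 h8 => ?_⟩
  obtain ⟨g, rfl⟩ := S.trans x x'
  obtain ⟨n, hn, e⟩ := exists_conj_flag (V_cj h1 g) (V_cj h2 g) (adj_cj.2 h3) h6 h7 h8
  rw [← e, ← ncard_blk_cj (x := x) g, ← ncard_blk_cj (x := g • x) (A := cj g A) n, S.le_St _ hn]

variable (hU : ∀ x y, x ≠ y → S.Fl x y)
include hU

theorem eq_or (hA : S.V x A) (hB : S.V x B) (h : Adj A B) (hy : y ∈ blk x A B) (hE : S.V x E)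
    (h1 : E ≤ stabilizer G y) : E = A ∨ E = B := by
  obtain ⟨A', B', -, -, -, -, -, h2⟩ := hU x y hy.1
  have := h.1
  rcases h2 A hA hy.2.1 with rfl | rfl <;> rcases h2 B hB hy.2.2 with rfl | rfl <;>
    rcases h2 E hE h1 with rfl | rfl <;> tauto

theorem exists_adj (hA : S.V x A) (h : x ≠ y) (h1 : A ≤ stabilizer G y) :
    ∃ B, S.V x B ∧ Adj A B ∧ y ∈ blk x A B := by
  obtain ⟨A', B', h2, h3, h4, h5, h6, h7⟩ := hU x y h
  rcases h7 A hA h1 with rfl | rfl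
  exacts [⟨B', h3, h4, h, h5, h6⟩, ⟨A', h2, h4.symm, h, h6, h5⟩]

theorem cj_eq (hA : S.V x A) (hB : S.V x B) (h : Adj A B) (hy : y ∈ blk x A B) (h1 : g • x = x)
    (h2 : g • y = y) : cj g A = A ∨ cj g A = B :=
  eq_or hU hA hB h hy (hA.cjN (mem_NM h1)) (h2 ▸ cj_le_St.2 hy.2.1)

theorem cj_eq' (hA : S.V x A) (h : x ≠ y) (h0 : A ≤ stabilizer G y) (h1 : g • x = x)
    (h2 : g • y = y) (h3 : S.ty x (cj g A) ↔ S.ty x A) : cj g A = A := by
  obtain ⟨B, hB, h4, h5⟩ := exists_adj hU hA h h0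
  refine (cj_eq hU hA hB h4 h5 h1 h2).resolve_right fun e => ?_
  have := (S.tri x).ne_ty hA hB h4
  rw [e] at h3; tauto

theorem mem_or (hA : S.V x A) (hB : S.V x B) (h : Adj A B) (hy : y ∈ blk x A B) (hz : z ∈ S.M x)
    (h1 : z * z = 1) (h2 : z • y = y) : z ∈ A ∨ z ∈ B :=
  (S.tri x).mem_or hA hB h hz h1
    (cj_eq' hU hA hy.1 hy.2.1 (S.le_St x hz) h2 ((S.tri x).ty_mem hz hA))
    (cj_eq' hU hB hy.1 hy.2.2 (S.le_St x hz) h2 ((S.tri x).ty_mem hz hB))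

theorem le_or (hA : S.V x A) (hB : S.V x B) (h : Adj A B) (h1 : z ∈ A) (h2 : z ∈ B) (h3 : z ≠ 1)
    (h4 : z • y = y) : A ≤ stabilizer G y ∨ B ≤ stabilizer G y := by
  by_cases e : x = y
  · exact .inl (e ▸ V_St hA)
  obtain ⟨A', B', a1, a2, a3, a4, a5⟩ := exists_flag (S := S) e
  have k : ∀ D, S.V x D → z ∈ D → D = A ∨ D = B := fun D hD hz => by
    by_cases e : S.ty x D ↔ S.ty x A
    · exact .inl ((S.tri x).eq_of_mem hD hA e hz h1 h3)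
    · exact .inr ((S.tri x).eq_of_mem hD hB (by have := (S.tri x).ne_ty hA hB h; tauto) hz h2 h3)
  rcases mem_or hU a1 a2 a3 ⟨e, a4, a5⟩ (hA.1 h1) (hA.sq h1) h4 with h | h
  exacts [(k _ a1 h).imp (fun e => e.ge.trans a4) fun e => e.ge.trans a4,
    (k _ a2 h).imp (fun e => e.ge.trans a5) fun e => e.ge.trans a5]

theorem nrm_sup (hA : S.V x A) (hB : S.V x B) (h : Adj A B) (hy : y ∈ blk x A B) {X : Subgroup G}
    (h1 : X ≤ stabilizer G x) (h2 : X ≤ stabilizer G y) : Nrm X (A ⊔ B) :=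
  nrm_of_cj_le fun g hg => by
    rw [CfsgFT.cj_sup]
    refine sup_le ?_ ?_
    · rcases cj_eq hU hA hB h hy (h1 hg) (h2 hg) with e | e <;> simp [e]
    · rcases cj_eq hU hB hA h.symm ⟨hy.1, hy.2.2, hy.2.1⟩ (h1 hg) (h2 hg) with e | e <;> simp [e]

theorem exists_invol (h : x ≠ y) : ∃ z ∈ S.M x ⊓ S.M y, z ≠ 1 ∧ z * z = 1 := by
  by_contra n
  have k : ∀ x' y', x' ≠ y' → ∀ z ∈ S.M x', z ∈ S.M y' → z * z = 1 → z = 1 :=
    fun x' y' h' z h1 h2 h3 => by_contra fun z1 => by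
      obtain ⟨g, rfl, rfl⟩ := S.two h' h
      exact n ⟨_, ⟨conj_M h1 g, conj_M h2 g⟩, CfsgFT.conj_ne_one z1, by rw [conj_mul, h3]; group⟩
  obtain ⟨A, A', a1, a2, a3, a4, a5⟩ := exists_flag (S := S) h
  obtain ⟨B, B', b1, b2, b3, b4⟩ := exists_flag (S := S) h.symm
  have T := S.tri x
  have h1 : B ≤ C (A ⊔ A') := le_sup_left.trans (le_C_of_inf_eq_bot
    (nrm_sup hU a1 a2 a3 ⟨h, a4, a5⟩ (sup_le b4.1 b4.2) (sup_le (V_St b1) (V_St b2)))
    (nrm_sup hU b1 b2 b3 ⟨h.symm, b4⟩ (sup_le a4 a5) (sup_le (V_St a1) (V_St a2)))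
    (by_contra fun e => by
      obtain ⟨z, hz, z1, z2⟩ := exists_sq_of_isPGroup ((T.p2_sup a1 a2 a3).to_le inf_le_right) e
      exact z1 (k x y h z (sup_le a1.1 a2.1 hz.2) (sup_le b1.1 b2.1 hz.1) z2)))
  choose! f hf hf' using fun b (hb : b ∈ B) => T.exists_cent (mem_NM (b4.1 hb)) a1
    (C_anti le_sup_left (h1 hb))
  have h2 := B45.relIndex_le_of_map (R := B) (K := ⊥) (T := A ⊓ A') f (fun b hb =>
    T.mem_inf_of_cent a1 a2 a3 (a1.1 (hf b hb)) (a1.sq (hf b hb))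
      (mem_C.2 fun a ha => a1.comm ha (hf b hb)) (by
        simpa using mul_mem (C_anti le_sup_right (h1 hb)) (inv_mem (C_anti a2.1 (hf' b hb)))))
    fun b hb b' hb' e => by
      obtain ⟨g, hg, e'⟩ := exists_move (S := S) h
      have h2 : b⁻¹ * b' ∈ C (S.M x) := by
        simpa [e] using mul_mem (inv_mem (hf' b hb)) (hf' b' hb')
      have h3 := mul_mem (inv_mem hb) hb'
      have h4 := conj_M (b1.1 h3) g
      rw [mem_C.1 h2 g hg, mul_inv_cancel_right] at h4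
      exact k _ _ e' _ h4 (b1.1 h3) (b1.sq h3)
  rw [relIndex_bot_left, T.card_inf a1 a2 a3, b1.2.2] at h2
  have := T.two
  nlinarith

theorem exists_z (hA : S.V x A) (hA' : S.V x A') (ha : Adj A A') (hy : y ∈ blk x A A')
    (hB : S.V y B) (hB' : S.V y B') (hb : Adj B B') (hx : x ∈ blk y B B') {X : Subgroup G}
    (h1 : X ≤ A ⊔ A' ⊔ (B ⊔ B')) : ∃ z ∈ (A ⊔ A') ⊓ (B ⊔ B'), z ≠ 1 ∧ z * z = 1 ∧ z ∈ C X := by
  have h2 := nrm_sup hU hA hA' ha hy (sup_le hx.2.1 hx.2.2) (sup_le (V_St hB) (V_St hB'))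
  have h3 := nrm_sup hU hB hB' hb hx (sup_le hy.2.1 hy.2.2) (sup_le (V_St hA) (V_St hA'))
  obtain ⟨z, hz, z1, z2⟩ := exists_invol hU hy.1
  obtain ⟨w, hw, w1, w2, w3⟩ := exists_cent_invol (isPGroup_sup Nat.prime_two
    ((S.tri x).p2_sup hA hA' ha) ((S.tri y).p2_sup hB hB' hb) (.inl h3))
    (K := (A ⊔ A') ⊓ (B ⊔ B')) ⟨inf_le_left.trans le_sup_left,
      ((Nrm.self _).sup_left h2).inf (h3.sup_left (Nrm.self _))⟩
    fun e => z1 (mem_bot.1 (e ▸ mem_inf.2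
      ⟨(mem_or hU hA hA' ha hy hz.1 z2 (S.le_St y hz.2)).elim mem_sup_left mem_sup_right,
      (mem_or hU hB hB' hb hx hz.2 z2 (S.le_St x hz.1)).elim mem_sup_left mem_sup_right⟩))
  exact ⟨w, hw, w1, w2, C_anti h1 w3⟩

theorem inf_C (hB : S.V y B) (hB' : S.V y B') (hb : Adj B B') (hx : x ∈ blk y B B') :
    (B ⊔ B') ⊓ C (S.M x) = ⊥ := by
  by_contra n
  obtain ⟨A, A', a1, a2, a3, a4⟩ := exists_flag (S := S) hx.1.symm
  have T := S.tri y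
  obtain ⟨w, hw, w1, w2, w3⟩ := exists_z hU a1 a2 a3 ⟨hx.1.symm, a4⟩ hB hB' hb hx le_sup_right
  obtain ⟨k, hk, k1, k2, k3⟩ := exists_cent_invol (T.p2_sup hB hB' hb) ⟨inf_le_left,
    (Nrm.self _).inf (nrm_of_le_N fun g hg => mem_NM (sup_le hx.2.1 hx.2.2 hg)).C⟩ n
  have h1 := T.mem_inf_of_cent hB hB' hb (sup_le hB.1 hB'.1 hw.2) w2 (C_anti le_sup_left w3)
    (C_anti le_sup_right w3)
  have h2 := T.mem_inf_of_cent hB hB' hb (sup_le hB.1 hB'.1 hk.1) k2 (C_anti le_sup_left k3)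
    (C_anti le_sup_right k3)
  have h3 : w ∈ core (S.M x) (stabilizer G y) := mem_core.2 ⟨sup_le a1.1 a2.1 hw.1, fun g hg => by
    have := le_or hU hB hB' hb h2.1 h2.2 k1 (y := g⁻¹ • y) (by
      rw [← mul_smul, ← mem_C.1 hk.2 _ (inv_mem hg), mul_smul, V_St hB h2.1])
    rw [mem_stabilizer_iff, mul_smul, mul_smul, this.elim (· h1.1) (· h1.2), smul_inv_smul]⟩
  rcases (S.tri x).simple _ ⟨core_le_left _ _, nrm_core _ (stabilizer G y)⟩ with e | e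
  · exact w1 (mem_bot.1 (e ▸ h3))
  · exact not_le hx.1.symm (e.ge.trans (core_le_right _ _))

variable {m : ℕ} (hm0 : 0 < m) (hm : ∀ x A B, S.V x A → S.V x B → Adj A B → (blk x A B).ncard = m)
include hm0 hm

omit hm0 in
theorem card_fix (hA : S.V x A) (h : A ≤ stabilizer G y) :
    {y' | y ≠ y' ∧ A ≤ stabilizer G y'}.ncard = (S.q + 1) * m := by
  have h1 := ncard_eq_mul_of_rel (A := {y' | x ≠ y' ∧ A ≤ stabilizer G y'})
    (B := {B | S.V x B ∧ Adj A B}) (k := m) (fun y B => B ≤ stabilizer G y)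
    (fun y hy => by
      obtain ⟨B, h1, h2, h3⟩ := exists_adj hU hA hy.1 hy.2
      exact ⟨B, ⟨h1, h2⟩, h3.2.2⟩)
    (fun y hy B hB D hD h1 h2 => (eq_or hU hA hD.1 hD.2 ⟨hy.1, hy.2, h2⟩ hB.1 h1).resolve_left
      hB.2.1.symm)
    fun B hB => (congrArg _ (Set.ext fun _ => and_assoc)).trans (hm x A B hA hB.1 hB.2)
  have k : ∀ y : Ω, A ≤ stabilizer G y → {y' | y ≠ y' ∧ A ≤ stabilizer G y'}.ncard + 1 =
      {y' : Ω | A ≤ stabilizer G y'}.ncard := fun y h => by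
    rw [← Set.ncard_sdiff_singleton_add_one (s := {y' : Ω | A ≤ stabilizer G y'}) h]
    congr 2; ext; simp [eq_comm, and_comm]
  have := k y h
  rw [← k x (V_St hA), h1, (S.tri x).card_nb hA] at this
  omega

section
variable (hA : S.V x A) (hA' : S.V x A') (ha : Adj A A') (hB : S.V y B) (h1 : B ≤ stabilizer G x)
  (h2 : B ⊓ C (S.M x) = ⊥) (z1 : z ∈ A) (z2 : z ∈ A') (z3 : z ∈ B) (z4 : z ≠ 1)
include hA hA' ha hB h1 h2 z1 z2 z3 z4

theorem le_of_axis (h3 : B ≤ N A) (h : ∀ E, S.V x E → Adj A' E → B ≤ N E) : B ≤ S.M x := by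
  have T := S.tri x
  choose! f hf hf' using fun b (hb : b ∈ B) => T.axis (mem_NM (h1 hb)) (hB.sq hb) hA'
    fun P hP e => mem_N.1 (h P hP e hb)
  have h4 : f '' B = A' := Set.eq_of_subset_of_ncard_le (by rintro _ ⟨b, hb, rfl⟩; exact hf b hb) (by
    rw [Set.InjOn.ncard_image fun b hb b' hb' e => inv_mul_eq_one.1 (mem_bot.1 (h2 ▸ mem_inf.2
      ⟨mul_mem (inv_mem hb) hb', by simpa [e] using mul_mem (inv_mem (hf' b hb)) (hf' b' hb')⟩))]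
    exact (hA'.2.2.trans hB.2.2.symm).le)
  have h5 : {y' | x ≠ y' ∧ B ≤ stabilizer G y'} = {y' | x ≠ y' ∧ A' ≤ stabilizer G y'} :=
    Set.eq_of_subset_of_ncard_le (fun w hw => ⟨hw.1, by_contra fun n => by
      obtain ⟨D, hD, d1, d2⟩ := exists_adj hU hA hw.1
        ((le_or hU hA hA' ha z1 z2 z4 (hw.2 z3)).resolve_right n)
      obtain ⟨a, a1, a2⟩ := T.exists_notMem hA hA' ha.1
      obtain ⟨b, hb, rfl⟩ := h4.ge a1
      refine a2 (T.semi hA hA' hD ha d1 (fun e => n (e ▸ d2.2.2)) a1 (mem_N.1 ?_))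
      simpa using mul_mem (mem_N.2 (cj_eq' hU hD hw.1 d2.2.2 (h1 hb) (hw.2 hb)
        (T.pres_fix (mem_NM (h1 hb)) hA (mem_N.1 (h3 hb)) hD)))
        (inv_mem (C_le_N _ (C_anti hD.1 (hf' b hb))))⟩)
      (by rw [card_fix hU hm hB h1, card_fix hU hm hA' (V_St hA')])
  intro b hb
  have := eq_one_of_cent (hf' b hb) (mul_mem (inv_mem (V_St hA' (hf b hb))) (h1 hb)) fun w hw => by
    obtain ⟨D, D', d1, d2, d3, d4, d5⟩ := exists_flag (S := S) hw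
    obtain ⟨n, hn, e⟩ := exists_conj_flag d1 d2 d3 hA hA' ha
    have h6 := e.le ⟨smul_ne hw (S.le_St x hn), cj_le_St.2 d4, cj_le_St.2 d5⟩
    exact ⟨n, hn, mul_mem (inv_mem (h6.2.2 (hf b hb))) ((h5.ge ⟨h6.1, h6.2.2⟩).2 hb)⟩
  exact inv_mul_eq_one.1 this ▸ hA'.1 (hf b hb)

theorem le_N_of (hy : y ∈ blk x A A') : B ≤ N A := fun b hb => by
  refine mem_N.2 ((cj_eq hU hA hA' ha hy (h1 hb) (V_St hB hb)).resolve_right fun e => ?_)
  have e' : cj b A' = A := by rw [← e, cj_cj, hB.sq hb, cj_one]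
  have := Set.ncard_le_ncard (s := {y' | x ≠ y' ∧ B ≤ stabilizer G y'}) (t := blk x A A') fun w hw => by
    have h3 : b • w = w := hw.2 hb
    rcases le_or hU hA hA' ha z1 z2 z4 (hw.2 z3) with h | h
    exacts [⟨hw.1, h, e ▸ h3 ▸ cj_le_St.2 h⟩, ⟨hw.1, e' ▸ h3 ▸ cj_le_St.2 h, h⟩]
  rw [card_fix hU hm hB h1, hm x A A' hA hA' ha] at this
  have := (S.tri x).two
  nlinarith

omit ha h2 z1 z2 z3 z4 hA' hm0 hB in
theorem count_le (h3 : B ≤ N A) :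
    {w | x ≠ w ∧ B ≤ stabilizer G w ∧ A ≤ stabilizer G w ∧ ¬ A' ≤ stabilizer G w}.ncard ≤
      {E | S.V x E ∧ Adj A E ∧ E ≠ A' ∧ B ≤ N E}.ncard * m :=
  ncard_le_mul_of_rel (fun w E => w ∈ blk x A E) (fun w hw => by
    obtain ⟨D, hD, d1, d2⟩ := exists_adj hU hA hw.1 hw.2.2.1
    exact ⟨D, ⟨hD, d1, fun e => hw.2.2.2 (e ▸ d2.2.2), fun b hb => mem_N.2 (cj_eq' hU hD hw.1 d2.2.2
      (h1 hb) (hw.2.1 hb) ((S.tri x).pres_fix (mem_NM (h1 hb)) hA (mem_N.1 (h3 hb)) hD))⟩, d2⟩)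
    fun E hE => (hm x A E hA hE.1 hE.2.1).le

theorem le_M_aux (hy : y ∈ blk x A A') : B ≤ S.M x := by
  have T := S.tri x
  have n1 := le_N_of hU hm0 hm hA hA' ha hB h1 h2 z1 z2 z3 z4 hy
  have n2 := le_N_of hU hm0 hm hA' hA ha.symm hB h1 h2 z2 z1 z3 z4 ⟨hy.1, hy.2.2, hy.2.1⟩
  by_contra n
  have k1 := fun h => n (le_of_axis hU hm0 hm hA hA' ha hB h1 h2 z1 z2 z3 z4 n1 h)
  have k2 := fun h => n (le_of_axis hU hm0 hm hA' hA ha.symm hB h1 h2 z2 z1 z3 z4 n2 h)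
  have c1 := count_le hU hm hA h1 (A' := A') n1
  have c2 := count_le hU hm hA' h1 (A' := A) n2
  have c3 := Set.ncard_le_ncard (s := {y' | x ≠ y' ∧ B ≤ stabilizer G y'}) (t := blk x A A' ∪
    ({w | x ≠ w ∧ B ≤ stabilizer G w ∧ A ≤ stabilizer G w ∧ ¬ A' ≤ stabilizer G w} ∪
    {w | x ≠ w ∧ B ≤ stabilizer G w ∧ A' ≤ stabilizer G w ∧ ¬ A ≤ stabilizer G w})) fun w hw => by
      have := le_or hU hA hA' ha z1 z2 z4 (hw.2 z3)
      have := hw.1; have := hw.2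
      simp only [blk, Set.mem_union, Set.mem_ofPred_eq]; tauto
  replace c3 := c3.trans ((Set.ncard_union_le _ _).trans (Nat.add_le_add_left
    ((Set.ncard_union_le _ _).trans (add_le_add c1 c2)) _))
  rw [card_fix hU hm hB h1, hm x A A' hA hA' ha, ← add_mul, add_mul _ 1, one_mul, add_comm m,
    add_le_add_iff_right] at c3
  replace c3 := Nat.le_of_mul_le_mul_right c3 hm0
  have all : ∀ {A A'}, S.V x A → S.V x A' → Adj A A' → B ≤ N A' →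
      S.q ≤ {E | S.V x E ∧ Adj A E ∧ E ≠ A' ∧ B ≤ N E}.ncard → ∀ E, S.V x E → Adj A E → B ≤ N E :=
    fun {A A'} hA hA' ha n2 h E hE he => by
      by_cases e : E = A'
      · exact e ▸ n2
      exact ((Set.eq_of_subset_of_ncard_le (s := {E | S.V x E ∧ Adj A E ∧ E ≠ A' ∧ B ≤ N E})
        (t := {E | S.V x E ∧ Adj A E ∧ E ≠ A'}) (fun E h => ⟨h.1, h.2.1, h.2.2.1⟩)
        ((T.card_nb' hA hA' ha).le.trans h)).ge ⟨hE, he, e⟩).2.2.2
  obtain ⟨D, d1, d2, d3, d4⟩ := (Set.ncard_pos (s := {E | S.V x E ∧ Adj A E ∧ E ≠ A' ∧ B ≤ N E})).1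
    (Nat.pos_of_ne_zero fun e => k1 (all hA' hA ha.symm n1 (by omega)))
  obtain ⟨D', e1, e2, e3, e4⟩ := (Set.ncard_pos (s := {E | S.V x E ∧ Adj A' E ∧ E ≠ A ∧ B ≤ N E})).1
    (Nat.pos_of_ne_zero fun e => k2 (all hA hA' ha n2 (by omega)))
  have f1 : 2 * {E | S.V x E ∧ Adj A E ∧ E ≠ A' ∧ B ≤ N E}.ncard ≤ S.q :=
    not_lt.1 fun h => k2 fun E => T.half hA hA' ha e1 e2 e3 n2 e4 h
  have f2 : 2 * {E | S.V x E ∧ Adj A' E ∧ E ≠ A ∧ B ≤ N E}.ncard ≤ S.q :=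
    not_lt.1 fun h => k1 fun E => T.half hA' hA ha.symm d1 d2 d3 n1 d4 h
  obtain ⟨E, g1, g2, g3⟩ : ∃ E, S.V x E ∧ Adj A' E ∧ ¬ B ≤ N E := by
    by_contra h; push Not at h; exact k1 h
  have g4 := Set.ncard_le_ncard (s := {E' | ∃ b ∈ B, b • E = E'})
    (t := {E | S.V x E ∧ Adj A' E ∧ E ≠ A} \ {E | S.V x E ∧ Adj A' E ∧ E ≠ A ∧ B ≤ N E}) (by
      rintro _ ⟨b, hb, rfl⟩
      have k : ∀ X, B ≤ N X → cj b E ≠ X := fun X h e => g3 (by
        rwa [cj_eq_iff.1 e, mem_N.1 (h (inv_mem hb))])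
      exact ⟨⟨g1.cjN (mem_NM (h1 hb)), mem_N.1 (n2 hb) ▸ adj_cj.2 g2, k A n1⟩,
        fun h => k _ h.2.2.2 rfl⟩)
  rw [Set.ncard_sdiff (t := {E | S.V x E ∧ Adj A' E ∧ E ≠ A}) (fun E h => ⟨h.1, h.2.1, h.2.2.1⟩),
    T.card_nb' hA' hA ha.symm,
    ← CfsgH1.relIndex_stabilizer] at g4
  have g5 := fun E' => T.half (E := E') (X := stabilizer G E ⊓ B) hA' hA ha.symm d1 d2 d3
    (inf_le_right.trans n1) (inf_le_right.trans d4) (lt_of_lt_of_le (by omega) (Nat.mul_le_mul_left 2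
      (Set.ncard_lt_ncard (s := {E | S.V x E ∧ Adj A' E ∧ E ≠ A ∧ B ≤ N E}) ⟨fun E h =>
        ⟨h.1, h.2.1, h.2.2.1, inf_le_right.trans h.2.2.2⟩, fun h => g3 (h ⟨g1, g2, fun e =>
          g3 (e ▸ n1), fun b hb => mem_N.2 hb.1⟩).2.2.2⟩)))
  choose! f hf hf' using fun b (hb : b ∈ stabilizer G E ⊓ B) => T.axis (mem_NM (h1 hb.2))
    (hB.sq hb.2) hA' fun P hP e => mem_N.1 (g5 P hP e hb)
  have g6 := B45.relIndex_le_of_map (R := stabilizer G E ⊓ B) (K := ⊥) (T := A ⊓ A') f (fun b hb =>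
    ⟨T.semi hA hA' d1 ha d2 d3 (hf b hb) (mem_N.1 (by
      simpa using mul_mem (d4 hb.2) (inv_mem (C_le_N _ (C_anti d1.1 (hf' b hb)))))), hf b hb⟩)
    fun b hb b' hb' e => h2 ▸ mem_inf.2 ⟨mul_mem (inv_mem (mem_inf.1 hb).2) hb'.2, by
      simpa [e] using mul_mem (inv_mem (hf' b hb)) (hf' b' hb')⟩
  have g7 := card_inf_mul_relIndex (stabilizer G E) B
  rw [relIndex_bot_left, T.card_inf hA hA' ha] at g6
  rw [hB.2.2] at g7
  have := T.two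
  have g8 : 2 * (stabilizer G E).relIndex B ≤ S.q := by omega
  nlinarith

end

theorem le_M_U (hB : S.V y B) (h : B ≤ stabilizer G x) : B ≤ S.M x := by
  by_cases e : y = x
  · exact e ▸ hB.1
  obtain ⟨B', b1, b2, b3⟩ := exists_adj hU hB e h
  obtain ⟨A, A', a1, a2, a3, a4⟩ := exists_flag (S := S) (Ne.symm e)
  obtain ⟨z, hz, z1, z2, z3⟩ := exists_z hU a1 a2 a3 ⟨Ne.symm e, a4⟩ hB b1 b2 b3 le_rfl
  rw [C_sup, C_sup, C_sup] at z3
  have h1 := (S.tri x).mem_inf_of_cent a1 a2 a3 (sup_le a1.1 a2.1 hz.1) z2 z3.1.1 z3.1.2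
  have h2 := (S.tri y).mem_inf_of_cent hB b1 b2 (sup_le hB.1 b1.1 hz.2) z2 z3.2.1 z3.2.2
  exact le_M_aux hU hm0 hm a1 a2 a3 hB h (eq_bot_iff.2 ((inf_le_inf_right _ le_sup_left).trans
    (inf_C hU hB b1 b2 b3).le)) h1.1 h1.2 h2.1 z1 ⟨Ne.symm e, a4⟩

omit hm0 in
theorem card_diff (hA : S.V x A) (hB : S.V x B) (h : Adj A B) :
    {w : Ω | A ≤ stabilizer G w ∧ ¬ B ≤ stabilizer G w}.ncard = S.q * m := by
  have := Set.ncard_sdiff (s := blk x A B) (t := {y' | x ≠ y' ∧ A ≤ stabilizer G y'})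
    fun w hw => ⟨hw.1, hw.2.1⟩
  rw [card_fix hU hm hA (V_St hA), hm x A B hA hB h, add_mul, one_mul, Nat.add_sub_cancel] at this
  rw [← this]; congr 1; ext w
  exact ⟨fun h => ⟨⟨fun e => h.2 (e ▸ V_St hB), h.1⟩, fun e => h.2 e.2.2⟩,
    fun h => ⟨h.1.2, fun e => h.2 ⟨h.1.1, h.1.2, e⟩⟩⟩

theorem exists_sqrt (hA : S.V x A) (hB : S.V x B) (h : Adj A B) (z1 : z ∈ A) (z2 : z ∈ B)
    (z3 : z ≠ 1) : S.q * m = 2 ∧ ∃ u ∈ C A, u * u = z := by
  have := (S.tri x).two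
  have p : 0 < S.q * m := by positivity
  obtain ⟨y, y1, y2⟩ := (Set.ncard_pos).1 (card_diff hU hm hA hB h ▸ p)
  obtain ⟨w, w1, w2⟩ := (Set.ncard_pos).1 (card_diff hU hm hB hA h.symm ▸ p)
  have a1 := V_of hA (le_M_U hU hm0 hm hA y1)
  obtain ⟨D, hD, d1, d2⟩ := (S.tri y).cover z (a1.1 z1) (a1.sq z1) (¬ S.ty y A)
  have d3 := (S.tri y).adj_of_mem a1 hD (by tauto) z1 d2 z3
  have d4 : ∀ w : Ω, B ≤ stabilizer G w → ¬ A ≤ stabilizer G w → D ≤ stabilizer G w := fun w h1 h2 =>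
    (le_or hU a1 hD d3 z1 d2 z3 (h1 z2)).resolve_left h2
  have b1 := V_of hB (le_M_U hU hm0 hm hB w1)
  have b2 := V_of hD (le_M_U hU hm0 hm hD (d4 w w1 w2))
  have b3 : Adj B D := .of_mem (fun e => y2 (e ▸ V_St hD)) z2 d2 z3
  have b4 := Set.ncard_le_ncard (s := {w : Ω | B ≤ stabilizer G w ∧ ¬ A ≤ stabilizer G w} \ {w})
    (t := blk w B D) fun v hv => ⟨Ne.symm hv.2, hv.1.1, d4 v hv.1.1 hv.1.2⟩
  rw [Set.ncard_sdiff_singleton_of_mem (s := {w : Ω | B ≤ stabilizer G w ∧ ¬ A ≤ stabilizer G w})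
    ⟨w1, w2⟩, card_diff hU hm hB hA h.symm, hm w B D b1 b2 b3] at b4
  have b5 : S.q * m ≤ m + 1 := by omega
  have q2 : S.q = 2 := by nlinarith
  have k : ∀ {x : Ω} {A B u}, S.V x A → S.V x B → Adj A B → z ∈ A → z ∈ B → u ∈ A ⊓ B → u ≠ 1 →
      u = z := fun {x A B u} hA hB h z1 z2 hu u1 => by
    obtain ⟨v, -, hv⟩ := (Nat.card_eq_two_iff' (1 : ↥(A ⊓ B))).1 (((S.tri x).card_inf hA hB h).trans q2)
    exact congrArg Subtype.val ((hv ⟨u, hu⟩ fun e => u1 (congrArg Subtype.val e)).trans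
      (hv ⟨z, z1, z2⟩ fun e => z3 (congrArg Subtype.val e)).symm)
  have k' : ∀ {x : Ω} {A B a b}, S.V x A → S.V x B → Adj A B → z ∈ A → z ∈ B → a ∈ A → b ∈ B →
      a ∉ B → b ∉ A → b * a = z * (a * b) := fun {x A B a b} hA hB h z1 z2 ha hb n n' => by
    rw [← k hA hB h z1 z2 ((S.tri x).comm_mem hA hB h ha hb) fun e => ((S.tri x).cent hA hB h ha hb
      (commutatorElement_eq_one_iff_mul_comm.1 e)).elim n n', commutatorElement_def]; group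
  have k'' : ∀ {x x' : Ω} {A B D a}, S.V x A → S.V x B → Adj A B → S.V x' D → z ∈ A → z ∈ B → z ∈ D →
      a ∈ A → a ∉ D → a ∉ B := fun hA hB h hD z1 z2 z4 ha n e =>
    n (k hA hB h z1 z2 ⟨ha, e⟩ (fun e => n (e ▸ one_mem _)) ▸ z4)
  obtain ⟨b, hb, n1⟩ := (S.tri x).exists_notMem hA hB h.1
  obtain ⟨d, hd, n2⟩ := (S.tri y).exists_notMem a1 hD d3.1
  refine ⟨by nlinarith, b * d, mem_C.2 fun a ha => ?_, ?_⟩
  · by_cases e : a ∈ B
    · rw [← mul_assoc, hB.comm e hb, mul_assoc, mul_assoc, hD.comm hd (by_contra fun n =>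
        k'' hA hB h hD z1 z2 d2 ha n e)]
    rw [mul_assoc, k' a1 hD d3 z1 d2 ha hd (k'' a1 hD d3 hB z1 d2 z2 ha e) n2, ← mul_assoc b,
      hB.comm hb z2, mul_assoc, ← mul_assoc b, k' hA hB h z1 z2 ha hb e n1, mul_assoc z,
      ← mul_assoc z, hA.sq z1, one_mul, mul_assoc]
  · rw [mul_assoc, ← mul_assoc d, k' b1 b2 b3 z2 d2 hb hd (k'' b1 b2 b3 hA z2 d2 z1 hb n1)
      (k'' b2 b1 b3.symm hA d2 z2 z1 hd n2), mul_assoc, mul_assoc, hD.sq hd, mul_one, ← mul_assoc,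
      hB.comm hb z2, mul_assoc, hB.sq hb, mul_one]

omit hm0 hm in
theorem not_U [Nonempty Ω] : False := by
  obtain ⟨m, hm0, hm⟩ := S.exists_m
  obtain ⟨x⟩ := ‹Nonempty Ω›
  have T := S.tri x
  obtain ⟨A, hA, -⟩ := T.exists_ty True
  obtain ⟨B, hB, h1, -⟩ := T.third hA A A
  obtain ⟨D, hD, h2, h3, -⟩ := T.third hA B B
  obtain ⟨z, z1, z2, z3⟩ := h1.exists
  obtain ⟨v, v1, v2, v3⟩ := h2.exists
  obtain ⟨q2, u, hu, rfl⟩ := exists_sqrt hU hm0 hm hA hD h2 v1 v2 v3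
  obtain ⟨w, w', n, e⟩ := Set.ncard_eq_two.1 ((card_diff hU hm hB hA h1.symm).trans q2)
  have k : ∀ w ∈ {w : Ω | B ≤ stabilizer G w ∧ ¬ A ≤ stabilizer G w},
      u • w ∈ {w : Ω | B ≤ stabilizer G w ∧ ¬ A ≤ stabilizer G w} := fun w hw => by
    have h4 : ¬ A ≤ stabilizer G (u • w) := by rw [← cj_of_mem_C hu, cj_le_St]; exact hw.2
    exact ⟨(le_or hU hA hB h1 z1 z2 z3 (by
      rw [← mul_smul, mem_C.1 hu z z1, mul_smul, hw.1 z2])).resolve_left h4, h4⟩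
  have w1 := e.ge (Set.mem_insert w _)
  have h4 : (u * u) • w = w := by
    rw [mul_smul]
    rcases e.le (k w w1) with h | h
    · rw [h, h]
    · rcases e.le (k _ (k w w1)) with h' | h'
      · exact h'
      · exact absurd ((smul_left_cancel_iff u).1 (h'.trans h.symm)).symm (h ▸ n)
  have h5 := (le_or hU hA hD h2 v1 v2 v3 h4).resolve_left w1.2
  have h6 : x ≠ w := fun e => w1.2 (e ▸ V_St hA)
  obtain ⟨E, hE, e1, e2⟩ := exists_adj hU hB h6 w1.1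
  obtain rfl := (eq_or hU hB hE e1 e2 hD h5).resolve_left h3
  have := T.ne_ty hB hE e1
  have := T.ty_nb hA hB hD h1 h2
  tauto

omit hU hm0 hm in
theorem star (x y : Ω) (h : x ≠ y) : ∃ A, S.Ce x y A :=
  (S.shape.resolve_left fun hU => have : Nonempty Ω := ⟨x⟩; not_U hU) x y h

end Sit

end CfsgL3
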