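import Cfsg.Agent.H4.L3d

set_option autoImplicit false
set_option linter.unusedSectionVars false

/-! Doubly transitive groups of even degree with `L₃(q)`, `q` even, normal in a point stabilizer:
the locally projective space. -/

namespace CfsgL3

open Subgroup CfsgH5 CfsgH6 CfsgFT CfsgSZ MulAction
open scoped commutatorElement

universe u v

theorem ncard_mul_eq {α β : Type*} [Finite α] [Finite β] {A : Set α} {B : Set β}
    (R : α → β → Prop) {k l : ℕ} (h1 : ∀ a ∈ A, {b | b ∈ B ∧ R a b}.ncard = k)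
    (h2 : ∀ b ∈ B, {a | a ∈ A ∧ R a b}.ncard = l) : A.ncard * k = B.ncard * l := by
  classical
  have := Fintype.ofFinite α
  have := Fintype.ofFinite β
  rw [Set.ncard_eq_toFinset_card', Set.ncard_eq_toFinset_card']
  refine Finset.card_mul_eq_card_mul R (fun a ha => ?_) fun b hb => ?_
  · rw [← h1 a (by simpa using ha), Set.ncard_eq_toFinset_card']; congr 1; ext; simp
  · rw [← h2 b (by simpa using hb), Set.ncard_eq_toFinset_card']; congr 1; ext; simp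

variable {G : Type u} {Ω : Type v} [Group G] [Finite G] [MulAction G Ω] [Finite Ω]

theorem card_dvd_of_free {K : Subgroup G} {A : Set Ω} (h1 : ∀ g ∈ K, ∀ x ∈ A, g • x ∈ A)
    (h2 : ∀ g ∈ K, ∀ x ∈ A, g • x = x → g = 1) : Nat.card K ∣ A.ncard := by
  let T : SubMulAction K Ω := ⟨A, fun g {x} hx => h1 g g.2 x hx⟩
  have := Nat.card_congr (selfEquivOrbitsQuotientProd (G := K) (X := T) fun x =>
    eq_bot_iff.2 fun g hg => Subtype.ext (h2 g g.2 x x.2 (congrArg Subtype.val hg)))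
  rw [Nat.card_prod] at this
  exact Dvd.intro_left _ this.symm

/-- the fixed points. -/
abbrev Fx (Ω : Type v) [MulAction G Ω] (A : Subgroup G) : Set Ω := {y | A ≤ stabilizer G y}

theorem ncard_Fx_cj (g : G) (A : Subgroup G) : (Fx Ω (cj g A)).ncard = (Fx Ω A).ncard := by
  rw [← Set.ncard_image_of_injective (Fx Ω A) (MulAction.injective g)]
  congr 1
  ext y
  obtain ⟨y, rfl⟩ := MulAction.surjective g y
  rw [(MulAction.injective g).mem_set_image]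
  exact cj_le_St

namespace Sit

variable (S : Sit G Ω) {x y w x' y' : Ω} {A B D E W A' D' : Subgroup G} {a b c g z : G}

/-- the lines. -/
def Li (A : Subgroup G) : Prop := ∃ x y, x ≠ y ∧ S.Ce x y A

theorem T (x : Ω) : Tri (S.M x) S.q S.Li := by
  obtain ⟨y, h⟩ := S.exists_ne x
  obtain ⟨B, hB⟩ := S.star x y h.symm
  have k : ∀ A, S.V x A → (S.Li A ↔ (S.ty x A ↔ S.ty x B)) := fun A hA => ⟨fun ⟨x', y', h1, h2⟩ => by
    by_cases e : x' = x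
    · subst e; exact h2.ty_iff S.star h1 h.symm hB
    · exact ((h2.of_le S.star h1 e (V_St hA)).symm S.star e).ty_iff S.star (Ne.symm e) h.symm hB,
    fun h1 => by
      obtain ⟨g, hg, rfl⟩ := (S.tri x).trans_ty hB.1 hA h1.symm
      exact ⟨_, _, (smul_left_cancel_iff g).not.2 h.symm, hB.cjj g⟩⟩
  by_cases e : S.ty x B
  · exact (S.tri x).congr fun A hA => (k A hA).trans (by tauto)
  · exact (S.tri x).not.congr fun A hA => (k A hA).trans (by tauto)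

variable {S}

theorem li_cj : S.Li (cj g A) ↔ S.Li A := by
  have k : ∀ g A, S.Li A → S.Li (cj g A) := fun g A ⟨x, y, h1, h2⟩ =>
    ⟨_, _, (smul_left_cancel_iff g).not.2 h1, h2.cjj g⟩
  exact ⟨fun h => cj_inv_cj g A ▸ k g⁻¹ _ h, k g A⟩

theorem vf (hA : S.V x A) (h : A ≤ stabilizer G y) : S.V y A := V_of hA (le_M_P S.star hA h)

theorem ce (hA : S.V x A) (h : S.Li A) (hxy : x ≠ y) (h1 : A ≤ stabilizer G y) : S.Ce x y A := by
  obtain ⟨B, hB⟩ := S.star x y hxy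
  rcases (hB.2 A hA).1 h1 with e | e
  · exact e ▸ hB
  exact absurd h (((S.T x).ne_ty hB.1 hA e).1 ⟨x, y, hxy, hB⟩)

theorem line (h : x ≠ y) : ∃ A, S.V x A ∧ S.Li A ∧ A ≤ stabilizer G y := by
  obtain ⟨A, hA⟩ := S.star x y h
  exact ⟨A, hA.1, ⟨x, y, h, hA⟩, hA.le⟩

theorem line_uniq (hA : S.V x A) (hB : S.V x B) (h1 : S.Li A) (h2 : S.Li B) (h : x ≠ y)
    (h3 : A ≤ stabilizer G y) (h4 : B ≤ stabilizer G y) : A = B := (ce hA h1 h h3).uniq (ce hB h2 h h4)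

theorem adj_le (hA : S.V x A) (h1 : S.Li A) (hD : S.V x D) (h2 : Adj A D) (h3 : A ≤ stabilizer G y) :
    D ≤ stabilizer G y := by
  by_cases e : x = y
  exacts [e ▸ V_St hD, (ce hA h1 e h3).nb hD h2]

theorem adj_of (hA : S.V x A) (h1 : S.Li A) (hD : S.V x D) (h2 : ¬ S.Li D) (h : x ≠ y)
    (h3 : A ≤ stabilizer G y) (h4 : D ≤ stabilizer G y) : Adj A D :=
  (((ce hA h1 h h3).2 D hD).1 h4).resolve_left fun e => h2 (e ▸ h1)

theorem li_of_adj (hA : S.V x A) (hD : S.V x D) (h2 : ¬ S.Li D) (h : Adj A D) : S.Li A :=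
  ((S.T x).ne_ty hA hD h).2 h2

theorem inter (hA : S.V x A) (hD : S.V x D) (hE : S.V x E) (h1 : ¬ S.Li D) (h2 : Adj A D)
    (h3 : Adj A E) (h4 : D ≠ E) (h5 : D ≤ stabilizer G y) (h6 : E ≤ stabilizer G y) :
    A ≤ stabilizer G y := by
  by_cases e : x = y
  · exact e ▸ V_St hA
  obtain ⟨B, hB, h7, h8⟩ := line (S := S) e
  exact ((S.T x).uniq hA hB hD hE h2 (adj_of hB h7 hD h1 e h8 h5) h3 (adj_of hB h7 hE
    (fun h => h1 (((S.T x).ty_nb hA hD hE h2 h3).2 h)) e h8 h6)).resolve_right h4 ▸ h8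

theorem fix_z (hD : S.V x D) (h : ¬ S.Li D) (hz : z ∈ D) (h1 : z ≠ 1) (h2 : z • y = y) :
    D ≤ stabilizer G y := by
  by_cases e : x = y
  · exact e ▸ V_St hD
  obtain ⟨A, hA, h3, h4⟩ := line (S := S) e
  exact adj_le hA h3 hD ((S.T x).fix hD hA (by tauto) hz h1
    ((ce hA h3 e h4).nrm (V_St hD hz) h2)).symm h4

theorem plane (hA : S.V x A) (h : S.Li A) (y : Ω) :
    ∃ D, S.V x D ∧ ¬ S.Li D ∧ Adj A D ∧ D ≤ stabilizer G y := by
  by_cases e : A ≤ stabilizer G y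
  · obtain ⟨D, hD, h1, -⟩ := (S.T x).third hA A A
    exact ⟨D, hD, ((S.T x).ne_ty hA hD h1).1 h, h1, adj_le hA h hD h1 e⟩
  obtain ⟨B, hB, h1, h2⟩ := line (S := S) (x := x) (y := y) fun e' => e (e' ▸ V_St hA)
  obtain ⟨D, hD, h3, h4⟩ := (S.T x).join hA hB (fun e' => e (e' ▸ h2)) (by tauto)
  exact ⟨D, hD, ((S.T x).ne_ty hA hD h3).1 h, h3, adj_le hB h1 hD h4 h2⟩

theorem ncard_Fx (h : A ≤ stabilizer G x) :
    (Fx Ω A).ncard = {y | x ≠ y ∧ A ≤ stabilizer G y}.ncard + 1 := by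
  rw [← Set.ncard_sdiff_singleton_add_one (s := Fx Ω A) h]
  congr 2; ext; simp [eq_comm, and_comm]

variable (S) in
theorem exists_s [Nonempty Ω] : ∃ m, 0 < m ∧ ∀ x A, S.V x A → S.Li A → (Fx Ω A).ncard = m + 1 := by
  obtain ⟨x⟩ := ‹Nonempty Ω›
  obtain ⟨y, h⟩ := S.exists_ne x
  obtain ⟨A, h1, h2, h3⟩ := line (S := S) h.symm
  refine ⟨_, (Set.ncard_pos (s := {y | x ≠ y ∧ A ≤ stabilizer G y})).2 ⟨y, h.symm, h3⟩,
    fun x' A' h4 h5 => ?_⟩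
  obtain ⟨g, rfl⟩ := S.trans x x'
  obtain ⟨n, -, rfl⟩ := (S.T _).trans_ty (V_cj h1 g) h4 (by rw [li_cj]; tauto)
  rw [ncard_Fx_cj, ncard_Fx_cj, ncard_Fx (V_St h1)]

variable {m : ℕ} (hm0 : 0 < m) (hm : ∀ x A, S.V x A → S.Li A → (Fx Ω A).ncard = m + 1)
include hm

theorem card_line (hA : S.V x A) (h : S.Li A) : {y | x ≠ y ∧ A ≤ stabilizer G y}.ncard = m :=
  Nat.succ_injective ((ncard_Fx (V_St hA)).symm.trans (hm x A hA h))

theorem card_Ω (x : Ω) : Nat.card Ω = (S.q ^ 2 + S.q + 1) * m + 1 := by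
  rw [← ncard_ne x, ncard_eq_mul_of_rel (A := {y | x ≠ y}) (B := {B | S.V x B ∧ (S.Li B ↔ True)}) (k := m)
    (fun y B => B ≤ stabilizer G y) (fun y hy => by
      obtain ⟨A, h1, h2, h3⟩ := line (S := S) hy
      exact ⟨A, ⟨h1, by tauto⟩, h3⟩)
    (fun y hy A hA B hB => line_uniq hA.1 hB.1 (hA.2.2 trivial) (hB.2.2 trivial) hy)
    fun A hA => card_line hm hA.1 (hA.2.2 trivial), (S.T x).card_ty]

theorem card_pl (hD : S.V x D) (h : ¬ S.Li D) : (Fx Ω D).ncard = (S.q + 1) * m + 1 := by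
  rw [ncard_Fx (V_St hD), ncard_eq_mul_of_rel (A := {y | x ≠ y ∧ D ≤ stabilizer G y})
    (B := {B | S.V x B ∧ Adj D B}) (k := m)
    (fun y B => B ≤ stabilizer G y) (fun y hy => by
      obtain ⟨A, h1, h2, h3⟩ := line (S := S) hy.1
      exact ⟨A, ⟨h1, (adj_of h1 h2 hD h hy.1 h3 hy.2).symm⟩, h3⟩)
    (fun y hy A hA B hB => line_uniq hA.1 hB.1 (li_of_adj hA.1 hD h hA.2.symm)
      (li_of_adj hB.1 hD h hB.2.symm) hy.1)
    fun A hA => Eq.trans (congrArg _ (Set.ext fun y => by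
      exact ⟨fun h => ⟨h.1.1, h.2⟩, fun h' => ⟨⟨h'.1,
        adj_le hA.1 (li_of_adj hA.1 hD h hA.2.symm) hD hA.2.symm h'.2⟩, h'.2⟩⟩))
      (card_line hm hA.1 (li_of_adj hA.1 hD h hA.2.symm)), (S.T x).card_nb hD]

theorem succ_dvd (x : Ω) : m + 1 ∣ S.q := by
  obtain ⟨D, hD, h⟩ := (S.T x).exists_ty False
  obtain ⟨z, hz, z1⟩ := (bot_or_exists_ne_one _).resolve_left ((S.T x).ne_bot hD)
  have h1 := ncard_eq_mul_of_rel (A := Fx Ω D) (B := {A | S.Li A ∧ z ∈ A ∧ ∃ y ∈ Fx Ω D, S.V y A})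
    (k := m + 1) (fun y A => A ≤ stabilizer G y) (fun y hy => by
      obtain ⟨A, h1, h2, h3⟩ := (S.T y).cover z ((vf hD hy).1 hz) (hD.sq hz) True
      exact ⟨A, ⟨h2.2 trivial, h3, y, hy, h1⟩, V_St h1⟩)
    (fun y hy A ⟨a1, a2, _, _, a3⟩ B ⟨b1, b2, _, _, b3⟩ h1 h2 =>
      (S.T y).eq_of_mem (vf a3 h1) (vf b3 h2) (by tauto) a2 b2 z1)
    fun A ⟨a1, a2, y, hy, a3⟩ => Eq.trans (congrArg _ (Set.ext fun w => by
      exact ⟨fun h => h.2, fun h' => ⟨adj_le a3 a1 (vf hD hy)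
        ((S.T y).adj_of_mem a3 (vf hD hy) (by tauto) a2 hz z1) h', h'⟩⟩)) (hm y A a3 a1)
  rw [card_pl hm hD h.1] at h1
  have h2 : (S.q + 1) * (m + 1) = (S.q + 1) * m + 1 + S.q := by ring
  exact (Nat.dvd_add_right (Dvd.intro_left _ h1.symm)).1 (h2 ▸ dvd_mul_left _ _)

theorem spread (h0 : 1 < m) (hD : S.V x D) (h : ¬ S.Li D) (hW : S.V x W) (h1 : Adj D W)
    (hy : D ≤ stabilizer G y) : ∃ W', S.V y W' ∧ Adj D W' ∧ D ⊓ W ≤ W' := by
  by_cases e : W ≤ stabilizer G y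
  · exact ⟨W, vf hW e, h1, inf_le_right⟩
  have hxy : x ≠ y := fun e' => e (e' ▸ V_St hW)
  have T := S.T x
  have T' := S.T y
  have w1 := li_of_adj hW hD h h1.symm
  obtain ⟨A, hA, a1, a2⟩ := line (S := S) hxy
  have a3 := adj_of hA a1 hD h hxy a2 hy
  have a4 := vf hA a2
  have d1 := vf hD hy
  have a5 : W ≠ A := fun e' => e (e' ▸ a2)
  obtain ⟨H, h2, h3, h4, h5, h6, h7⟩ := T.torus (X := S.M x ⊓ stabilizer G y) hA hD hW a3 h1 a5
    (fun B hB h => le_inf hB.1 (adj_le hA a1 hB h a2)) (le_inf hA.1 a2) inf_le_left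
    fun g hg => mem_N.2 ((ce hA a1 hxy a2).nrm (S.le_St x hg.1) hg.2)
  have h8 : ∀ g ∈ H, cj g A = A := fun g hg => (ce hA a1 hxy a2).nrm (S.le_St x (h2 hg).1) (h2 hg).2
  have h9 : ∀ g ∈ N (S.M y), cj g A = A → cj g D = D → ∀ E, S.V y E → Adj D E → E ≠ A →
      S.V y (cj g E) ∧ Adj D (cj g E) ∧ cj g E ≠ A := fun g h1 h2 h3 E h4 h5 h6 =>
    ⟨h4.cjN h1, h3 ▸ adj_cj.2 h5, fun e => h6 (cj_inj.1 (e.trans h2.symm))⟩
  obtain ⟨W0, b1, b2, b3, -⟩ := T'.third d1 A A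
  obtain ⟨a, ha, c0⟩ := coprime_exists_nrm_cj (nrm_of_le_N fun g hg => mem_N.2 (h8 g hg))
    (coprime_of_odd h3 hA.p2).symm (.inl (solvable_of_isPGroup Nat.prime_two hA.p2)) (H := W0)
    fun g hg => by
      obtain ⟨c1, c2, c3⟩ := h9 g (mem_NM (h2 hg).2) (h8 g hg) (mem_N.1 (h4 hg)) W0 b1 b2 b3
      obtain ⟨a, ha, e⟩ := T'.trans_nb' d1 a4 a3.symm b1 b2 b3 c1 c2 c3
      exact ⟨a, ha, e.symm⟩
  obtain ⟨c1, c2, c3⟩ := h9 a (a4.leN ha) (cj_self ha) (T.nrm hA hD a3 ha) W0 b1 b2 b3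
  generalize cj a W0 = W' at c0 c1 c2 c3
  obtain ⟨w, w2, w3, w4⟩ := h1.exists
  by_cases e1 : w ∈ W'
  · refine ⟨W', c1, c2, fun w' hw' => ?_⟩
    by_cases e2 : w' = 1
    · exact e2 ▸ one_mem _
    obtain ⟨g, hg, rfl⟩ := h6 w ⟨w2, w3⟩ w4 w' hw' e2
    exact c0 g hg w e1
  exfalso
  obtain ⟨W1, f1, f2, f3⟩ := T'.cover w (d1.1 w2) (hD.sq w2) True
  have f4 := T'.adj_of_mem d1 f1 (by tauto) w2 f3 w4
  obtain ⟨a1', g1, rfl⟩ := T'.trans_nb' d1 a4 a3.symm c1 c2 c3 f1 f4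
    fun e => a5 (T.eq_of_mem hW hA (by tauto) w3 (e ▸ f3) w4)
  have k : ∀ a ∈ A, cj a W' ≠ W' → a ∉ D := fun a _ n h => n (T'.nrm d1 c1 c2 h)
  have := ncard_le_mul_of_rel (A := Fx Ω W) (B := {A, W'}) (k := 1)
    (fun v L => W ≤ stabilizer G v ∧ S.V y L ∧ S.Li L ∧ L ≤ stabilizer G v) (fun v hv => by
      have v1 : y ≠ v := fun e' => e (e' ▸ hv)
      obtain ⟨L, l1, l2, l3⟩ := line (S := S) v1
      refine ⟨L, by_contra fun n => ?_, hv, l1, l2, l3⟩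
      rw [Set.mem_insert_iff, Set.mem_singleton_iff, not_or] at n
      obtain ⟨a2', g2, rfl⟩ := T'.trans_nb' d1 a4 a3.symm c1 c2 c3 l1
        (adj_of l1 l2 d1 h v1 l3 (adj_le hW w1 hD h1.symm hv)).symm n.1
      obtain ⟨g, hg, g3⟩ := h7 a1' g1 (k _ g1 fun e => e1 (e ▸ f3)) a2' g2 (k _ g2 n.2)
      have g4 : cj g (cj a1' W') = cj a2' W' := by
        rw [← (c0.cj_eq (inv_mem hg)), cj_cj, cj_cj, ← inv_mul_cancel_right (g * a1' * g⁻¹) a2',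
          ← cj_cj, c0.cj_eq (inv_mem hg)]
        exact T'.nrm d1 l1 (adj_of l1 l2 d1 h v1 l3 (adj_le hW w1 hD h1.symm hv)).symm g3
      exact e ((S.T v).eq_of_mem (vf hW hv) (vf l1 l3) (by tauto) (conj_mem_of_mem_N (h5 hg) w3)
        (g4 ▸ conj_mem_cj.2 f3) (CfsgFT.conj_ne_one w4) ▸ V_St l1))
    fun L _ => (Set.ncard_le_one (Set.toFinite _)).2 fun v hv v' hv' => by_contra fun n =>
      e (line_uniq (vf hW hv.1) (vf hv.2.1 hv.2.2.2) w1 hv.2.2.1 n hv'.1 hv'.2.2.2 ▸ V_St hv.2.1)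
  rw [hm x W hW w1, mul_one] at this
  have := this.trans (Set.ncard_insert_le _ _)
  rw [Set.ncard_singleton] at this
  omega

include hm0

theorem exists_off (hW : S.V x W) (hD : S.V x D) (h : ¬ S.Li D) (h1 : Adj W D) :
    ∃ y : Ω, D ≤ stabilizer G y ∧ ¬ W ≤ stabilizer G y := by
  by_contra n
  push Not at n
  have := Set.ncard_le_ncard (s := Fx Ω D) (t := Fx Ω W) n
  rw [card_pl hm hD h, hm x W hW (li_of_adj hW hD h h1)] at this
  have := (S.T x).two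
  nlinarith

theorem exists_off' (hD : S.V x D) (h : ¬ S.Li D) : ∃ y : Ω, ¬ D ≤ stabilizer G y := by
  by_contra n
  push Not at n
  have := Set.ncard_le_ncard (s := Set.univ) (t := Fx Ω D) fun y _ => n y
  rw [card_pl hm hD h, Set.ncard_univ, card_Ω hm x] at this
  have := (S.T x).two
  have : 0 < S.q ^ 2 * m := by positivity
  nlinarith

theorem dich (x : Ω) : m = 1 ∨ m + 1 = S.q := by
  refine or_iff_not_imp_left.2 fun n => Nat.dvd_antisymm (succ_dvd hm x) ?_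
  have T := S.T x
  obtain ⟨D, hD, ⟨h, -⟩⟩ := T.exists_ty False
  obtain ⟨W, hW, h1, -⟩ := T.third hD D D
  have w1 := li_of_adj hW hD h h1.symm
  obtain ⟨y, y1, y2⟩ := exists_off hm0 hm hW hD h h1.symm
  obtain ⟨W', hW', h2, h3⟩ := spread hm (by omega) hD h hW h1 y1
  have w2 := li_of_adj hW' (vf hD y1) h h2.symm
  obtain ⟨v, v1⟩ := exists_off' hm0 hm hD h
  obtain ⟨D1, a1, a2, a3, a4⟩ := plane hW w1 v
  obtain ⟨D2, b1, b2, b3, b4⟩ := plane hW' w2 v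
  have c1 : D1 ≠ D := fun e => v1 (e ▸ a4)
  have c2 : D1 ≠ D2 := fun e => y2 (inter hW a1 hD a2 a3 h1.symm c1 (e ▸ V_St b1) y1)
  obtain ⟨L, l1, l2, l3⟩ := (S.T v).join (vf a1 a4) (vf b1 b4) c2 (by tauto)
  have l4 := li_of_adj l1 (vf a1 a4) a2 l2.symm
  rw [← hm v L l1 l4, ← T.card_inf hD hW h1]
  refine card_dvd_of_free (fun g hg u hu => inter l1 (vf a1 a4) (vf b1 b4) a2 l2.symm l3.symm c2
    (T.nrm hW a1 a3 hg.2 ▸ cj_le_St.2 (adj_le l1 l4 (vf a1 a4) l2.symm hu))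
    ((S.T y).nrm hW' b1 b3 (h3 hg) ▸ cj_le_St.2 (adj_le l1 l4 (vf b1 b4) l3.symm hu)))
    fun g hg u hu e => by_contra fun g1 => ?_
  have d1 := fix_z hD h hg.1 g1 e
  have d2 := inter hW a1 hD a2 a3 h1.symm c1 (adj_le l1 l4 (vf a1 a4) l2.symm hu) d1
  have d3 := inter hW' b1 (vf hD y1) b2 b3 h2.symm (fun e => v1 (e ▸ b4))
    (adj_le l1 l4 (vf b1 b4) l3.symm hu) d1
  exact y2 ((S.T u).eq_of_mem (vf hW d2) (vf hW' d3) (by tauto) hg.2 (h3 hg) g1 ▸ V_St hW')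

omit hm0 in
theorem dvd_twelve (x : Ω) (h : m = 1) : S.q + 2 ∣ 12 := by
  subst h
  have h1 := ncard_mul_eq (A := (Set.univ : Set Ω)) (B := {D | ¬ S.Li D ∧ ∃ x, S.V x D})
    (fun x D => D ≤ stabilizer G x) (k := S.q ^ 2 + S.q + 1) (l := S.q + 2) (fun y _ => by
      rw [← (S.T y).card_ty False]; congr 1; ext D
      exact ⟨fun ⟨⟨h1, _, h2⟩, h3⟩ => ⟨vf h2 h3, by tauto⟩, fun h => ⟨⟨h.2.1, y, h.1⟩, V_St h.1⟩⟩)
    fun D ⟨h1, y, h2⟩ => by simpa using card_pl hm h2 h1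
  rw [Set.ncard_univ, card_Ω hm x] at h1
  have h2 : ((S.q ^ 2 + S.q + 1) * 1 + 1) * (S.q ^ 2 + S.q + 1) + (S.q + 2) * 5 =
      (S.q + 2) * (S.q ^ 3 + 4 * S.q) + 12 := by ring
  exact (Nat.dvd_add_right (dvd_mul_right _ _)).1
    (h2 ▸ dvd_add (Dvd.intro_left _ h1.symm) (dvd_mul_right _ _))

end Sit

end CfsgL3
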