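import Cfsg.Agent.H4.L3e
import Cfsg.Agent.H3.ZassBasic

set_option autoImplicit false
set_option linter.unusedSectionVars false

/-! Doubly transitive groups of even degree with `L₃(q)`, `q` even, normal in a point stabilizer:
the affine case. -/

namespace CfsgL3

open Subgroup CfsgH5 CfsgH6 CfsgFT CfsgSZ MulAction
open scoped commutatorElement

universe u v

variable {G : Type u} {Ω : Type v} [Group G] [Finite G] [MulAction G Ω] [Finite Ω]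

variable (Ω) in
/-- parallel planes. -/
def Par (D E : Subgroup G) : Prop :=
  D = E ∨ ∀ y : Ω, D ≤ stabilizer G y → ¬ E ≤ stabilizer G y

theorem Par.symm {D E : Subgroup G} (h : Par Ω D E) : Par Ω E D :=
  h.imp Eq.symm fun h y h1 h2 => h y h2 h1

theorem Par.cjj {D E : Subgroup G} (h : Par Ω D E) (g : G) : Par Ω (cj g D) (cj g E) :=
  h.imp (congrArg _) fun h y => by
    obtain ⟨y, rfl⟩ := MulAction.surjective g y
    rw [cj_le_St, cj_le_St]; exact h y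

namespace Sit

variable {S : Sit G Ω} {x y w x' y' : Ω} {A B D E W L A' D' : Subgroup G} {a b c g z : G}
  {m : ℕ} (hm : ∀ x A, S.V x A → S.Li A → (Fx Ω A).ncard = m + 1) (hq : m + 1 = S.q)

theorem card_le (hxy : x ≠ y) : S.q ^ 3 * (S.q ^ 2 - 1) * (stabilizer G y).relIndex (S.M x) ≤
    Nat.card (S.M x) := by
  have T := S.T x
  obtain ⟨A, hA, a1, a2⟩ := line (S := S) hxy
  obtain ⟨D, hD, h1, -⟩ := T.third hA A A
  obtain ⟨z, z1, z2, z3⟩ := h1.exists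
  rw [← card_inf_mul_relIndex (stabilizer G y), ← card_inf_mul_relIndex (C1 z), ← ncard_class,
    ← T.card_sup hA hD h1, ← hA.2.2, ← ncard_sharp]
  refine Nat.mul_le_mul_right _ (Nat.mul_le_mul (card_le_of_le (sup_le
    (fun a ha => ⟨mem_C1.2 (hA.comm ha z1), a2 ha, hA.1 ha⟩) fun a ha => ⟨mem_C1.2 (hD.comm ha z2),
      adj_le hA a1 hD h1 a2 ha, hD.1 ha⟩)) (Set.ncard_le_ncard fun a ha => ?_))
  obtain ⟨g, hg, e⟩ := T.trans_sharp (X := stabilizer G y ⊓ S.M x) hA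
    (fun B hB h => le_inf (adj_le hA a1 hB h a2) hB.1) z1 z3 ha.1 ha.2
  exact ⟨z, rfl, g, hg, e.symm⟩

theorem eq_of_two (hL : S.V x L) (h1 : S.Li L) (hD : S.V y D) (h2 : ¬ S.Li D)
    (h3 : ¬ D ≤ stabilizer G x) (a1 : L ≤ stabilizer G w) (a2 : D ≤ stabilizer G w)
    (a3 : L ≤ stabilizer G x') (a4 : D ≤ stabilizer G x') : w = x' := by_contra fun n =>
  h3 (adj_le (vf hL a1) h1 (vf hD a2) (adj_of (vf hL a1) h1 (vf hD a2) h2 n a3 a4) (V_St hL))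

include hm hq

theorem card_miss (hD : S.V x D) (h : ¬ S.Li D) (hy : ¬ D ≤ stabilizer G y) :
    {L | S.V y L ∧ S.Li L ∧ ∀ v : Ω, L ≤ stabilizer G v → ¬ D ≤ stabilizer G v}.ncard = S.q + 1 := by
  have h1 := ncard_eq_mul_of_rel (A := Fx Ω D) (k := 1)
    (B := {L | S.V y L ∧ (S.Li L ↔ True)} \
      {L | S.V y L ∧ S.Li L ∧ ∀ v : Ω, L ≤ stabilizer G v → ¬ D ≤ stabilizer G v})
    (fun v L => L ≤ stabilizer G v) (fun v hv => by
      obtain ⟨L, l1, l2, l3⟩ := line (S := S) (x := y) (y := v) fun e => hy (e ▸ hv)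
      exact ⟨L, ⟨⟨l1, by tauto⟩, fun h => h.2.2 v l3 hv⟩, l3⟩)
    (fun v hv A hA B hB => line_uniq hA.1.1 hB.1.1 (hA.1.2.2 trivial) (hB.1.2.2 trivial)
      fun e => hy (e ▸ hv))
    fun L hL => by
      obtain ⟨v, h1, h2⟩ : ∃ v : Ω, L ≤ stabilizer G v ∧ D ≤ stabilizer G v := by
        by_contra n; push Not at n; exact hL.2 ⟨hL.1.1, hL.1.2.2 trivial, n⟩
      exact Set.ncard_eq_one.2 ⟨v, Set.eq_singleton_iff_unique_mem.2 ⟨⟨h2, h1⟩, fun w hw =>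
        eq_of_two hL.1.1 (hL.1.2.2 trivial) hD h hy hw.2 hw.1 h1 h2⟩⟩
  have h2 := Set.ncard_sdiff_add_ncard_of_subset (t := {L | S.V y L ∧ (S.Li L ↔ True)})
    (s := {L | S.V y L ∧ S.Li L ∧ ∀ v : Ω, L ≤ stabilizer G v → ¬ D ≤ stabilizer G v})
    fun L h => ⟨h.1, iff_true_intro h.2.1⟩
  rw [card_pl hm hD h, mul_one] at h1
  rw [← h1, (S.T y).card_ty, ← hq] at h2
  rw [← hq]
  nlinarith

theorem exists_par (hD : S.V x D) (h : ¬ S.Li D) (y : Ω) : ∃ E, S.V y E ∧ ¬ S.Li E ∧ Par Ω D E := by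
  by_cases hy : D ≤ stabilizer G y
  · exact ⟨D, vf hD hy, h, .inl rfl⟩
  have T := S.T y
  obtain ⟨L1, L2, l1, l2, n⟩ := (Set.one_lt_ncard_iff (s := {L | S.V y L ∧ S.Li L ∧
    ∀ v : Ω, L ≤ stabilizer G v → ¬ D ≤ stabilizer G v})).1 (by
      rw [card_miss hm hq hD h hy]; omega)
  obtain ⟨E, hE, e1, e2⟩ := T.join l1.1 l2.1 n (iff_of_true l1.2.1 l2.2.1)
  have e3 := (T.ne_ty l1.1 hE e1).1 l1.2.1
  refine ⟨E, hE, e3, .inr fun v v1 v2 => ?_⟩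
  obtain ⟨L, a1, a2, a3⟩ := (S.T v).join (vf hD v1) (vf hE v2) (fun e => hy (e ▸ V_St hE)) (by tauto)
  have a4 := li_of_adj a1 (vf hD v1) h a2.symm
  have a5 : ∀ w : Ω, L ≤ stabilizer G w → D ≤ stabilizer G w := fun w =>
    adj_le a1 a4 (vf hD v1) a2.symm
  have := ncard_le_mul_of_rel (A := Fx Ω L) (B := {B | S.V y B ∧ Adj E B ∧ B ≠ L1} \ {L2}) (k := 1)
    (fun w B => L ≤ stabilizer G w ∧ S.V y B ∧ S.Li B ∧ B ≤ stabilizer G w) (fun w hw => by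
      have w1 : y ≠ w := fun e => hy (e ▸ a5 w hw)
      obtain ⟨B, b1, b2, b3⟩ := line (S := S) w1
      exact ⟨B, ⟨⟨b1, (adj_of b1 b2 hE e3 w1 b3 (adj_le a1 a4 (vf hE v2) a3.symm hw)).symm,
        fun e => l1.2.2 w (e ▸ b3) (a5 w hw)⟩, fun e => l2.2.2 w (e ▸ b3) (a5 w hw)⟩, hw, b1, b2, b3⟩)
    fun B _ => (Set.ncard_le_one (Set.toFinite _)).2 fun w hw w' hw' =>
      eq_of_two hw.2.1 hw.2.2.1 hD h hy hw.2.2.2 (a5 w hw.1) hw'.2.2.2 (a5 w' hw'.1)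
  rw [hm v L a1 a4, Set.ncard_sdiff_singleton_of_mem (s := {B | S.V y B ∧ Adj E B ∧ B ≠ L1})
    ⟨l2.1, e2.symm, n.symm⟩, T.card_nb' hE l1.1 e1.symm] at this
  omega

theorem adj_of_miss (hD : S.V x D) (h : ¬ S.Li D) (hE : S.V y E) (h1 : ¬ S.Li E)
    (h2 : ∀ v : Ω, D ≤ stabilizer G v → ¬ E ≤ stabilizer G v) (hL : S.V y L) (h3 : S.Li L)
    (h4 : ∀ v : Ω, L ≤ stabilizer G v → ¬ D ≤ stabilizer G v) : Adj E L :=
  ((Set.eq_of_subset_of_ncard_le (s := {B | S.V y B ∧ Adj E B})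
    (t := {L | S.V y L ∧ S.Li L ∧ ∀ v : Ω, L ≤ stabilizer G v → ¬ D ≤ stabilizer G v})
    (fun B hB => ⟨hB.1, li_of_adj hB.1 hE h1 hB.2.symm, fun v a b => h2 v b
      (adj_le hB.1 (li_of_adj hB.1 hE h1 hB.2.symm) hE hB.2.symm a)⟩)
    (by rw [card_miss hm hq hD h fun e => h2 y e (V_St hE), (S.T y).card_nb hE])).ge ⟨hL, h3, h4⟩).2

theorem par_uniq (hD : S.V x D) (h : ¬ S.Li D) (hE : S.V y E) (h1 : ¬ S.Li E) (hW : S.V y W)
    (h2 : ¬ S.Li W) (h3 : Par Ω D E) (h4 : Par Ω D W) : E = W := by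
  rcases h3 with rfl | h3
  · exact h4.resolve_right fun h4 => h4 y (V_St hE) (V_St hW)
  rcases h4 with rfl | h4
  · exact absurd (V_St hE) (h3 y (V_St hW))
  exact (S.T y).eq_of_nb hE hW fun B hB e => adj_of_miss hm hq hD h hW h2 h4 hB
    (li_of_adj hB hE h1 e.symm) fun v a b =>
      h3 v b (adj_le hB (li_of_adj hB hE h1 e.symm) hE e.symm a)

theorem par_trans (hD : S.V x D) (h : ¬ S.Li D) (hE : S.V y E) (h1 : ¬ S.Li E) (hW : S.V w W)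
    (h2 : ¬ S.Li W) (h3 : Par Ω D E) (h4 : Par Ω E W) : Par Ω D W :=
  or_iff_not_imp_right.2 fun n => by
    push Not at n
    obtain ⟨v, v1, v2⟩ := n
    exact par_uniq hm hq hE h1 (vf hD v1) h (vf hW v2) h2 h3.symm h4

theorem nrm_par (hD : S.V x D) (h : ¬ S.Li D) (hE : S.V y E) (h1 : ¬ S.Li E) (h2 : Par Ω D E)
    (ha : a ∈ D) : cj a E = E := by
  rcases id h2 with rfl | h3
  · exact cj_self ha
  refine par_uniq hm hq hD h (V_cj hE a) (by rwa [li_cj]) (vf hE ?_) h1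
    (cj_self ha ▸ h2.cjj a) h2
  by_cases e : y = a • y
  · exact e ▸ V_St hE
  obtain ⟨L, l1, l2, l3⟩ := line (S := S) e
  refine adj_le l1 l2 hE (adj_of_miss hm hq hD h hE h1 h3 l1 l2 fun v v1 v2 => ?_).symm l3
  have v3 : a • v = v := v2 ha
  refine h3 y (adj_le (vf l1 v1) l2 (vf hD v2) ((S.T v).fix (vf hD v2) (vf l1 v1) (by tauto) ha
    (fun e' => e (by rw [e', one_smul])) (line_uniq (v3 ▸ V_cj (vf l1 v1) a) (vf l1 v1) (li_cj.2 l2) l2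
      (fun e' => ?_) (cj_le_St.2 (V_St l1)) l3)).symm (V_St l1)) (V_St hE)
  exact h3 y ((smul_left_cancel_iff a).1 (v3.trans e') ▸ v2) (V_St hE)

theorem trans_aux (hL : S.V y L) (h1 : S.Li L) (h2 : L ≤ stabilizer G w) (h3 : ¬ L ≤ stabilizer G x) :
    ∃ n ∈ S.M x, n • y = w := by
  obtain ⟨D, d1, d2, d3, d4⟩ := plane hL h1 x
  obtain ⟨E, e1, e2, e3, -⟩ := (S.T y).third hL D D
  have e4 := ((S.T y).ne_ty hL e1 e2).1 h1
  obtain ⟨E', f1, f2, f3⟩ := exists_par hm hq e1 e4 x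
  have f4 := f3.resolve_left fun e => h3 (inter hL d1 e1 d2 d3 e2 e3.symm d4 (e ▸ V_St f1))
  obtain ⟨W, w1, w2, w3⟩ := (S.T x).join (vf d1 d4) f1 (fun e => f4 y (V_St e1) (e ▸ V_St d1)) (by tauto)
  obtain ⟨r, hr, e⟩ := trans_of_card (R := W ⊓ E') (S := ⊥) (Λ := Fx Ω L) (x := y)
    (fun r hr => inter hL d1 e1 d2 d3 e2 e3.symm
      ((S.T x).nrm w1 (vf d1 d4) w2.symm hr.1 ▸ cj_le_St.2 (V_St d1))
      (nrm_par hm hq f1 f2 e1 e4 f3.symm hr.2 ▸ cj_le_St.2 (V_St e1)))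
    (fun r hr e => by_contra fun n => f4 y (V_St e1) (fix_z f1 f2 hr.2 n e))
    (by rw [hm y L hL h1, relIndex_bot_left, (S.T x).card_inf w1 f1 w3.symm, hq]) h2
  exact ⟨r, w1.1 hr.1, e⟩

theorem trans_M (h1 : x ≠ y) (h2 : x ≠ y') : ∃ n ∈ S.M x, n • y = y' := by
  obtain ⟨A, a1, a2, a3⟩ := line (S := S) h1
  obtain ⟨A', b1, b2, b3⟩ := line (S := S) h2
  have := (S.T x).two
  obtain ⟨B, ⟨c1, c2⟩, c3, c4⟩ := CfsgH1.exists_ne_ne_of_three_le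
    (s := {B | S.V x B ∧ (S.Li B ↔ True)}) (by rw [(S.T x).card_ty]; nlinarith) A A'
  obtain ⟨w, w1, w2⟩ := (Set.ncard_pos).1 (card_line hm c1 (c2.2 trivial) ▸ (by omega : 0 < m))
  have k : ∀ {y A}, x ≠ y → S.V x A → S.Li A → A ≤ stabilizer G y → B ≠ A →
      ∃ n ∈ S.M x, n • y = w := fun {y A} h1 a1 a2 a3 n => by
    obtain ⟨L, l1, l2, l3⟩ := line (S := S) (x := y) (y := w) fun e =>
      n (line_uniq c1 a1 (c2.2 trivial) a2 w1 w2 (e ▸ a3))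
    exact trans_aux hm hq l1 l2 l3 fun e => n ((line_uniq c1 (vf l1 e) (c2.2 trivial) l2 w1 w2 l3).trans
      (line_uniq (vf l1 e) a1 l2 a2 h1 (V_St l1) a3))
  obtain ⟨n, hn, e⟩ := k h1 a1 a2 a3 c3
  obtain ⟨n', hn', e'⟩ := k h2 b1 b2 b3 c4
  exact ⟨_, mul_mem (inv_mem hn') hn, by rw [mul_smul, e, ← e', inv_smul_smul]⟩

theorem pen (hL : S.V y L) (h : S.Li L) (x : Ω) : ∃ L', S.V x L' ∧ S.Li L' ∧ ∀ D E, S.V y D →
    ¬ S.Li D → S.V x E → ¬ S.Li E → Par Ω D E → (Adj L D ↔ Adj L' E) := by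
  obtain ⟨D0, d1, d2, d3, d4⟩ := plane hL h x
  obtain ⟨t, t1, t2, t3⟩ := d3.exists
  obtain ⟨L', l1, ⟨-, l2⟩, l3⟩ := (S.T x).cover t ((vf d1 d4).1 t2) (d1.sq t2) True
  have k : ∀ {x y L L' D E}, S.V y L → S.V x L' → S.Li L' → t ∈ L → t ∈ L' → S.V y D → ¬ S.Li D →
      S.V x E → ¬ S.Li E → Par Ω D E → Adj L D → Adj L' E :=
    fun {x y L L' D E} a1 a2 a3 a4 a5 a6 a7 a8 a9 a10 a11 => (S.T x).fix a2 a8 (by tauto) a5 t3
      (par_uniq hm hq a6 a7 (a8.cjM (a2.1 a5)) (by rwa [li_cj]) a8 a9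
        ((S.T y).nrm a1 a6 a11 a4 ▸ a10.cjj t) a10)
  exact ⟨L', l1, l2 trivial, fun D E a b c d e => ⟨k hL l1 (l2 trivial) t1 l3 a b c d e,
    k l1 hL h l3 t1 c d a b e.symm⟩⟩

/-- the dilatations. -/
def E0 : Subgroup G where
  carrier := {g | ∀ x D, S.V x D → ¬ S.Li D → Par Ω D (cj g D)}
  one_mem' := fun _ _ _ _ => .inl (cj_one _).symm
  mul_mem' := fun {a b} ha hb x D h1 h2 => par_trans hm hq h1 h2 (V_cj h1 a) (by rwa [li_cj])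
    (V_cj h1 _) (by rwa [li_cj]) (ha x D h1 h2) (cj_cj a b D ▸ (hb x D h1 h2).cjj a)
  inv_mem' := fun {a} ha x D h1 h2 => by
    have := (ha x D h1 h2).cjj a⁻¹
    rw [cj_inv_cj] at this
    exact this.symm

theorem conj_E0 (ha : a ∈ E0 hm hq) (g : G) : g * a * g⁻¹ ∈ E0 hm hq := fun x D h1 h2 => by
  have := (ha _ _ (V_cj h1 g⁻¹) (by rwa [li_cj])).cjj g
  rwa [cj_cj_inv, cj_cj, cj_cj] at this

theorem exists_E0 (x : Ω) : ∃ r ∈ E0 hm hq, x ≠ r • x := by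
  have T := S.T x
  have := T.two
  obtain ⟨D0, d1, ⟨d2, -⟩⟩ := T.exists_ty False
  obtain ⟨L, l1, l2, l3⟩ := T.exists_opp d1
  have l4 : S.Li L := by tauto
  obtain ⟨y, y1, y2⟩ := (Set.ncard_pos).1 (card_line hm l1 l4 ▸ (by omega : 0 < m))
  obtain ⟨D', e1, e2, e3⟩ := exists_par hm hq d1 d2 y
  have e4 : ¬ D' ≤ stabilizer G x := e3.resolve_left (fun e => l3 (adj_of l1 l4 d1 d2 y1 y2
    (e ▸ V_St e1)).symm) x (V_St d1)
  obtain ⟨z, hz, z1⟩ := (bot_or_exists_ne_one _).resolve_left ((S.T y).ne_bot e1)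
  obtain ⟨L', m1, m2, m3⟩ := pen hm hq ((vf l1 y2).cjM (e1.1 hz)) (li_cj.2 l4) x
  obtain ⟨a, ha, rfl⟩ := T.trans_opp d1 l1 l2 l3 m1 (by tauto) fun e => e4 (adj_le (vf l1 y2) l4 e1
    (adj_cj.1 ((cj_self hz).symm ▸ (m3 D' D0 e1 e2 d1 d2 e3.symm).2 e.symm)) (V_St l1))
  have r1 : a⁻¹ * z * (a⁻¹ * z) = 1 := by
    have := mem_C.1 (le_C_of_inf_eq_bot (nrm_of_le_N fun g hg => mem_N.2
      (nrm_par hm hq d1 d2 e1 e2 e3 hg)) (nrm_of_le_N fun g hg => mem_N.2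
      (nrm_par hm hq e1 e2 d1 d2 e3.symm hg)) (eq_bot_iff.2 fun g hg => by_contra fun n =>
        e4 (fix_z e1 e2 hg.2 n (V_St d1 hg.1))) (inv_mem ha)) z hz
    rw [mul_assoc, ← mul_assoc z, this, mul_assoc, e1.sq hz, mul_one, d1.sq (inv_mem ha)]
  choose! θ t1 t2 t3 using fun D (h1 : S.V x D) (h2 : ¬ S.Li D) =>
    exists_par hm hq (V_cj h1 (a⁻¹ * z)) (by rwa [li_cj]) x
  have t4 : ∀ D, S.V x D → ¬ S.Li D → Par Ω (cj z D) (cj a (θ D)) := fun D h1 h2 => by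
    simpa [cj_cj] using (t3 D h1 h2).cjj a
  have k := fun D => T.homol (D := D) θ d1 l1 l2 l3 (fun D h1 h2 => by
    have h3 : ¬ S.Li D := by tauto
    have h4 := (t3 D h1 h3).cjj (a⁻¹ * z)
    rw [cj_cj, r1, cj_one] at h4
    exact ⟨t1 D h1 h3, par_uniq hm hq (V_cj (t1 D h1 h3) _) (li_cj.not.2 (t2 D h1 h3))
      (t1 _ (t1 D h1 h3) (t2 D h1 h3)) (t2 _ (t1 D h1 h3) (t2 D h1 h3)) h1 h3
      (t3 _ (t1 D h1 h3) (t2 D h1 h3)) h4.symm⟩) (fun P h1 h2 => by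
    have h3 : S.Li P := by tauto
    obtain ⟨P', p1, -, p3⟩ := pen hm hq (V_cj h1 (a⁻¹ * z)) (li_cj.2 h3) x
    exact ⟨P', p1, fun D h4 h5 => have h6 := (T.ne_ty h1 h4 h5).1 h3
      (p3 _ _ (V_cj h4 _) (li_cj.not.2 h6) (t1 D h4 h6) (t2 D h4 h6) (t3 D h4 h6)).1 (adj_cj.2 h5)⟩)
    (fun P h1 h2 D h4 h5 => by
      have h6 := (T.ne_ty h1 h4 h5).1 (li_of_adj h1 d1 d2 h2.symm)
      rw [← adj_cj (g := a), T.nrm d1 h1 h2 ha]
      have h7 := (t1 D h4 h6).cjM (d1.1 ha)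
      have h8 := li_cj (g := a).not.2 (t2 D h4 h6)
      by_cases e : D = D0
      · subst e
        have := t4 D h4 h6
        rw [nrm_par hm hq e1 e2 h4 h6 e3.symm hz] at this
        exact par_uniq hm hq h4 h6 h4 h6 h7 h8 (.inl rfl) this ▸ h5
      obtain ⟨v, v1, v2⟩ : ∃ v : Ω, D' ≤ stabilizer G v ∧ D ≤ stabilizer G v := by
        by_contra n; push Not at n; exact e (par_uniq hm hq e1 e2 h4 h6 d1 d2 (.inr n) e3.symm)
      obtain ⟨W, w1, w2, w3⟩ := (S.T v).join (vf e1 v1) (vf h4 v2) (fun e => e4 (e ▸ V_St h4)) (by tauto)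
      obtain ⟨W', p1, -, p3⟩ := pen hm hq w1 (li_of_adj w1 (vf e1 v1) e2 w2.symm) x
      obtain rfl := (T.uniq h4 d1 p1 h1 ((p3 D D (vf h4 v2) h6 h4 h6 (.inl rfl)).1 w3.symm).symm
        ((p3 D' D0 (vf e1 v1) e2 d1 d2 e3.symm).1 w2.symm).symm h5.symm h2).resolve_left e
      exact (p3 _ _ ((vf h4 v2).cjM ((vf e1 v1).1 hz)) (li_cj.not.2 h6) h7 h8 (t4 D h4 h6)).1
        ((S.T v).nrm (vf e1 v1) w1 w2 hz ▸ adj_cj.2 w3.symm))
    fun D h4 h5 => by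
      have h6 := (T.ne_ty l1 h4 h5).1 l4
      exact adj_cj.1 ((m3 _ _ ((vf h4 (adj_le l1 l4 h4 h5 y2)).cjM (e1.1 hz)) (li_cj.not.2 h6)
        ((t1 D h4 h6).cjM (d1.1 ha)) (li_cj.not.2 (t2 D h4 h6)) (t4 D h4 h6)).1 (adj_cj.2 h5))
  refine ⟨a⁻¹ * z, fun v D h1 h2 => ?_, fun e => e4 (fix_z e1 e2 hz z1 ?_)⟩
  · obtain ⟨E, f1, f2, f3⟩ := exists_par hm hq h1 h2 x
    exact par_trans hm hq h1 h2 f1 f2 (V_cj h1 _) (li_cj.not.2 h2) f3 (par_trans hm hq f1 f2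
      (V_cj f1 _) (li_cj.not.2 f2) (V_cj h1 _) (li_cj.not.2 h2)
      (by have := (t3 E f1 f2).symm; rwa [k E f1 (by tauto)] at this) (f3.symm.cjj _))
  · rw [mul_smul, eq_inv_smul_iff] at e
    exact e.symm.trans (V_St d1 ha)

theorem exists_reg (x : Ω) : ∃ E : Subgroup G, E.Normal ∧ Nat.card E = S.q ^ 3 ∧
    (∀ x y : Ω, ∃ r ∈ E, r • x = y) ∧ ∀ x : Ω, ∀ r ∈ E, r • x = x → r = 1 := by
  obtain ⟨K, h1, h2⟩ := CfsgH3.frobenius_perm (E0 hm hq) (Set.univ : Set Ω) (fun x _ y _ => by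
    by_cases e : x = y
    · exact ⟨1, one_mem _, by rw [one_smul, e]⟩
    obtain ⟨r, hr, n⟩ := exists_E0 hm hq x
    obtain ⟨g, g1, rfl⟩ := S.two n e
    exact ⟨_, conj_E0 hm hq hr g, by rw [mul_smul, mul_smul, inv_smul_eq_iff.2 g1.symm]⟩)
    (fun _ _ _ _ => trivial) fun g hg x _ y _ n e e' => eq_one_of_cent
      ((S.T x).cent_of_fix (mem_NM e) False fun D h1 h2 => ((hg x D h1 h2.1).resolve_right fun h =>
        h x (V_St h1) (V_St (h1.cjN (mem_NM e)))).symm) e fun w hw => by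
      obtain ⟨n, hn, h⟩ := trans_M hm hq hw n
      exact ⟨n, hn, by rw [h, e']⟩
  have h3 : ∀ x : Ω, ∀ r ∈ K, r • x = x → r = 1 := fun x r hr e =>
    ((h1 r).1 hr).2.resolve_right fun h => h x trivial e
  refine ⟨K, ⟨fun a ha g => (h1 _).2 ⟨conj_E0 hm hq ((h1 a).1 ha).1 g, ((h1 a).1 ha).2.imp
    (fun e => by simp [e]) fun h y _ e => h (g⁻¹ • y) trivial (by
      rwa [mul_smul, mul_smul, ← eq_inv_smul_iff] at e)⟩⟩, ?_, fun x y => h2 x trivial y trivial, h3⟩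
  · rw [Nat.card_congr (Equiv.ofBijective (fun k : K => (k : G) • x) ⟨fun a b e => Subtype.ext
      (inv_mul_eq_one.1 (h3 x _ (mul_mem (inv_mem a.2) b.2) (by
        rw [mul_smul, inv_smul_eq_iff]; exact e.symm))), fun y => by
      obtain ⟨k, hk, e⟩ := h2 x trivial y trivial
      exact ⟨⟨k, hk⟩, e⟩⟩), card_Ω hm x, ← hq]
    ring

theorem card_M_ge (x : Ω) : S.q ^ 3 * (S.q ^ 2 - 1) * (S.q ^ 3 - 1) ≤ Nat.card (S.M x) := by
  obtain ⟨y, h⟩ := S.exists_ne x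
  refine le_trans (Nat.mul_le_mul_left _ ?_) (card_le h.symm)
  have h1 := ncard_ne x
  rw [card_Ω hm x] at h1
  rw [CfsgH1.relIndex_stabilizer, show S.q ^ 3 = {y | x ≠ y}.ncard + 1 by rw [h1, ← hq]; ring]
  exact Set.ncard_le_ncard fun w hw => trans_M hm hq h.symm hw

end Sit

end CfsgL3
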