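import Cfsg.Agent.H4.L3f
import Cfsg.Agent.H6.PSLSmall
import Cfsg.Agent.H1.PSLSimple
import Cfsg.Agent.SZ.KG_a

set_option autoImplicit false
set_option linter.unusedSectionVars false

/-! The geometry of the transvections of `L₃(q)`, `q` even. -/

namespace CfsgL3

open Subgroup CfsgH5 CfsgH6 CfsgFT CfsgSZ Matrix
open scoped MatrixGroups

universe u

variable {F : Type} [Field F] {u v w f h k : Fin 3 → F}

theorem rk1 (hv : v ≠ 0) (hf : f ≠ 0) (e : vecMulVec v h = vecMulVec w f) :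
    ∃ c : F, h = c • f ∧ w = c • v := by
  obtain ⟨i, hi⟩ := Function.ne_iff.1 hv
  obtain ⟨j, hj⟩ := Function.ne_iff.1 hf
  have k : ∀ a b, v a * h b = w a * f b := fun a b => congrFun (congrFun e a) b
  replace hi : v i ≠ 0 := hi
  replace hj : f j ≠ 0 := hj
  refine ⟨w i / v i, funext fun b => ?_, funext fun a => ?_⟩ <;>
    simp only [Pi.smul_apply, smul_eq_mul] <;> field_simp
  · linear_combination k i b
  · exact mul_right_cancel₀ hj (by linear_combination v a * k i j - v i * k a j)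

theorem dc (h : v ⬝ᵥ f = 0) : f ⬝ᵥ v = 0 := (dotProduct_comm _ _).trans h

theorem par_of_cross (hu : u ≠ 0) (e : u ⨯₃ f = 0) : ∃ c : F, f = c • u := by
  by_contra n
  exact crossProduct_ne_zero_iff_linearIndependent.2
    ((LinearIndependent.pair_iff' hu).2 fun c e => n ⟨c, e.symm⟩) e

theorem perp2 (hv : v ≠ 0) (hf : f ≠ 0) (h1 : v ⬝ᵥ f = 0) (h2 : w ⬝ᵥ f = 0) (h3 : v ⬝ᵥ h = 0)
    (h4 : w ⬝ᵥ h = 0) : (∃ c : F, w = c • v) ∨ ∃ c : F, h = c • f := by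
  by_cases e : v ⨯₃ w = 0
  · exact .inl (par_of_cross hv e)
  obtain ⟨c, rfl⟩ := par_of_cross (f := f) e (by rw [cross_cross_eq_smul_sub_smul, h1, h2]; simp)
  obtain ⟨d, rfl⟩ := par_of_cross (f := h) e (by rw [cross_cross_eq_smul_sub_smul, h3, h4]; simp)
  exact .inr ⟨d / c, by rw [smul_smul, div_mul_cancel₀ _ (left_ne_zero_of_smul hf)]⟩

theorem card_perp [Fintype F] (hv : v ≠ 0) : {f | v ⬝ᵥ f = 0}.ncard = Fintype.card F ^ 2 := by
  obtain ⟨i, hi⟩ := Function.ne_iff.1 hv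
  let φ : (Fin 3 → F) →ₗ[F] F := dotProductBilin F F v
  have h1 := φ.finrank_range_add_finrank_ker
  rw [LinearMap.range_eq_top.2 fun c => ⟨Pi.single i (c / v i), by
    simp [φ, mul_div_cancel₀ c (show v i ≠ 0 from hi)]⟩] at h1
  have h2 : Module.finrank F (LinearMap.ker φ) = 2 := by simp at h1; omega
  rw [← h2, ← Nat.card_eq_fintype_card, ← Module.natCard_eq_pow_finrank]
  rfl

variable {G : Type u} [Group G] [Finite G]

/-- transvections. -/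
structure TV (M : Subgroup G) (τ : (Fin 3 → F) → (Fin 3 → F) → G) : Prop where
  mem : ∀ v f, τ v f ∈ M
  ext : ∀ {v f w h}, v ⬝ᵥ f = 0 → w ⬝ᵥ h = 0 → (τ v f = τ w h ↔ vecMulVec v f = vecMulVec w h)
  add : ∀ {v f h}, v ⬝ᵥ f = 0 → v ⬝ᵥ h = 0 → τ v f * τ v h = τ v (f + h)
  add' : ∀ {v f w}, v ⬝ᵥ f = 0 → w ⬝ᵥ f = 0 → τ v f * τ w f = τ (v + w) f
  conj : ∀ {v f w h}, v ⬝ᵥ f = 0 → w ⬝ᵥ h = 0 →
    τ w h * τ v f * τ w h = τ (v + (v ⬝ᵥ h) • w) (f + (w ⬝ᵥ f) • h)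
  invol : ∀ z ∈ M, z * z = 1 → ∃ v f, v ⬝ᵥ f = 0 ∧ τ v f = z

namespace TV

variable [CharP F 2] {M A B D E : Subgroup G} {τ : (Fin 3 → F) → (Fin 3 → F) → G} (T : TV M τ)
  {a z : G}
include T

theorem swap : TV M fun v f => τ f v :=
  ⟨fun v f => T.mem f v, fun h1 h2 => by
    rw [T.ext (dc h1) (dc h2), ← transpose_inj,
      transpose_vecMulVec, transpose_vecMulVec],
    fun h1 h2 => T.add' (dc h1) (dc h2),
    fun h1 h2 => T.add (dc h1) (dc h2),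
    fun {v f w h} h1 h2 => by
      rw [T.conj (dc h1) (dc h2), dotProduct_comm f,
        dotProduct_comm h],
    fun z h1 h2 => by
      obtain ⟨v, f, h3, h4⟩ := T.invol z h1 h2
      exact ⟨f, v, dc h3, h4⟩⟩

theorem zero (v : Fin 3 → F) : τ v 0 = 1 := by
  simpa using T.add (v := v) (f := 0) (h := 0) (by simp) (by simp)

theorem sq (h1 : v ⬝ᵥ f = 0) : τ v f * τ v f = 1 := by
  rw [T.add h1 h1, ← two_smul F, CharTwo.two_eq_zero, zero_smul, T.zero]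

theorem ne_one (h1 : v ⬝ᵥ f = 0) : τ v f ≠ 1 ↔ v ≠ 0 ∧ f ≠ 0 := by
  rw [← T.zero 0, ne_eq, T.ext h1 (by simp), vecMulVec_zero, vecMulVec_eq_zero, not_or]

theorem smul (c : F) (h1 : v ⬝ᵥ c • f = 0) : τ (c • v) f = τ v (c • f) :=
  (T.ext (by simpa using h1) h1).2 (by rw [smul_vecMulVec, vecMulVec_smul])

theorem inj (hv : v ≠ 0) (h1 : v ⬝ᵥ f = 0) (h2 : v ⬝ᵥ h = 0) (e : τ v f = τ v h) : f = h := by
  obtain ⟨i, hi⟩ := Function.ne_iff.1 hv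
  exact funext fun j => mul_left_cancel₀ hi (congrFun (congrFun ((T.ext h1 h2).1 e) i) j)

/-- the transvections with centre `v`. -/
def P (v : Fin 3 → F) : Subgroup G where
  carrier := {g | ∃ f, v ⬝ᵥ f = 0 ∧ τ v f = g}
  one_mem' := ⟨0, by simp, T.zero v⟩
  mul_mem' := by
    rintro _ _ ⟨f, h1, rfl⟩ ⟨h, h2, rfl⟩
    exact ⟨_, by simp [h1, h2], (T.add h1 h2).symm⟩
  inv_mem' := by
    rintro _ ⟨f, h1, rfl⟩
    exact ⟨f, h1, eq_inv_of_mul_eq_one_left (T.sq h1)⟩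

/-- the transvections with axis `f`. -/
abbrev L (f : Fin 3 → F) : Subgroup G := T.swap.P f

theorem mem_P (h1 : v ⬝ᵥ f = 0) : τ v f ∈ T.P v := ⟨f, h1, rfl⟩
theorem mem_L (h1 : v ⬝ᵥ f = 0) : τ v f ∈ T.L f := ⟨v, dc h1, rfl⟩

theorem P_smul (c : F) : T.P (c • v) ≤ T.P v := by
  rintro _ ⟨f, h1, rfl⟩
  have : v ⬝ᵥ c • f = 0 := by simpa using h1
  exact T.smul c this ▸ T.mem_P this

theorem P_eq {c : F} (hw : c • v ≠ 0) : T.P (c • v) = T.P v :=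
  (T.P_smul c).antisymm (by
    simpa [smul_smul, inv_mul_cancel₀ (left_ne_zero_of_smul hw)] using T.P_smul (v := c • v) c⁻¹)

theorem par_of_P (hv : v ≠ 0) (h1 : T.P v ⊓ T.P w ≠ ⊥) : ∃ c : F, w = c • v := by
  obtain ⟨_, ⟨⟨f, a1, rfl⟩, ⟨h, a2, e⟩⟩, n⟩ := (bot_or_exists_ne_one _).resolve_left h1
  obtain ⟨c, -, e⟩ := rk1 hv ((T.ne_one a2).1 (e ▸ n)).2 ((T.ext a1 a2).1 e.symm)
  exact ⟨c, e⟩

theorem not_adj (hv : v ≠ 0) (hw : w ≠ 0) : ¬ Adj (T.P v) (T.P w) := fun h => by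
  obtain ⟨c, rfl⟩ := T.par_of_P hv h.2
  exact h.1 (T.P_eq hw).symm

theorem mem_inf (hv : v ≠ 0) (hf : f ≠ 0) (h1 : z ∈ T.P v) (h2 : z ∈ T.L f) :
    ∃ c : F, v ⬝ᵥ c • f = 0 ∧ τ v (c • f) = z := by
  obtain ⟨h, a1, rfl⟩ := h1
  obtain ⟨w, a2, e⟩ := h2
  obtain ⟨c, rfl, -⟩ := rk1 hv hf ((T.ext a1 (dc a2)).1 e.symm)
  exact ⟨c, a1, rfl⟩

theorem perp_of (hv : v ≠ 0) (hf : f ≠ 0) (h1 : T.P v ⊓ T.L f ≠ ⊥) : v ⬝ᵥ f = 0 := by
  obtain ⟨_, hz, n⟩ := (bot_or_exists_ne_one _).resolve_left h1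
  obtain ⟨c, a1, rfl⟩ := T.mem_inf hv hf hz.1 hz.2
  simpa [left_ne_zero_of_smul ((T.ne_one a1).1 n).2] using a1

theorem comm (hv : v ≠ 0) (hf : f ≠ 0) (h1 : v ⬝ᵥ f = 0) (h2 : z ∈ M) (h3 : z * z = 1)
    (e : z * τ v f = τ v f * z) : z ∈ T.P v ∨ z ∈ T.L f := by
  obtain ⟨w, h, h4, rfl⟩ := T.invol z h2 h3
  by_cases n : τ w h = 1
  · exact .inl (n ▸ one_mem _)
  have e1 := T.conj h1 h4
  rw [e, mul_assoc, h3, mul_one, T.ext h1 (by
    simp [h1, h4, mul_comm (v ⬝ᵥ h), CharTwo.add_self_eq_zero])] at e1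
  obtain ⟨c, e2, e3⟩ := rk1 hv (fun e => vecMulVec_ne_zero hv hf (by rw [e1, e, vecMulVec_zero])) e1
  have k : ∀ c : F, w = c • v → τ w h ∈ T.P v := fun c e => T.P_smul c (e ▸ T.mem_P h4)
  by_cases h5 : v ⬝ᵥ h = 0
  swap
  · exact .inl (k ((v ⬝ᵥ h)⁻¹ * (c - 1)) (by
      rw [mul_smul, sub_smul, ← e3, one_smul, add_sub_cancel_left, inv_smul_smul₀ h5]))
  rw [h5, zero_smul, add_zero] at e3
  rw [← smul_left_injective F hv ((one_smul F v).trans e3), one_smul, left_eq_add, smul_eq_zero] at e2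
  rcases perp2 hv hf h1 (e2.resolve_right ((T.ne_one h4).1 n).2) h5 h4 with ⟨c, e⟩ | ⟨c, rfl⟩
  · exact .inl (k c e)
  · exact .inr (T.swap.P_smul c (T.mem_L h4))

variable [Fintype F]

theorem vx (hv : v ≠ 0) : Vx M (Fintype.card F) (T.P v) := by
  refine ⟨by rintro _ ⟨f, -, rfl⟩; exact T.mem v f, ⟨?_, ?_⟩, ?_⟩
  · rintro _ ⟨f, h1, rfl⟩ _ ⟨h, h2, rfl⟩
    rw [T.add h1 h2, T.add h2 h1, add_comm]
  · rintro _ ⟨f, h1, rfl⟩
    rw [pow_two, T.sq h1]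
  rw [← card_perp hv, ← Set.InjOn.ncard_image (f := τ v) (s := {f | v ⬝ᵥ f = 0}) fun f h1 h h2 => T.inj hv h1 h2]
  rfl

theorem card_inf0 (hv : v ≠ 0) (hf : f ≠ 0) (h1 : v ⬝ᵥ f = 0) :
    Nat.card ↥(T.P v ⊓ T.L f) = Fintype.card F := by
  have h2 : ∀ c : F, v ⬝ᵥ c • f = 0 := fun c => by simp [h1]
  rw [← Nat.card_eq_fintype_card]
  refine (Nat.card_congr (Equiv.ofBijective (fun c : F => (⟨τ v (c • f), T.mem_P (h2 c),
    T.smul c (h2 c) ▸ T.mem_L (by simp [h1])⟩ : ↥(T.P v ⊓ T.L f))) ⟨fun c d e => ?_, fun z => ?_⟩)).symm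
  · have := (T.ext (h2 c) (h2 d)).1 (congrArg Subtype.val e)
    rw [vecMulVec_smul, vecMulVec_smul] at this
    exact smul_left_injective F (vecMulVec_ne_zero hv hf) this
  · obtain ⟨c, -, e⟩ := T.mem_inf hv hf z.2.1 z.2.2
    exact ⟨c, Subtype.ext e⟩

theorem P_ne_L (hv : v ≠ 0) (hf : f ≠ 0) : T.P v ≠ T.L f := fun e => by
  have h1 := (T.vx hv).2.2
  have h2 := Fintype.one_lt_card (α := F)
  have h3 := T.card_inf0 hv hf (T.perp_of hv hf (by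
    rw [← e, inf_idem, ← one_lt_card, h1]; nlinarith))
  rw [← e, inf_idem, h1] at h3
  nlinarith

theorem adj_iff (hv : v ≠ 0) (hf : f ≠ 0) : Adj (T.P v) (T.L f) ↔ v ⬝ᵥ f = 0 :=
  ⟨fun h => T.perp_of hv hf h.2, fun h => ⟨T.P_ne_L hv hf, by
    rw [← one_lt_card, T.card_inf0 hv hf h]; exact Fintype.one_lt_card⟩⟩

theorem cases (hA : Vx M (Fintype.card F) A) : ∃ v ≠ 0, A = T.P v ∨ A = T.L v := by
  have h2 := Fintype.one_lt_card (α := F)
  obtain ⟨z, hz, n⟩ := (bot_or_exists_ne_one A).resolve_left (by rw [← ne_eq, ← one_lt_card, hA.2.2]; nlinarith)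
  obtain ⟨v, f, h1, rfl⟩ := T.invol z (hA.1 hz) (hA.sq hz)
  obtain ⟨hv, hf⟩ := (T.ne_one h1).1 n
  rcases (SubgroupClass.subset_union (H := A) (K := T.P v) (L := T.L f)).1 fun a ha =>
    T.comm hv hf h1 (hA.1 ha) (hA.sq ha) (hA.comm ha hz) with h | h
  · exact ⟨v, hv, .inl (eq_of_le_of_card_eq h (hA.2.2.trans (T.vx hv).2.2.symm))⟩
  · exact ⟨f, hf, .inr (eq_of_le_of_card_eq h (hA.2.2.trans (T.swap.vx hf).2.2.symm))⟩

theorem nb (hv : v ≠ 0) (hD : Vx M (Fintype.card F) D) (h1 : Adj (T.P v) D) :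
    ∃ f ≠ 0, D = T.L f ∧ v ⬝ᵥ f = 0 := by
  obtain ⟨f, hf, rfl | rfl⟩ := T.cases hD
  · exact absurd h1 (T.not_adj hv hf)
  · exact ⟨f, hf, rfl, (T.adj_iff hv hf).1 h1⟩

theorem join0 (hv : v ≠ 0) (hw : w ≠ 0) (n : T.P v ≠ T.P w) :
    ∃ D, Vx M (Fintype.card F) D ∧ Adj (T.P v) D ∧ Adj (T.P w) D :=
  have h1 : v ⨯₃ w ≠ 0 := fun e => by
    obtain ⟨c, rfl⟩ := par_of_cross hv e
    exact n (T.P_eq hw).symm
  ⟨_, T.swap.vx h1, (T.adj_iff hv h1).2 (dot_self_cross _ _), (T.adj_iff hw h1).2 (dot_cross_self _ _)⟩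

theorem uniq0 (hv : v ≠ 0) (hB : Vx M (Fintype.card F) B) (hD : Vx M (Fintype.card F) D)
    (hE : Vx M (Fintype.card F) E) (h1 : Adj (T.P v) D) (h2 : Adj B D) (h3 : Adj (T.P v) E)
    (h4 : Adj B E) : T.P v = B ∨ D = E := by
  obtain ⟨f, hf, rfl, a1⟩ := T.nb hv hD h1
  obtain ⟨h, hh, rfl, a2⟩ := T.nb hv hE h3
  obtain ⟨w, hw, rfl, a3⟩ := T.swap.nb hf hB h2.symm
  rcases perp2 hv hf a1 (dc a3) a2 ((T.adj_iff hw hh).1 h4) with ⟨c, rfl⟩ | ⟨c, rfl⟩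
  · exact .inl (T.P_eq hw).symm
  · exact .inr (T.swap.P_eq hh).symm

theorem card_inf1 (hv : v ≠ 0) (hB : Vx M (Fintype.card F) B) (h1 : Adj (T.P v) B) :
    Nat.card ↥(T.P v ⊓ B) = Fintype.card F := by
  obtain ⟨f, hf, rfl, a1⟩ := T.nb hv hB h1
  exact T.card_inf0 hv hf a1

theorem fix0 (hv : v ≠ 0) (hf : f ≠ 0) (ha : a ∈ T.P v) (h1 : a ≠ 1) (e : cj a (T.L f) = T.L f) :
    Adj (T.P v) (T.L f) := by
  obtain ⟨h, a1, rfl⟩ := ha
  have hh := ((T.ne_one a1).1 h1).2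
  rw [T.adj_iff hv hf]
  by_cases n : h ⨯₃ f = 0
  · obtain ⟨c, rfl⟩ := par_of_cross hh n
    simp [a1]
  have a2 : h ⨯₃ f ⬝ᵥ f = 0 := dc (dot_cross_self _ _)
  have a3 : h ⨯₃ f ⬝ᵥ h = 0 := dc (dot_self_cross _ _)
  have a4 : τ v h * τ (h ⨯₃ f) f * (τ v h)⁻¹ ∈ T.L f := e ▸ conj_mem_cj.2 (T.mem_L a2)
  rw [inv_eq_of_mul_eq_one_left (T.sq a1), T.conj a2 a1, a3, zero_smul, add_zero] at a4
  obtain ⟨c, a5, e⟩ := T.mem_inf n hf (T.mem_P (by simp [a2, a3])) a4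
  have a6 := T.inj n a5 (by simp [a2, a3]) e
  have a7 := congrArg (h ⨯₃ ·) a6
  simp only [map_add, map_smul, cross_self, smul_zero, add_zero] at a7
  rw [smul_left_injective F n (a7.trans (one_smul F _).symm), one_smul, left_eq_add, smul_eq_zero] at a6
  exact a6.resolve_right hh

theorem tri (hM : IsSimpleGroup M) : Tri M (Fintype.card F) fun A => ∃ v ≠ 0, A = T.P v := by
  have k : ∀ {f}, f ≠ 0 → ¬ ∃ v ≠ 0, T.L f = T.P v := fun hf ⟨v, hv, e⟩ => T.P_ne_L hv hf e.symm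
  have k' : ∀ {v}, v ≠ 0 → ∃ w ≠ 0, T.P v = T.P w := fun hv => ⟨_, hv, rfl⟩
  refine ⟨Fintype.one_lt_card, (simple_iff.1 hM).2, fun h1 h2 h => ?_, fun h1 h2 n h => ?_,
    fun h1 h2 h3 h4 => ?_, fun h1 h2 => ?_, fun z h1 h2 b => ?_, fun h1 h2 h => ?_⟩
  · obtain ⟨v, hv, rfl | rfl⟩ := T.cases h1
    · obtain ⟨f, hf, rfl, -⟩ := T.nb hv h2 h
      exact iff_of_true (k' hv) (k hf)
    · obtain ⟨f, hf, rfl, -⟩ := T.swap.nb hv h2 h
      exact iff_of_false (k hv) (not_not.2 (k' hf))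
  · obtain ⟨v, hv, rfl | rfl⟩ := T.cases h1 <;> obtain ⟨w, hw, rfl | rfl⟩ := T.cases h2
    exacts [T.join0 hv hw n, absurd (h.1 (k' hv)) (k hw), absurd (h.2 (k' hw)) (k hv),
      T.swap.join0 hv hw n]
  · obtain ⟨v, hv, rfl | rfl⟩ := T.cases h1
    exacts [T.uniq0 hv h2 h3 h4, T.swap.uniq0 hv h2 h3 h4]
  · obtain ⟨v, hv, rfl | rfl⟩ := T.cases h1
    exacts [T.card_inf1 hv h2, T.swap.card_inf1 hv h2]
  · obtain ⟨v, f, hv, hf, h3, h4⟩ : ∃ v ≠ 0, ∃ f ≠ 0, z ∈ T.P v ∧ z ∈ T.L f := by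
      by_cases n : z = 1
      · exact ⟨1, one_ne_zero, 1, one_ne_zero, n ▸ one_mem _, n ▸ one_mem _⟩
      obtain ⟨v, f, h3, rfl⟩ := T.invol z h1 h2
      exact ⟨v, ((T.ne_one h3).1 n).1, f, ((T.ne_one h3).1 n).2, T.mem_P h3, T.mem_L h3⟩
    by_cases hb : b
    exacts [⟨_, T.vx f, iff_of_true (k' f) hb, h3⟩, ⟨_, T.swap.vx hf, iff_of_false (k hf) hb, h4⟩]
  · obtain ⟨v, hv, rfl | rfl⟩ := T.cases h1 <;> obtain ⟨w, hw, rfl | rfl⟩ := T.cases h2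
    exacts [absurd (k' hw) (h.1 (k' hv)), T.fix0 hv hw, T.swap.fix0 hv hw, absurd (h.2 (k hw)) (k hv)]

end TV

open Classical in
/-- a transvection. -/
noncomputable def tv (v f : Fin 3 → F) : SL(3, F) :=
  if h : v ⬝ᵥ f = 0 then ⟨1 + vecMulVec v f, by
    simp [det_fin_three, vecMulVec_apply, vec3_dotProduct, one_apply] at h ⊢
    linear_combination h⟩ else 1

theorem coe_tv (h : v ⬝ᵥ f = 0) : (tv v f : Matrix (Fin 3) (Fin 3) F) = 1 + vecMulVec v f :=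
  congrArg Subtype.val (dif_pos h)

theorem exists_vec {X : Matrix (Fin 3) (Fin 3) F} (h : X * X = 0) :
    ∃ v f : Fin 3 → F, v ⬝ᵥ f = 0 ∧ vecMulVec v f = X := by
  have h1 := rank_add_rank_le_card_of_mul_eq_zero h
  obtain ⟨v, hv⟩ := (finrank_le_one_iff (K := F) (V := LinearMap.range X.mulVecLin)).1
    (by rw [Fintype.card_fin, Matrix.rank] at h1; omega)
  choose f hf using fun j => hv ⟨_, Pi.single j 1, rfl⟩
  have e : vecMulVec v.1 f = X := by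
    ext i j
    simpa [vecMulVec_apply, mul_comm] using congrFun (congrArg Subtype.val (hf j)) i
  rw [← e, vecMulVec_mul_vecMulVec, vecMulVec_eq_zero, smul_eq_zero] at h
  exact ⟨_, _, h.elim (fun e => by simp [e]) fun h => h.elim dc fun e => by simp [e], e⟩

theorem exists_tv [CharP F 2] {M : Subgroup G} (e : M ≃* PSL(3, F)) :
    ∃ τ : (Fin 3 → F) → (Fin 3 → F) → G, TV M τ := by
  let ψ : SL(3, F) →* G := M.subtype.comp (e.symm.toMonoidHom.comp (QuotientGroup.mk' _))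
  have h1 : ∀ g, ψ g = 1 ↔ g ∈ center SL(3, F) := fun g => by simp [ψ]
  have h2 : (2 : F) = 0 := CharTwo.two_eq_zero
  refine ⟨fun v f => ψ (tv v f), fun v f => (e.symm _).2, fun {v f w h} a b => ⟨fun e => ?_, fun e =>
    congrArg ψ (Subtype.ext (by rw [coe_tv a, coe_tv b, e]))⟩, fun {v f h} a b => ?_,
    fun {v f w} a b => ?_, fun {v f w h} a b => ?_, fun z hz hz' => ?_⟩
  · obtain ⟨r, -, hr⟩ := Matrix.SpecialLinearGroup.mem_center_iff.1 ((h1 (tv v f * (tv w h)⁻¹)).1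
      (by rw [map_mul, map_inv, e, mul_inv_cancel]))
    have h3 : (1 + vecMulVec v f : Matrix _ _ F) = r • (1 + vecMulVec w h) := by
      rw [← coe_tv a, ← coe_tv b, ← inv_mul_cancel_right (tv v f) (tv w h), Matrix.SpecialLinearGroup.coe_mul,
        ← hr, scalar_apply, ← smul_eq_diagonal_mul]
    have h4 := congrArg trace h3
    simp only [trace_add, trace_smul, trace_vecMulVec, a, b, trace_one, Fintype.card_fin] at h4
    rwa [show r = 1 by simp at h4; linear_combination (1 - r) * h2 - h4, one_smul, add_right_inj] at h3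
  · rw [← map_mul]
    refine congrArg ψ (Subtype.ext ?_)
    simp [coe_tv, a, b, add_mul, mul_add, vecMulVec_mul_vecMulVec, dc a, vecMulVec_add, add_assoc]
  · rw [← map_mul]
    refine congrArg ψ (Subtype.ext ?_)
    simp [coe_tv, a, b, add_mul, mul_add, vecMulVec_mul_vecMulVec, dc b, add_vecMulVec, add_assoc]
  · rw [← map_mul, ← map_mul]
    refine congrArg ψ (Matrix.SpecialLinearGroup.ext _ _ (ext_iff.2 ?_))
    rw [Matrix.SpecialLinearGroup.coe_mul, Matrix.SpecialLinearGroup.coe_mul, coe_tv a, coe_tv b, coe_tv (by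
      simp [a, b, mul_comm (v ⬝ᵥ h), CharTwo.add_self_eq_zero])]
    simp only [add_mul, mul_add, vecMulVec_mul_vecMulVec, one_mul, mul_one, add_vecMulVec, vecMulVec_add,
      smul_vecMulVec, vecMulVec_smul, dc b, dotProduct_comm h, dotProduct_comm f, smul_mul_assoc,
      zero_smul]
    ext i j
    simp only [Matrix.add_apply, Matrix.smul_apply, smul_eq_mul, vecMulVec_zero, add_zero]
    linear_combination vecMulVec w h i j * h2
  · obtain ⟨g, hg⟩ := QuotientGroup.mk_surjective (e ⟨z, hz⟩)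
    obtain rfl : ψ g = z := by simp [ψ, hg]
    obtain ⟨r, h3, hr⟩ := Matrix.SpecialLinearGroup.mem_center_iff.1 ((h1 (g * g)).1 (by rwa [map_mul]))
    have h4 : (g ^ 3).1 * (g ^ 3).1 = 1 := by
      rw [← Matrix.SpecialLinearGroup.coe_mul, ← (Commute.refl g).mul_pow, Matrix.SpecialLinearGroup.coe_pow, ← hr,
        ← map_pow, show r ^ 3 = 1 from h3, map_one]
    obtain ⟨v, f, h5, h6⟩ := exists_vec (X := (g ^ 3).1 - 1) (by
      rw [sub_mul, mul_sub, h4, mul_sub, one_mul, mul_one, mul_one, sub_sub, ← add_sub_assoc,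
        ← two_smul F, h2, zero_smul, zero_sub, sub_neg_eq_add, ← two_smul F, h2, zero_smul])
    refine ⟨v, f, h5, (congrArg ψ (a₂ := g ^ 3) (Subtype.ext (by
      rw [coe_tv h5, h6, add_sub_cancel]))).trans
      (by rw [map_pow, pow_three', hz', one_mul])⟩

theorem simple_of [Fintype F] {M : Subgroup G} (e : M ≃* PSL(3, F)) : IsSimpleGroup M :=
  haveI := CfsgH1.isSimpleGroup_psl (ι := Fin 3) (F := F) (by simp)
  e.isSimpleGroup

theorem odd_of_card [Fintype F] {n : ℕ} (hF : Fintype.card F = 2 ^ n)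
    (h : (2 ^ n) ^ 3 * ((2 ^ n) ^ 2 - 1) * ((2 ^ n) ^ 3 - 1) ≤ Nat.card PSL(3, F)) : Odd n := by
  by_contra hn
  obtain ⟨k, rfl⟩ := Nat.not_odd_iff_even.1 hn
  have h1 := CfsgH3.card_SL_mul (F := F) (n := Fin 3)
  have h2 := Fintype.one_lt_card (α := F)
  obtain ⟨x, hx⟩ := exists_prime_orderOf_dvd_card' (G := Fˣ) 3 (by
    rw [Nat.card_units, Nat.card_eq_fintype_card, hF, ← two_mul, pow_mul]
    simpa using Nat.sub_one_dvd_pow_sub_one 4 k)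
  have h3 : 1 < Nat.card (rootsOfUnity 3 F) := one_lt_card.2 fun e => by
    have : x ∈ rootsOfUnity 3 F := (mem_rootsOfUnity _ _).2 (hx ▸ pow_orderOf_eq_one x)
    rw [e, mem_bot] at this
    simp [this] at hx
  rw [card_GL_field, ← card_psl_mul, Nat.card_eq_fintype_card (α := F),
    Nat.card_congr (Matrix.SpecialLinearGroup.center_equiv_rootsOfUnity' (0 : Fin 3)).toEquiv,
    Fintype.card_fin, Fin.prod_univ_three] at h1
  rw [← hF] at h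
  generalize Fintype.card F = q at *
  obtain ⟨r, rfl⟩ := Nat.exists_eq_add_of_lt h2
  have e1 : (1 + r + 1) ^ 3 - 1 = (r + 1) * (r ^ 2 + 5 * r + 7) := Nat.sub_eq_of_eq_add (by ring)
  have e2 : (1 + r + 1) ^ 2 - 1 = (r + 1) * (r + 3) := Nat.sub_eq_of_eq_add (by ring)
  have e3 : (1 + r + 1) ^ 3 - (1 + r + 1) = (r + 1) * (r + 2) * (r + 3) := Nat.sub_eq_of_eq_add (by ring)
  have e4 : (1 + r + 1) ^ 3 - (1 + r + 1) ^ 2 = (r + 2) ^ 2 * (r + 1) := Nat.sub_eq_of_eq_add (by ring)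
  simp only [Fin.val_zero, Fin.val_one, Fin.val_two, pow_zero, pow_one, e1, e2, e3, e4] at h h1
  rw [show 1 + r + 1 - 1 = r + 1 by omega, ← mul_assoc, mul_left_inj' (by omega)] at h1
  have := Nat.card_pos (α := PSL(3, F))
  nlinarith

end CfsgL3
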