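import Cfsg.Agent.H4.L3g
import Cfsg.Agent.H4.WittA
import Cfsg.Agent.H9.MatCode

set_option autoImplicit false
set_option linter.unusedSectionVars false

/-! Doubly transitive groups of even degree with `L₃(q)`, `q` even, normal in a point stabilizer:
the Mathieu group `M₂₂`. -/

namespace CfsgL3

open Subgroup CfsgH5 CfsgH6 CfsgFT CfsgSZ MulAction Matrix CfsgH9 CfsgWitt
open scoped MatrixGroups

universe u v

/-- the points of the projective plane of order `4`. -/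
def pts (i : Fin 21) (j : Fin 3) : GF4 := ⟨Fin.ofNat 4 ((![16, 4, 20, 36, 52, 1, 17, 33, 49, 5, 21, 37,
  53, 9, 25, 41, 57, 13, 29, 45, 61] i : ℕ) >>> (2 * j.val))⟩

theorem pts_ne : ∀ i, pts i ≠ 0 := by decide +kernel
theorem pts_sur : ∀ v : Fin 3 → GF4, v ≠ 0 → ∃ i, ∃ c : GF4, v = c • pts i := by decide +kernel
theorem pts_inj : ∀ i j (c : GF4), pts j = c • pts i → i = j := by decide +kernel
theorem pts_inc : ∀ i j, pts j ⬝ᵥ pts i = 0 ↔ Golay.ofMask (Lm i) (lab j) = 1 := by decide +kernel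
theorem pts_perp : ∀ i, ∃ j, pts j ⬝ᵥ pts i = 0 := by decide +kernel

instance : CharP GF4 2 := charP_of_card (n := 2) Nat.prime_two card_GF4

variable {G : Type u} {Ω : Type v} [Group G] [Finite G] [MulAction G Ω] [Finite Ω]

/-- coordinates for the vertices. -/
def Coord (M : Subgroup G) (q : ℕ) (ty : Subgroup G → Prop) : Prop :=
  ∃ P L : Fin 21 → Subgroup G, Function.Injective P ∧ (∀ i, Vx M q (P i) ∧ ty (P i)) ∧
    (∀ i, Vx M q (L i) ∧ ¬ ty (L i)) ∧ (∀ A, Vx M q A → ty A → ∃ i, P i = A) ∧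
    ∀ i j, Adj (P j) (L i) ↔ Golay.ofMask (Lm i) (lab j) = 1

theorem TV.coord0 {M : Subgroup G} {τ : (Fin 3 → GF4) → (Fin 3 → GF4) → G} (T : TV M τ)
    {ty : Subgroup G → Prop} (R : Tri M (Fintype.card GF4) ty) (h : ty (T.P (pts 2))) :
    Coord M (Fintype.card GF4) ty := by
  have h1 : ∀ i, ty (T.P (pts i)) := fun i => by
    by_cases e : T.P (pts 2) = T.P (pts i)
    · exact e ▸ h
    obtain ⟨D, hD, a, b⟩ := T.join0 (pts_ne 2) (pts_ne i) e
    exact (R.ty_nb hD (T.vx (pts_ne _)) (T.vx (pts_ne _)) a.symm b.symm).1 h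
  have h2 : ∀ i, ¬ ty (T.L (pts i)) := fun i => by
    obtain ⟨j, hj⟩ := pts_perp i
    exact (R.ne_ty (T.vx (pts_ne _)) (T.swap.vx (pts_ne _))
      ((T.adj_iff (pts_ne _) (pts_ne _)).2 hj)).1 (h1 j)
  refine ⟨fun i => T.P (pts i), fun i => T.L (pts i), fun i j e => ?_, fun i => ⟨T.vx (pts_ne i), h1 i⟩,
    fun i => ⟨T.swap.vx (pts_ne i), h2 i⟩, fun A hA h => ?_,
    fun i j => (T.adj_iff (pts_ne _) (pts_ne _)).trans (pts_inc i j)⟩
  · obtain ⟨c, hc⟩ := T.par_of_P (w := pts j) (pts_ne i) (by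
      rw [← show T.P (pts i) = T.P (pts j) from e, inf_idem]; exact R.ne_bot (T.vx (pts_ne _)))
    exact pts_inj i j c hc
  · obtain ⟨v, hv, rfl | rfl⟩ := T.cases hA <;> obtain ⟨i, c, rfl⟩ := pts_sur v hv
    exacts [⟨i, (T.P_eq hv).symm⟩, absurd ((congrArg ty (T.swap.P_eq hv)).mp h) (h2 i)]

theorem Tri.coord {M : Subgroup G} {ty : Subgroup G → Prop} {q : ℕ} (R : Tri M q ty) (hq : q = 4)
    (e : M ≃* PSL(3, GF4)) : Coord M q ty := by
  obtain rfl := hq.trans card_GF4.symm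
  obtain ⟨τ, T⟩ := exists_tv e
  by_cases h : ty (T.P (pts 2))
  · exact T.coord0 R h
  exact T.swap.coord0 R (not_not.1 (mt (R.ne_ty (T.vx (pts_ne 2)) (T.swap.vx (pts_ne 2))
    ((T.adj_iff (pts_ne _) (pts_ne _)).2 (by decide +kernel))).2 h))

theorem image_Fx (g : G) (A : Subgroup G) : (g • ·) '' Fx Ω A = Fx Ω (cj g A) := by
  ext y
  obtain ⟨y, rfl⟩ := MulAction.surjective g y
  exact (MulAction.injective g).mem_set_image.trans cj_le_St.symm

namespace Sit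

variable {S : Sit G Ω} {x y y' : Ω} {A : Subgroup G}
  (hm : ∀ x A, S.V x A → S.Li A → (Fx Ω A).ncard = 1 + 1)
include hm

theorem pt_uniq (hA : S.V x A) (h : S.Li A) (h1 : x ≠ y) (h2 : x ≠ y') (h3 : A ≤ stabilizer G y)
    (h4 : A ≤ stabilizer G y') : y = y' :=
  (Set.ncard_le_one (Set.toFinite _)).1 (card_line hm hA h).le _ ⟨h1, h3⟩ _ ⟨h2, h4⟩

theorem trans_one (h1 : x ≠ y) (h2 : x ≠ y') : ∃ n ∈ S.M x, n • y = y' := by
  obtain ⟨A, a1, a2, a3⟩ := line (S := S) h1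
  obtain ⟨B, b1, b2, b3⟩ := line (S := S) h2
  obtain ⟨n, hn, rfl⟩ := (S.T x).trans_ty a1 b1 (iff_of_true a2 b2)
  exact ⟨n, hn, pt_uniq hm b1 b2 (smul_ne h1 (S.le_St x hn)) h2 (cj_le_St.2 a3) b3⟩

theorem m22 (hq : S.q = 4) (a : Ω) (e : S.M a ≃* PSL(3, GF4)) :
    Cfsg.Spor.IsoM22 G ∨ ∃ H : Subgroup G, H.index = 2 ∧ Cfsg.Spor.IsoM22 H := by
  obtain ⟨P, L, h1, h2, h3, h4, h5⟩ := (S.T a).coord hq e
  choose k k1 k2 using fun i => (Set.ncard_pos).1 (card_line hm (h2 i).1 (h2 i).2 ▸ one_pos)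
  obtain ⟨D, d1, d2, -⟩ := (S.T a).exists_ty False
  obtain ⟨y, hy⟩ := exists_off' one_pos hm d1 d2
  obtain ⟨g, rfl⟩ := S.trans y a
  obtain ⟨H, hH, f, hf⟩ := witt (𝔅 := {B | ∃ x D, S.V x D ∧ ¬ S.Li D ∧ Fx Ω D = B})
    (Equiv.ofBijective (fun o : Option (Fin 21) => o.elim (g • y) k) ⟨by
      rintro (_ | i) (_ | j) h
      exacts [rfl, absurd h (k1 j), absurd h.symm (k1 i), congrArg _ (h1 (line_uniq (h2 i).1 (h2 j).1
        (h2 i).2 (h2 j).2 (k1 i) (k2 i) ((show k i = k j from h) ▸ k2 j)))], fun w => by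
      by_cases e : g • y = w
      · exact ⟨none, e⟩
      obtain ⟨A, a1, a2, a3⟩ := line (S := S) e
      obtain ⟨i, rfl⟩ := h4 A a1 a2
      exact ⟨some i, pt_uniq hm a1 a2 (k1 i) e (k2 i) a3⟩⟩)
    (fun i => ⟨_, ⟨_, _, (h3 i).1, (h3 i).2, rfl⟩, V_St (h3 i).1, fun j => Iff.trans
      ⟨adj_of (h2 j).1 (h2 j).2 (h3 i).1 (h3 i).2 (k1 j) (k2 j),
        fun h => adj_le (h2 j).1 (h2 j).2 (h3 i).1 h (k2 j)⟩ (h5 i j)⟩)
    (by rintro _ ⟨x, D, a1, a2, rfl⟩; rw [card_pl hm a1 a2, hq])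
    (by
      rintro _ ⟨x, D, a1, a2, rfl⟩ _ ⟨x', E, b1, b2, rfl⟩
      by_cases e : D = E
      · rw [← e, Set.inter_self, card_pl hm a1 a2, hq]; decide
      rcases (Fx Ω D ∩ Fx Ω E).eq_empty_or_nonempty with h | ⟨v, v1, v2⟩
      · simp [h]
      obtain ⟨A, c1, c2, c3⟩ := (S.T v).join (vf a1 v1) (vf b1 v2) e (by tauto)
      have c4 := li_of_adj c1 (vf a1 v1) a2 c2.symm
      rw [show Fx Ω D ∩ Fx Ω E = Fx Ω A from Set.ext fun w => ⟨fun h => inter c1 (vf a1 v1) (vf b1 v2) a2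
        c2.symm c3.symm e h.1 h.2, fun h => ⟨adj_le c1 c4 (vf a1 v1) c2.symm h,
          adj_le c1 c4 (vf b1 v2) c3.symm h⟩⟩, hm v A c1 c4]
      decide)
    ⟨_, _, V_cj d1 g, li_cj.not.2 d2, rfl⟩ (mt cj_le_St.1 hy) S.faith
    (by rintro g _ ⟨x, D, a1, a2, rfl⟩; exact ⟨_, _, V_cj a1 g, li_cj.not.2 a2, (image_Fx g D).symm⟩)
  have hc : ∀ x, 20160 ≤ Nat.card (S.M x) := fun x => by
    obtain ⟨h, rfl⟩ := S.trans (g • y) x
    rw [← S.cj_M, card_cj, Nat.card_congr e.toEquiv]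
    exact Nat.le_of_dvd Nat.card_pos (card_psl3_four _ card_GF4).2
  have hi := (Nat.dvd_prime Nat.prime_two).1 hH
  have hn : H.Normal := hi.elim (fun e => index_eq_one.1 e ▸ inferInstance) normal_of_index_eq_two
  have hle : ∀ x, S.M x ≤ H := fun x => inf_eq_right.1 (((S.T x).simple (H ⊓ S.M x)
    ⟨inf_le_right, (Nrm.of_normal _ _).inf (Nrm.self _)⟩).resolve_left fun e => by
      have h1 := card_inf_mul_relIndex H (S.M x)
      have h2 := Nat.le_of_dvd two_pos ((relIndex_dvd_index_of_normal H (S.M x)).trans hH)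
      have := hc x
      rw [e, card_bot] at h1
      omega)
  have h22 : Nat.card Ω = 22 := by rw [card_Ω hm y, hq]; rfl
  have hcard : 443520 ≤ Nat.card H := by
    rw [← card_inf_mul_relIndex (stabilizer G y), CfsgH1.relIndex_stabilizer,
      Set.eq_univ_of_forall (s := {w | ∃ g ∈ H, g • y = w}) fun w => by
        obtain ⟨z, -, z1, z2⟩ := CfsgH1.exists_ne_ne_of_three_le (s := (Set.univ : Set Ω))
          (by rw [Set.ncard_univ, h22]; omega) y w
        obtain ⟨n, hn, e⟩ := trans_one hm z1 z2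
        exact ⟨n, hle z hn, e⟩, Set.ncard_univ, h22]
    have := (hc y).trans (card_le_of_le (le_inf (S.le_St y) (hle y)))
    omega
  have iso : Cfsg.Spor.IsoM22 H := ⟨MulEquiv.ofBijective f ((Nat.bijective_iff_injective_and_card f).2
    ⟨hf, le_antisymm (Nat.card_le_card_of_injective f hf) (card_M22_le.trans hcard)⟩)⟩
  rcases hi with e | e
  · obtain rfl := index_eq_one.1 e
    exact .inl ⟨topEquiv.symm.trans iso.some⟩
  · exact .inr ⟨H, e, iso⟩

end Sit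

theorem exists_sit {F : Type} [Field F] [Fintype F] [CharP F 2] [FaithfulSMul G Ω]
    (h2 : IsMultiplyPretransitive G Ω 2) (hev : Even (Nat.card Ω)) {a : Ω} {N : Subgroup G}
    (h1 : N ≤ stabilizer G a) (h3 : Nrm (stabilizer G a) N) (e : N ≃* PSL(3, F)) :
    ∃ S : Sit G Ω, S.M a = N ∧ S.q = Fintype.card F := by
  have := isPretransitive_of_is_two_pretransitive (h2 := h2)
  choose γ hγ using exists_smul_eq G a
  have k : ∀ g x, g • a = x → cj g N = cj (γ x) N := fun g x h => by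
    rw [← mul_inv_cancel_left (γ x) g, ← cj_cj, h3.cj_eq (a := (γ x)⁻¹ * g) (by
      rw [mem_stabilizer_iff, mul_smul, h, inv_smul_eq_iff, hγ])]
  have k' : ∀ x, ∃ ty, Tri (cj (γ x) N) (Fintype.card F) ty := fun x =>
    have e' := (N.equivMapOfInjective _ (MulAut.conj (γ x)).injective).symm.trans e
    (exists_tv e').elim fun _ T => ⟨_, T.tri (simple_of e')⟩
  choose ty hty using k'
  exact ⟨⟨fun x => cj (γ x) N, _, ty, hty, fun g x => by rw [cj_cj, k _ (g • x) (by rw [mul_smul, hγ])],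
    fun x => by rw [← hγ x, ← cj_St, hγ]; exact cj_mono h1, is_two_pretransitive_iff.1 h2,
    fun g h => eq_of_smul_eq_smul (α := Ω) (by simpa using h), hev⟩,
    (k 1 a (one_smul _ _)).symm.trans (cj_one _), rfl⟩

end CfsgL3
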