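import Mathlib

set_option autoImplicit false

/-! A doubly transitive block of a linear group over `F₂` containing a Singer cycle. -/

namespace CfsgSE

open Subgroup

theorem lin_mid {L W : Type*} [Group L] [Finite L] [CommGroup W] [Finite W]
    [MulDistribMulAction L W] (sq : ∀ v : W, v * v = 1) {Z S1 : Subgroup L} (hS : S1 ≤ Z)
    (ne : S1 ≠ ⊥) (odd : Odd (Nat.card S1))
    (fpf : ∀ s ∈ S1, ∀ v : W, v ≠ 1 → s • v = v → s = 1)
    (blk : ∀ z ∈ Z, ∀ v : W, ∃ s ∈ S1, z • v = s • v)
    (tr : ∀ v w : W, v ≠ 1 → w ≠ 1 → ∃ g : L, g • v = w ∧ ∀ t ∈ S1, g * t = t * g)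
    {v0 : W} (h0 : v0 ≠ 1)
    (two : ∀ a ∈ S1, ∀ b ∈ S1, ∀ c ∈ S1, ∀ d ∈ S1, a ≠ b → c ≠ d →
      ∃ z ∈ Z, z • a • v0 = c • v0 ∧ z • b • v0 = d • v0) :
    ∀ v w : W, v ≠ 1 → w ≠ 1 → ∃ s ∈ S1, s • v = w := by
  classical
  have inv : ∀ v : W, v⁻¹ = v := fun v => inv_eq_of_mul_eq_one_right (sq v)
  have can : ∀ a b : W, a * b = 1 → a = b := fun a b h => by
    rw [eq_inv_of_mul_eq_one_left h, inv]
  have inj : ∀ v : W, v ≠ 1 → ∀ a ∈ S1, ∀ b ∈ S1, a • v = b • v → a = b := fun v hv a ha b hb e => by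
    have := fpf _ (mul_mem (inv_mem hb) ha) v hv (by rw [mul_smul, e, inv_smul_smul])
    exact (inv_mul_eq_one.1 this).symm
  have sm1 : ∀ (g : L) (v : W), v ≠ 1 → g • v ≠ 1 := fun g v hv e =>
    hv (by rw [← inv_smul_smul g v, e, smul_one])
  obtain ⟨s0, hs0, s1⟩ := (bot_or_exists_ne_one S1).resolve_left ne
  have s2 : s0⁻¹ ≠ s0 := fun e => by
    have : orderOf s0 ∣ 2 := orderOf_dvd_of_pow_eq_one (by
      rw [_root_.sq]; nth_rewrite 1 [← e]; exact inv_mul_cancel s0)
    have h2 : orderOf s0 ∣ Nat.card S1 := S1.orderOf_dvd_natCard hs0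
    exact s1 (orderOf_eq_one_iff.1 (Nat.eq_one_of_dvd_coprimes
      (Nat.coprime_two_left.2 odd) this h2))
  haveI := Fintype.ofFinite S1
  -- the product over a block is trivial
  have prod : ∏ s : S1, (s : L) • v0 = 1 := by
    by_contra e
    refine s1 (fpf s0 hs0 _ e ?_)
    rw [Finset.smul_prod']
    exact Fintype.prod_equiv (Equiv.mulLeft (⟨s0, hs0⟩ : S1)) _ _ fun s => by
      simp [mul_smul]
  -- the block is closed under products
  have key : ∀ a ∈ S1, ∀ b ∈ S1, a ≠ b → ∃ c ∈ S1, a • v0 * b • v0 = c • v0 := by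
    intro a ha b hb hab
    set w := a • v0 * b • v0 with hw
    have w1 : w ≠ 1 := fun e => hab (inj v0 h0 a ha b hb (can _ _ e))
    by_contra! hn
    -- matched points
    let P : S1 → Prop := fun x => ∃ y : S1, (x : L) • v0 * (y : L) • v0 = w
    have cnt : Nat.card S1 - 1 ≤ (Finset.univ.filter P).card := by
      -- every product of two distinct points lies in the orbit of `w`
      have o : ∀ y : S1, y ≠ 1 → ∃ t : S1, (t : L) • (v0 * (y : L) • v0) = w := fun y hy => by
        obtain ⟨z, hz, e1, e2⟩ := two a ha b hb 1 (one_mem _) y y.2 hab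
          (fun e => hy (Subtype.ext e.symm))
        obtain ⟨t, ht, e⟩ := blk z hz w
        refine ⟨⟨t⁻¹, inv_mem ht⟩, ?_⟩
        rw [one_smul] at e1
        change t⁻¹ • _ = _
        rw [inv_smul_eq_iff, ← e, hw, smul_mul', e1, e2]
      choose! t ht using o
      rw [Nat.card_eq_fintype_card, ← Finset.card_univ, ← Finset.card_erase_of_mem
        (Finset.mem_univ (1 : S1))]
      refine Finset.card_le_card_of_injOn t (fun y hy => ?_) fun y hy y' hy' e => ?_
      · have := ht y (Finset.ne_of_mem_erase hy)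
        refine Finset.mem_coe.2 (Finset.mem_filter.2 ⟨Finset.mem_univ _, t y * y, ?_⟩)
        rw [← this, smul_mul', coe_mul, mul_smul]
      · have h1 := ht y (Finset.ne_of_mem_erase hy)
        have h2 := ht y' (Finset.ne_of_mem_erase hy')
        rw [e, ← h2] at h1
        exact Subtype.ext (inj v0 h0 _ y.2 _ y'.2 (mul_left_cancel (MulAction.injective _ h1)))
    -- the matching
    choose! f hf using fun x (h : P x) => h
    have fP : ∀ x, P x → P (f x) := fun x h => ⟨x, by rw [mul_comm]; exact hf x h⟩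
    have ff : ∀ x, P x → f (f x) = x := fun x h => by
      have h1 := hf _ (fP x h)
      rw [← hf x h, mul_comm ((x : L) • v0)] at h1
      exact Subtype.ext (inj v0 h0 _ (f _).2 _ x.2 (mul_left_cancel h1))
    have fne : ∀ x, P x → f x ≠ x := fun x h e => w1 (by rw [← hf x h, e, sq])
    have ev : Even (Finset.univ.filter P).card := by
      have := Finset.sum_involution (s := Finset.univ.filter P) (f := fun _ => (1 : ZMod 2))
        (fun x _ => f x) (fun _ _ => by decide) (fun x hx _ => fne x (Finset.mem_filter.1 hx).2)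
        (fun x hx => Finset.mem_filter.2 ⟨Finset.mem_univ _, fP x (Finset.mem_filter.1 hx).2⟩)
        (fun x hx => ff x (Finset.mem_filter.1 hx).2)
      rw [Finset.sum_const, nsmul_eq_mul, mul_one] at this
      exact (ZMod.natCast_eq_zero_iff_even).1 this
    have pr : ∏ x ∈ Finset.univ.filter P, (x : L) • v0 ∈ zpowers w := by
      rw [← QuotientGroup.eq_one_iff, ← QuotientGroup.mk'_apply, map_prod]
      exact Finset.prod_involution (fun x _ => f x) (fun x hx => by
          rw [← map_mul, hf x (Finset.mem_filter.1 hx).2, QuotientGroup.mk'_apply,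
            QuotientGroup.eq_one_iff]; exact mem_zpowers w)
        (fun x hx _ => fne x (Finset.mem_filter.1 hx).2)
        (fun x hx => Finset.mem_filter.2 ⟨Finset.mem_univ _, fP x (Finset.mem_filter.1 hx).2⟩)
        (fun x hx => ff x (Finset.mem_filter.1 hx).2)
    have tot := Finset.card_filter_add_card_filter_not (s := (Finset.univ : Finset S1)) P
    rw [Finset.card_univ, ← Nat.card_eq_fintype_card] at tot
    have one : (Finset.univ.filter fun x => ¬ P x).card = 1 := by
      obtain ⟨i, hi⟩ := ev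
      obtain ⟨j, hj⟩ := odd
      omega
    obtain ⟨x, hx⟩ := Finset.card_eq_one.1 one
    rw [← Finset.prod_filter_mul_prod_filter_not Finset.univ P, hx, Finset.prod_singleton] at prod
    rw [can _ _ prod] at pr
    obtain ⟨i, hi⟩ := pr
    simp only at hi
    obtain ⟨k, rfl | rfl⟩ := Int.even_or_odd' i
    · rw [zpow_mul, zpow_two, sq, one_zpow] at hi
      exact sm1 _ _ h0 hi.symm
    · rw [zpow_add, zpow_mul, zpow_two, sq, one_zpow, one_mul, zpow_one] at hi
      exact hn x x.2 hi
  have key' : ∀ v : W, v ≠ 1 → ∀ a ∈ S1, ∀ b ∈ S1, a • v * b • v = 1 ∨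
      ∃ c ∈ S1, a • v * b • v = c • v := fun v hv a ha b hb => by
    by_cases e : a = b
    · exact .inl (by rw [e, sq])
    obtain ⟨g, rfl, hg⟩ := tr v0 v h0 hv
    obtain ⟨c, hc, f⟩ := key a ha b hb e
    refine .inr ⟨c, hc, ?_⟩
    rw [← mul_smul, ← mul_smul, ← mul_smul, ← hg a ha, ← hg b hb, ← hg c hc, mul_smul, mul_smul,
      mul_smul, ← smul_mul', f]
  -- stabilisers
  have idx : ∀ v : W, v ≠ 1 → Nat.card ↥(MulAction.stabilizer Z v) * Nat.card S1 = Nat.card Z :=
    fun v hv => by
      rw [← (MulAction.stabilizer Z v).card_mul_index, MulAction.index_stabilizer]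
      congr 1
      rw [← Nat.card_coe_set_eq]
      refine Nat.card_congr (Equiv.ofBijective (fun s : S1 => ⟨(s : L) • v, ⟨s, hS s.2⟩, rfl⟩)
        ⟨fun s t e => Subtype.ext (inj v hv _ s.2 _ t.2 (congrArg Subtype.val e)), ?_⟩)
      rintro ⟨_, z, rfl⟩
      obtain ⟨s, hs, e⟩ := blk z z.2 v
      exact ⟨⟨s, hs⟩, Subtype.ext e.symm⟩
  have all : ∀ w : W, w ≠ 1 → ∃ s ∈ S1, s • v0 = w := by
    intro y hy
    by_contra! hn
    have st : ∀ a ∈ S1, MulAction.stabilizer Z (a • v0) = MulAction.stabilizer Z y := by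
      intro a ha
      have x1 : a • v0 * y ≠ 1 := fun e => hn a ha (can _ _ e)
      have l : ∀ z ∈ MulAction.stabilizer Z (a • v0 * y), z • a • v0 = a • v0 ∧ z • y = y := by
        intro z hz
        have e : (z : L) • a • v0 * (z : L) • y = a • v0 * y := by rw [← smul_mul']; exact hz
        obtain ⟨s, hs, e1⟩ := blk z z.2 (a • v0)
        obtain ⟨t, ht, e2⟩ := blk z z.2 y
        have e3 : (s * a) • v0 * a • v0 = t • y * (1 : L) • y := by
          rw [mul_smul, ← e1, ← e2, one_smul]
          apply can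
          calc _ = ((z : L) • a • v0 * (z : L) • y) * (a • v0 * y) := by
                simp only [mul_assoc, mul_left_comm, mul_comm]
            _ = 1 := by rw [e, sq]
        have e4 : (s * a) • v0 * a • v0 = 1 := by
          rcases key' v0 h0 _ (mul_mem hs ha) a ha with f | ⟨c, hc, f⟩
          · exact f
          rcases key' y hy t ht 1 (one_mem _) with f' | ⟨d, hd, f'⟩
          · exact e3.trans f'
          exact absurd (by rw [mul_smul, ← f, e3, f', inv_smul_smul]) (hn _ (mul_mem (inv_mem hd) hc))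
        refine ⟨?_, ?_⟩
        · change (z : L) • a • v0 = _
          rw [e1, ← mul_smul]; exact can _ _ e4
        · change (z : L) • y = _
          rw [e2, can _ _ (e3.symm.trans e4), one_smul]
      have c0 : 0 < Nat.card S1 := Nat.card_pos
      have q1 := eq_of_le_of_card_ge (H := MulAction.stabilizer Z (a • v0 * y))
        (K := MulAction.stabilizer Z (a • v0)) (fun z hz => (l z hz).1)
        (Nat.eq_of_mul_eq_mul_right c0 ((idx _ (sm1 a _ h0)).trans (idx _ x1).symm)).le
      have q2 := eq_of_le_of_card_ge (H := MulAction.stabilizer Z (a • v0 * y))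
        (K := MulAction.stabilizer Z y) (fun z hz => (l z hz).2)
        (Nat.eq_of_mul_eq_mul_right c0 ((idx _ hy).trans (idx _ x1).symm)).le
      rw [← q1, q2]
    obtain ⟨z, hz, e1, e2⟩ := two 1 (one_mem _) s0 hs0 1 (one_mem _) s0⁻¹ (inv_mem hs0) s1.symm
      (fun e => s1 (inv_eq_one.1 e.symm))
    have a : (⟨z, hz⟩ : Z) ∈ MulAction.stabilizer Z ((1 : L) • v0) := e1
    rw [st 1 (one_mem _), ← st s0 hs0] at a
    exact s2 (inj v0 h0 _ (inv_mem hs0) _ hs0 (e2.symm.trans a))
  intro v w hv hw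
  obtain ⟨a, ha, rfl⟩ := all v hv
  obtain ⟨b, hb, rfl⟩ := all w hw
  exact ⟨b * a⁻¹, mul_mem hb (inv_mem ha), by rw [mul_smul, inv_smul_smul]⟩

end CfsgSE
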