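import Cfsg.Agent.H9.MA

set_option autoImplicit false
set_option linter.unusedSectionVars false

/-! S3717: the exits `X0` and `XS`. -/

namespace CfsgM11

open Subgroup CfsgH5 CfsgH6 CfsgFT

variable {G : Type*} [Group G] [Finite G]

/-- extension of `A` by a normalising involution -/
def Ext (A : Subgroup G) (e : G) (e2 : e * e = 1) (hn : ∀ x ∈ A, e * x * e ∈ A) : Subgroup G where
  carrier := {x | x ∈ A ∨ x * e ∈ A}
  one_mem' := Or.inl A.one_mem
  mul_mem' := by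
    rintro x y (hx | hx) (hy | hy)
    · exact Or.inl (A.mul_mem hx hy)
    · exact Or.inr (by rw [mul_assoc]; exact A.mul_mem hx hy)
    · right
      have := A.mul_mem hx (hn y hy)
      rwa [show x * e * (e * y * e) = x * (e * e) * y * e by group, e2, mul_one] at this
    · left
      have := A.mul_mem hx (hn _ hy)
      rwa [show x * e * (e * (y * e) * e) = x * (e * e) * y * (e * e) by group, e2, mul_one,
        mul_one] at this
  inv_mem' := by
    rintro x (hx | hx)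
    · exact Or.inl (A.inv_mem hx)
    · right
      have := hn _ (A.inv_mem hx)
      rwa [mul_inv_rev, inv_of_sq e2, mul_sq_l e2] at this

section
variable {A : Subgroup G} {e : G} {e2 : e * e = 1} {hn : ∀ x ∈ A, e * x * e ∈ A}

theorem mem_Ext {x : G} : x ∈ Ext A e e2 hn ↔ x ∈ A ∨ x * e ∈ A := Iff.rfl

theorem le_Ext : A ≤ Ext A e e2 hn := fun _ h => Or.inl h

theorem self_Ext : e ∈ Ext A e e2 hn := Or.inr (by rw [e2]; exact A.one_mem)

theorem Ext_cases {x : G} (h : x ∈ Ext A e e2 hn) : ∃ y ∈ A, x = y ∨ x = y * e := by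
  rcases h with h | h
  · exact ⟨x, h, Or.inl rfl⟩
  · exact ⟨x * e, h, Or.inr (by rw [mul_assoc, e2, mul_one])⟩

theorem Ext_le {B : Subgroup G} (h1 : A ≤ B) (h2 : e ∈ B) : Ext A e e2 hn ≤ B := fun x hx => by
  obtain ⟨y, hy, rfl | rfl⟩ := Ext_cases hx
  · exact h1 hy
  · exact B.mul_mem (h1 hy) h2

theorem Ext_idx (he : e ∉ A) : A.relIndex (Ext A e e2 hn) = 2 := by
  rw [relIndex, index_eq_two_iff]
  refine ⟨⟨e, self_Ext⟩, fun b => ?_⟩
  have key : ¬ ((b : G) * e ∈ A ∧ (b : G) ∈ A) := fun h => he (by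
    simpa using A.mul_mem (A.inv_mem h.2) h.1)
  rcases b.2 with h | h
  · exact Or.inr ⟨h, fun h' => key ⟨h', h⟩⟩
  · exact Or.inl ⟨h, fun h' => key ⟨h, h'⟩⟩

theorem Ext_card (he : e ∉ A) : Nat.card (Ext A e e2 hn) = 2 * Nat.card A := by
  rw [← Ext_idx (e2 := e2) (hn := hn) he, relIndex, ← index_mul_card (A.subgroupOf _),
    Nat.card_congr (subgroupOfEquivOfLe le_Ext).toEquiv]

end

/-- generators of a semidihedral group of order 16 -/
structure SD (a t : G) : Prop where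
  a8 : a ^ 8 = 1
  a4 : a ^ 4 ≠ 1
  tt : t * t = 1
  ta : t * a * t = a ^ 3

namespace SD
variable {a t : G} (D : SD a t)
include D

theorem ord : orderOf a = 8 :=
  haveI := Fact.mk Nat.prime_two
  orderOf_eq_prime_pow (p := 2) (n := 2) D.a4 D.a8

theorem inj {i j : ℕ} : a ^ i = a ^ j ↔ i % 8 = j % 8 := by
  rw [pow_eq_pow_iff_modEq, D.ord]; rfl

theorem tan (n : ℕ) : t * a ^ n * t = a ^ (3 * n) := by
  have := conj_pow (a := t) (b := a) (i := n)
  rw [inv_of_sq D.tt, D.ta] at this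
  rw [← this, pow_mul]

theorem tan' (n : ℕ) : t * a ^ n = a ^ (3 * n) * t := by
  rw [← D.tan, mul_assoc, mul_assoc, D.tt, mul_one]

theorem nat {x : G} (h : x ∈ zpowers a) : ∃ i : ℕ, x = a ^ i := by
  obtain ⟨i, hi⟩ := (mem_powers_iff_mem_zpowers.2 h)
  exact ⟨i, hi.symm⟩

theorem hn : ∀ x ∈ zpowers a, t * x * t ∈ zpowers a := fun x hx => by
  obtain ⟨i, rfl⟩ := D.nat hx
  rw [D.tan]; exact pow_mem (mem_zpowers a) _

/-- the group itself -/
def S : Subgroup G := Ext (zpowers a) t D.tt D.hn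

theorem tn : t ∉ zpowers a := fun h => by
  obtain ⟨i, hi⟩ := D.nat h
  have := D.tan' 1
  rw [hi, ← pow_add, ← pow_add, D.inj] at this
  omega

theorem idx : (zpowers a).relIndex D.S = 2 := Ext_idx D.tn

theorem card : Nat.card D.S = 16 := by
  rw [S, Ext_card D.tn, Nat.card_zpowers, D.ord]

theorem pg : IsPGroup 2 D.S := IsPGroup.of_card (n := 4) D.card

theorem aS : a ∈ D.S := le_Ext (mem_zpowers a)
theorem tS : t ∈ D.S := self_Ext

theorem cases {x : G} (h : x ∈ D.S) : ∃ i : ℕ, x = a ^ i ∨ x = a ^ i * t := by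
  obtain ⟨y, hy, h⟩ := Ext_cases h
  obtain ⟨i, rfl⟩ := D.nat hy
  exact ⟨i, h⟩

theorem le {B : Subgroup G} (h1 : a ∈ B) (h2 : t ∈ B) : D.S ≤ B := Ext_le (zpowers_le.2 h1) h2

theorem inv_a {i : ℕ} (h : a ^ i * a ^ i = 1) : a ^ i = 1 ∨ a ^ i = a ^ 4 := by
  rw [← pow_add, ← pow_zero a, D.inj] at h
  rw [← pow_zero a, D.inj, D.inj]
  omega

theorem inv {x : G} (h : x ∈ D.S) (x2 : x * x = 1) :
    x = 1 ∨ x = a ^ 4 ∨ ∃ c ∈ zpowers a, x = c * t * c⁻¹ := by
  obtain ⟨i, rfl | rfl⟩ := D.cases h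
  · rcases D.inv_a x2 with e | e
    · exact Or.inl e
    · exact Or.inr (Or.inl e)
  · right; right
    rw [mul_assoc, ← mul_assoc t, D.tan, ← pow_add, ← pow_zero a, D.inj] at x2
    refine ⟨a ^ (3 * (i / 2)), pow_mem (mem_zpowers a) _, ?_⟩
    rw [eq_mul_inv_iff_mul_eq, mul_assoc, D.tan', ← mul_assoc, ← pow_add]
    congr 1
    rw [D.inj]; omega

theorem tz : t * a ^ 4 = a ^ 4 * t := by
  rw [D.tan']; congr 1; rw [D.inj]

theorem leC : D.S ≤ C1 (a ^ 4) :=
  D.le (mem_C1.2 (by rw [← pow_succ, ← pow_succ'])) (mem_C1.2 D.tz)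

end SD

theorem sylIn_of_norm {X : Subgroup G} (hX : IsPGroup 2 X)
    (h : ∀ P : Subgroup G, IsPGroup 2 P → X ≤ P → ∀ n ∈ P, n ∈ N X → n ∈ X) : SylIn 2 X ⊤ := by
  haveI := Fact.mk Nat.prime_two
  refine ⟨le_top, hX, fun P _ hP hle => ?_⟩
  by_contra hne
  obtain ⟨n, h1, h2, h3⟩ := exists_nrm_of_lt hP (lt_of_le_of_ne hle (Ne.symm hne))
  exact h2 (h P hP hle n h1 h3)

/-- a `2`-subgroup of `Y` containing a subgroup of the full `2`-part equals it -/
theorem eq_of_two {X P Y : Subgroup G} {k : ℕ} (hP : IsPGroup 2 P) (h1 : X ≤ P) (h2 : P ≤ Y)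
    (hX : Nat.card X = 2 ^ k) (hY : ¬ 2 ^ (k + 1) ∣ Nat.card Y) : P ≤ X := by
  haveI := Fact.mk Nat.prime_two
  obtain ⟨n, hn⟩ := hP.exists_card_eq
  have h3 : n ≤ k := by
    by_contra h
    exact hY ((pow_dvd_pow 2 (by omega)).trans (hn ▸ card_dvd_of_le h2))
  exact (eq_of_le_of_card_ge h1 (by rw [hn, hX]; exact Nat.pow_le_pow_right (by norm_num) h3)).ge

theorem card_C1_conj {x y : G} (h : IsConj x y) : Nat.card (C1 x) = Nat.card (C1 y) := by
  obtain ⟨c, rfl⟩ := isConj_iff.1 h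
  rw [← cj_C1, card_cj]

theorem four_card {z t : G} (zz : z * z = 1) (tt : t * t = 1) (z1 : z ≠ 1) (c : t * z = z * t)
    (t1 : t ≠ 1) (zt : z ≠ t) : ∃ V : Subgroup G, Nat.card V = 4 ∧ z ∈ V ∧ t ∈ V ∧
      ∀ B : Subgroup G, z ∈ B → t ∈ B → V ≤ B := by
  haveI := Fact.mk Nat.prime_two
  have oz : orderOf z = 2 := orderOf_eq_prime (by rw [pow_two, zz]) z1
  have hm : ∀ x ∈ zpowers z, x = 1 ∨ x = z := fun x hx => by
    obtain ⟨i, rfl⟩ := mem_powers_iff_mem_zpowers.2 hx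
    rcases Nat.even_or_odd' i with ⟨j, rfl | rfl⟩
    · left; simp [pow_mul, pow_two, zz]
    · right; simp [pow_succ, pow_mul, pow_two, zz]
  have hn : ∀ x ∈ zpowers z, t * x * t ∈ zpowers z := fun x hx => by
    rcases hm x hx with rfl | rfl
    · rw [mul_one, tt]; exact one_mem _
    · rw [c, mul_assoc, tt, mul_one]; exact mem_zpowers _
  refine ⟨Ext (zpowers z) t tt hn, ?_, le_Ext (mem_zpowers z), self_Ext,
    fun B h1 h2 => Ext_le (zpowers_le.2 h1) h2⟩
  rw [Ext_card (fun h => by rcases hm t h with e | e; exacts [t1 e, zt e.symm]),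
    Nat.card_zpowers, oz]

namespace Cf

variable {M : Subgroup G} {g h a t s z w : G} (H : Cf M g h a t s z w)
include H

theorem sd : SD a t := ⟨H.a8, H.ez ▸ H.z1, H.tt, H.ta⟩

theorem X0 (h12 : Nat.card (C1 t) = 12) : False := by
  have D := H.sd
  have nc : ¬ IsConj z t := fun e => by
    have := card_dvd_of_le D.leC
    rw [D.card, ← H.ez, card_C1_conj e, h12] at this
    omega
  have hS : SylIn 2 D.S ⊤ := by
    refine sylIn_of_norm D.pg fun P hP hle n hn hN => ?_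
    have h1 : n * t * n⁻¹ ∈ D.S := (mem_normalizer_iff.1 hN t).1 D.tS
    rcases D.inv h1 (sq_conj H.tt n) with e | e | ⟨c, hc, e⟩
    · exact absurd (cj1 (c := n⁻¹) (by simpa using e)) H.t1
    · exact absurd (isConj_iff.2 ⟨n, e.trans H.ez.symm⟩).symm nc
    · have hcS : c ∈ D.S := le_Ext hc
      obtain ⟨V, hV, hzV, htV, hVle⟩ := four_card H.zz H.tt H.z1 H.tz H.t1 H.zt
      have hzS : z ∈ D.S := H.ez ▸ pow_mem D.aS 4
      have h2 : P ⊓ C1 t ≤ V := eq_of_two (k := 2) (hP.to_le inf_le_left)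
        (hVle _ ⟨hle hzS, mem_C1.2 H.tz.symm⟩ ⟨hle D.tS, mem_C1.2 rfl⟩) inf_le_right hV
        (by rw [h12]; norm_num)
      have h3 : c⁻¹ * n ∈ P ⊓ C1 t := ⟨P.mul_mem (P.inv_mem (hle hcS)) hn, mem_C1.2 (by
        calc c⁻¹ * n * t = c⁻¹ * (n * t * n⁻¹) * n := by group
          _ = _ := by rw [e]; group)⟩
      have := D.S.mul_mem hcS (hVle _ hzS D.tS (h2 h3))
      rwa [mul_inv_cancel_left] at this
  obtain ⟨x, hx⟩ := thompson_transfer' hS le_Ext D.idx H.simp H.tt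
  obtain ⟨i, hi⟩ := D.nat hx
  rcases D.inv_a (hi ▸ sq_conj H.tt x) with e | e
  · exact H.t1 (cj1 (c := x⁻¹) (by simpa using hi.trans e))
  · exact nc (isConj_iff.2 ⟨x, (hi.trans e).trans H.ez.symm⟩).symm

end Cf

end CfsgM11
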