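import Cfsg.Agent.H4.MX1

set_option autoImplicit false
set_option linter.unusedSectionVars false

/-! S3717: the exit `XS`. -/

namespace CfsgM11

open Subgroup CfsgH5 CfsgH6 CfsgFT

variable {G : Type*} [Group G] [Finite G]

namespace SD
variable {b r e : G} (D : SD b r) (e2 : e * e = 1) (eb : e * b * e = b ^ 5) (er : e * r = r * e)
include D e2 eb

theorem ean (n : ℕ) : e * b ^ n * e = b ^ (5 * n) := by
  have := conj_pow (a := e) (b := b) (i := n)
  rw [inv_of_sq e2, eb] at this
  rw [← this, pow_mul]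

theorem ean' (n : ℕ) : e * b ^ n = b ^ (5 * n) * e := by
  rw [← D.ean e2 eb, mul_assoc, mul_assoc, e2, mul_one]

include er

theorem hn2 : ∀ x ∈ D.S, e * x * e ∈ D.S := fun x hx => by
  obtain ⟨i, rfl | rfl⟩ := D.cases hx
  · rw [D.ean e2 eb]; exact pow_mem D.aS _
  · rw [← mul_assoc, mul_assoc _ r, ← er, ← mul_assoc, D.ean e2 eb]
    exact mul_mem (pow_mem D.aS _) D.tS

/-- the group of order 32 -/
def S2 : Subgroup G := Ext D.S e e2 (D.hn2 e2 eb er)

theorem en : e ∉ D.S := fun h => by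
  have h1 := D.ean' e2 eb 1
  obtain ⟨i, hi | hi⟩ := D.cases h
  · rw [hi, ← pow_add, ← pow_add, D.inj] at h1
    omega
  · rw [hi, mul_assoc, D.tan', ← mul_assoc, ← mul_assoc, ← pow_add, ← pow_add, mul_left_inj,
      D.inj] at h1
    omega

theorem card2 : Nat.card (D.S2 e2 eb er) = 32 := by
  rw [S2, Ext_card (D.en e2 eb er), D.card]

theorem cases2 {x : G} (h : x ∈ D.S2 e2 eb er) :
    ∃ i : ℕ, x = b ^ i ∨ x = b ^ i * r ∨ x = b ^ i * e ∨ x = b ^ i * r * e := by
  obtain ⟨y, hy, h⟩ := Ext_cases h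
  obtain ⟨i, rfl | rfl⟩ := D.cases hy
  · rcases h with h | h
    exacts [⟨i, Or.inl h⟩, ⟨i, Or.inr (Or.inr (Or.inl h))⟩]
  · rcases h with h | h
    exacts [⟨i, Or.inr (Or.inl h)⟩, ⟨i, Or.inr (Or.inr (Or.inr h))⟩]

theorem ez : e * b ^ 4 = b ^ 4 * e := by
  rw [D.ean' e2 eb]; congr 1; rw [D.inj]

theorem le2C : D.S2 e2 eb er ≤ C1 (b ^ 4) := Ext_le D.leC (mem_C1.2 (D.ez e2 eb er))

theorem ecomm {x : G} (h : x ∈ D.S2 e2 eb er) : e * x = x * e ∨ e * x = b ^ 4 * x * e := by
  obtain ⟨i, h⟩ := D.cases2 e2 eb er h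
  have k : e * b ^ i = b ^ i * e ∨ e * b ^ i = b ^ 4 * b ^ i * e := by
    rw [D.ean' e2 eb, ← pow_add, mul_left_inj, mul_left_inj, D.inj, D.inj]
    obtain ⟨m, rfl | rfl⟩ := Nat.even_or_odd' i
    · left; omega
    · right; omega
  rcases h with rfl | rfl | rfl | rfl
  · exact k
  · refine k.imp (fun k => ?_) fun k => ?_ <;> rw [← mul_assoc, k] <;> simp only [mul_assoc, er]
  · refine k.imp (fun k => ?_) fun k => ?_ <;> rw [← mul_assoc, k] <;> simp only [mul_assoc]
  · refine k.imp (fun k => ?_) fun k => ?_ <;> rw [← mul_assoc, ← mul_assoc, k] <;>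
      simp only [mul_assoc, er]

theorem U {u : G} (h : u ∈ D.S2 e2 eb er) (u2 : u * u = 1)
    (h1 : u * b = b * u ∨ u * b = b ^ 4 * b * u) (h2 : u * r = r * u ∨ u * r = b ^ 4 * r * u) :
    u = 1 ∨ u = b ^ 4 ∨ u = e ∨ u = b ^ 4 * e := by
  have t1 := D.tan' 1
  have e1 := D.ean' e2 eb 1
  rw [pow_one] at t1 e1
  obtain ⟨i, rfl | rfl | rfl | rfl⟩ := D.cases2 e2 eb er h
  · rcases D.inv_a u2 with e | e
    exacts [Or.inl e, Or.inr (Or.inl e)]
  · exfalso
    rw [mul_assoc, t1, ← mul_assoc, ← mul_assoc, ← mul_assoc, mul_left_inj, mul_left_inj,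
      ← pow_add, ← pow_succ, ← pow_succ', ← pow_add, D.inj, D.inj] at h1
    omega
  · right; right
    rw [mul_assoc, ← mul_assoc e, D.ean e2 eb, ← pow_add, ← pow_zero b, D.inj] at u2
    have : b ^ i = b ^ 0 ∨ b ^ i = b ^ 4 := by rw [D.inj, D.inj]; omega
    rcases this with k | k <;> rw [k]
    · left; simp
    · right; rfl
  · exfalso
    have : b ^ i * r * e * b = b ^ (i + 15) * (r * e) := by
      rw [mul_assoc, e1, ← mul_assoc, mul_assoc _ r, D.tan', pow_add]; simp only [mul_assoc]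
    rw [this, mul_assoc (b ^ i), ← mul_assoc b, ← mul_assoc _ (b ^ i), mul_left_inj, mul_left_inj,
      ← pow_succ, ← pow_succ', ← pow_add, D.inj, D.inj] at h1
    omega

end SD

namespace Cf

variable {M : Subgroup G} {g h a t s z w : G} (H : Cf M g h a t s z w)
include H

theorem XS {e : G} (h48 : Nat.card (C1 t) = 48) (e2 : e * e = 1) (het : IsConj e t)
    (et : e * t = t * e) (es : e * s = s * e) (ew : e * w = w * e) (ez : e ≠ z)
    (hV : ∀ y, y * s = s * y → y * t = t * y →
      ∃ v, (v = 1 ∨ v = s ∨ v = t ∨ v = z) ∧ (y = v ∨ y = e * v))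
    (hte : IsConj (t * e) z) : False := by
  have D := H.sd
  have e1 : e ≠ 1 := fun k => H.t1 (by rw [k] at het; exact isConj_one_right.1 het)
  have cz : e * z = z * e := by rw [← H.st, ← mul_assoc, es, mul_assoc, et, mul_assoc]
  have ca2 : e * a ^ 2 = a ^ 2 * e := by
    have : a ^ 2 = w * t := by rw [H.ew, mul_assoc, H.tt, mul_one]
    rw [this, ← mul_assoc, ew, mul_assoc, et, mul_assoc]
  have aw : a⁻¹ * w * a = s := by
    rw [H.es, H.ez, H.ew, show a⁻¹ * (a ^ 2 * t) * a = a ^ 2 * (a⁻¹ * t * a) by group, H.atw, H.ew]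
    group
  have az' : a⁻¹ * z * a = z := by rw [mul_assoc, ← H.az, inv_mul_cancel_left]
  have tr : ∀ {x y : G}, a⁻¹ * x * a = y → e * y = y * e →
      a * e * a⁻¹ * x = x * (a * e * a⁻¹) := fun {x y} k c => by
    calc a * e * a⁻¹ * x = a * (e * (a⁻¹ * x * a)) * a⁻¹ := by group
      _ = a * ((a⁻¹ * x * a) * e) * a⁻¹ := by rw [k, c]
      _ = _ := by group
  have yt := tr H.atw ew
  have yz := tr az' cz
  have yw := tr aw es
  have ys : a * e * a⁻¹ * s = s * (a * e * a⁻¹) := by
    rw [H.es, ← mul_assoc, yz, mul_assoc, yt, ← mul_assoc]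
  have ws : ¬ s * w = w * s := fun k => H.sNt (by rw [← H.wsw, ← k, mul_assoc, H.ww, mul_one])
  have wt : ¬ t * w = w * t := fun k => H.sNt (by rw [← H.wtw, ← k, mul_assoc, H.ww, mul_one])
  have hC : Nat.card (C1 e) = 48 := by rw [card_C1_conj het, h48]
  have aea : a * e * a⁻¹ = e * z := by
    obtain ⟨v, hv, k | k⟩ := hV _ ys yt
    · exfalso
      rw [k] at yw
      rcases hv with rfl | rfl | rfl | rfl
      · exact e1 (cj1 (c := a⁻¹) (by simpa using k))
      · exact ws yw
      · exact wt yw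
      · exact ez (by rw [← az', ← k]; group)
    · rw [k, mul_assoc, ← mul_assoc w, ← ew, mul_assoc, mul_right_inj] at yw
      rcases hv with rfl | rfl | rfl | rfl
      · exfalso
        rw [mul_one, mul_inv_eq_iff_eq_mul] at k
        have hn : ∀ x ∈ D.S, e * x * e ∈ D.S := fun x hx => by
          rw [← mem_C1.1 (D.le (B := C1 e) (mem_C1.2 k) (mem_C1.2 et.symm) hx), mul_assoc, e2,
            mul_one]
          exact hx
        have hne : e ∉ D.S := fun hh => by
          obtain ⟨i, hi | hi⟩ := D.cases hh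
          · rcases D.inv_a (hi ▸ e2) with k | k
            · exact e1 (hi.trans k)
            · exact ez (hi.trans (k.trans H.ez.symm))
          · have t1 := D.tan' 1
            rw [pow_one] at t1
            rw [hi, mul_assoc, t1, ← mul_assoc, ← mul_assoc, mul_left_inj, ← pow_succ', ← pow_add,
              D.inj] at k
            omega
        have := card_dvd_of_le (Ext_le (e2 := e2) (hn := hn) (B := C1 e)
          (D.le (mem_C1.2 k) (mem_C1.2 et.symm)) (mem_C1.2 rfl))
        rw [Ext_card hne, D.card, hC] at this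
        omega
      · exact absurd yw ws
      · exact absurd yw wt
      · exact k
  have ae : a * e = e * z * a := by rw [← aea]; group
  have eae : e * a * e = a ^ 5 := by
    rw [mul_assoc, ae, ← mul_assoc, ← mul_assoc, e2, one_mul, H.ez, ← pow_succ]
  have b2 : (a * e) ^ 2 = a ^ 6 := by
    rw [pow_two, mul_assoc, ← mul_assoc e, eae, ← pow_succ']
  have b4 : (a * e) ^ 4 = z := by
    rw [show 4 = 2 * 2 from rfl, pow_mul, b2, ← pow_mul, H.ez, D.inj]
  have r2 : t * e * (t * e) = 1 := by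
    rw [mul_assoc, ← mul_assoc e, et, mul_assoc, e2, mul_one, H.tt]
  have D' : SD (a * e) (t * e) := ⟨by rw [show 8 = 4 + 4 from rfl, pow_add, b4, H.zz],
    b4 ▸ H.z1, r2, by
      rw [pow_succ, b2, show t * e * (a * e) * (t * e) = t * (e * a * e) * t * e by group, eae,
        D.tan, ← mul_assoc, ← pow_succ]
      congr 1
      rw [D.inj]⟩
  have eb : e * (a * e) * e = (a * e) ^ 5 := by
    rw [pow_succ, b4, ← mul_assoc, eae, H.ez, ← mul_assoc, ← pow_succ]
  have er : e * (t * e) = t * e * e := by rw [← mul_assoc, et]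
  set S := D'.S2 e2 eb er with hSd
  have pg : IsPGroup 2 S := IsPGroup.of_card (n := 5) (D'.card2 e2 eb er)
  have nc : ¬ IsConj z t := fun k => by
    have := card_dvd_of_le (D'.le2C e2 eb er)
    rw [D'.card2, b4, card_C1_conj k, h48] at this
    omega
  have bS : a * e ∈ S := le_Ext D'.aS
  have rS : t * e ∈ S := le_Ext D'.tS
  have eS : e ∈ S := self_Ext
  have zS : z ∈ S := b4 ▸ pow_mem bS 4
  have hS : SylIn 2 S ⊤ := by
    refine sylIn_of_norm pg fun P hP hle n hn hN => ?_
    have cj : ∀ x ∈ S, n * x * n⁻¹ ∈ S := fun x hx => (mem_normalizer_iff.1 hN x).1 hx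
    have cj' : ∀ x ∈ S, n⁻¹ * x * n ∈ S := fun x hx => (mem_normalizer_iff''.1 hN x).1 hx
    have nb : ¬ e * (a * e) = a * e * e := fun k => by
      have := D'.ean' e2 eb 1
      rw [pow_one, k, mul_left_inj] at this
      have h2 := D'.inj (i := 1) (j := 5 * 1)
      rw [pow_one] at h2
      have := h2.1 this
      omega
    have hz : n * z * n⁻¹ = z := by
      have c : ∀ x ∈ S, n * z * n⁻¹ * x = x * (n * z * n⁻¹) := fun x hx => by
        have := mem_C1.1 (D'.le2C e2 eb er (cj' x hx))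
        rw [b4] at this
        calc n * z * n⁻¹ * x = n * (z * (n⁻¹ * x * n)) * n⁻¹ := by group
          _ = _ := by rw [← this]; group
      rcases D'.U e2 eb er (cj z zS) (sq_conj H.zz n) (Or.inl (c _ bS)) (Or.inl (c _ rS))
        with k | k | k | k
      · exact absurd (cj1 (c := n⁻¹) (by simpa using k)) H.z1
      · rw [k, b4]
      · have := c _ bS
        rw [k] at this
        exact absurd this nb
      · exfalso
        have := c _ bS
        rw [k, ← mul_assoc (a * e) ((a * e) ^ 4), ← pow_succ', pow_succ (a * e) 4,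
          mul_assoc ((a * e) ^ 4), mul_assoc ((a * e) ^ 4), mul_right_inj] at this
        exact nb this
    have c : ∀ x ∈ S, n * e * n⁻¹ * x = x * (n * e * n⁻¹) ∨
        n * e * n⁻¹ * x = (a * e) ^ 4 * x * (n * e * n⁻¹) := fun x hx => by
      refine (D'.ecomm e2 eb er (cj' x hx)).imp (fun k => ?_) fun k => ?_
      · calc n * e * n⁻¹ * x = n * (e * (n⁻¹ * x * n)) * n⁻¹ := by group
          _ = _ := by rw [k]; group
      · rw [b4] at k ⊢
        calc n * e * n⁻¹ * x = n * (e * (n⁻¹ * x * n)) * n⁻¹ := by group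
          _ = (n * z * n⁻¹) * x * (n * e * n⁻¹) := by rw [k]; group
          _ = _ := by rw [hz]
    have hle' : P ⊓ C1 e ≤ S := by
      have h1 : S ⊓ C1 e ≤ P ⊓ C1 e := inf_le_inf_right _ hle
      have h2 : Nat.card (S ⊓ C1 e : Subgroup G) = 2 ^ 4 := by
        have h3 : (C1 e).relIndex S = 2 := by
          rw [relIndex_eq_two_iff]
          refine ⟨a * e, bS, fun x hx => ?_⟩
          have k0 : e * (a * e) = (a * e) ^ 4 * (a * e) * e := by
            rw [← pow_succ, ← eb, mul_assoc (e * _), e2, mul_one]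
          have zc : ∀ y ∈ S, y * (a * e) ^ 4 = (a * e) ^ 4 * y := fun y hy =>
            mem_C1.1 (D'.le2C e2 eb er hy)
          rcases D'.ecomm e2 eb er hx with k | k
          · refine Or.inr ⟨mem_C1.2 k.symm, fun k' => nb ?_⟩
            have := mem_C1.1 k'
            rw [← mul_assoc e x, k, mul_assoc, mul_assoc x e, mul_right_inj] at this
            exact this.symm
          · refine Or.inl ⟨mem_C1.2 ?_, fun k' => ?_⟩
            · rw [← mul_assoc e x, k, mul_assoc _ e, k0, ← zc x hx, b4]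
              simp only [mul_assoc, mul_sq_l H.zz]
            · rw [← mem_C1.1 k', mul_left_inj, right_eq_mul, b4] at k
              exact H.z1 k
        have h4 := index_mul_card ((C1 e).subgroupOf S)
        rw [show ((C1 e).subgroupOf S).index = 2 from h3, D'.card2, ← inf_subgroupOf_left,
          Nat.card_congr (subgroupOfEquivOfLe inf_le_left).toEquiv] at h4
        omega
      exact (eq_of_two (k := 4) (hP.to_le inf_le_left) h1 inf_le_right h2
        (by rw [hC]; norm_num)).trans inf_le_left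
    rcases D'.U e2 eb er (cj e eS) (sq_conj e2 n) (c _ bS) (c _ rS) with k | k | k | k
    · exact absurd (cj1 (c := n⁻¹) (by simpa using k)) e1
    · exact absurd ((isConj_iff.2 ⟨n, k.trans b4⟩).symm.trans het) nc
    · exact hle' ⟨hn, mem_C1.2 (mul_inv_eq_iff_eq_mul.1 k)⟩
    · have aS : a ∈ S := by simpa [mul_assoc, e2] using S.mul_mem bS eS
      have : a⁻¹ * n ∈ S := hle' ⟨P.mul_mem (P.inv_mem (hle aS)) hn, mem_C1.2 (by
        rw [b4, ← cz, ← aea] at k
        calc a⁻¹ * n * e = a⁻¹ * (n * e * n⁻¹) * n := by group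
          _ = _ := by rw [k]; group)⟩
      simpa using S.mul_mem aS this
  obtain ⟨x, hx⟩ := thompson_transfer' hS le_Ext (Ext_idx (D'.en e2 eb er)) H.simp H.tt
  rcases D'.inv hx (sq_conj H.tt x) with k | k | ⟨c, -, k⟩
  · exact H.t1 (cj1 (c := x⁻¹) (by simpa using k))
  · exact nc (isConj_iff.2 ⟨x, k.trans b4⟩).symm
  · exact nc (hte.symm.trans ((isConj_iff.2 ⟨c, k.symm⟩).trans (isConj_iff.2 ⟨x, rfl⟩).symm))

end Cf

end CfsgM11
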