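import Mathlib

set_option autoImplicit false
set_option linter.style.haveILetI false
set_option linter.unusedSectionVars false

namespace CfsgH4

/-- A faithful linear group over `F_p` with an abelian normal subgroup `T` acting irreducibly on
a space of order `p ^ d`: `T` is cyclic, generates the field of order `p ^ d`, and
`H / C_H(T)` embeds in the cyclic group of order `d`. -/
theorem singer_normalizer {H : Type*} [Group H] [Finite H] (p : ℕ) [hp : Fact p.Prime]
    {V : Type*} [AddCommGroup V] [Module (ZMod p) V] [Finite V] [Nontrivial V]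
    (ρ : H →* (V ≃ₗ[ZMod p] V)) (hρ : Function.Injective ρ) (T : Subgroup H) [hT : T.Normal]
    (hTc : ∀ x ∈ T, ∀ y ∈ T, x * y = y * x)
    (hirr : ∀ U : Submodule (ZMod p) V, (∀ t ∈ T, ∀ v ∈ U, ρ t v ∈ U) → U = ⊥ ∨ U = ⊤)
    {d : ℕ} (hd : Nat.card V = p ^ d) :
    IsCyclic T ∧ (∀ i, 0 < i → i < d → ¬ ∀ t ∈ T, t ^ (p ^ i) = t) ∧
      (∀ t ∈ T, t ^ (p ^ d - 1) = 1) ∧
      ∃ ψ : H →* Multiplicative (ZMod d), ψ.ker = Subgroup.centralizer (T : Set H) := by
  classical
  let σ : H →* Module.End (ZMod p) V :=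
    { toFun := fun h => (ρ h : V →ₗ[ZMod p] V)
      map_one' := by rw [map_one]; rfl
      map_mul' := fun a b => by rw [map_mul]; rfl }
  have hσ : ∀ h v, σ h v = ρ h v := fun _ _ => rfl
  have hσinj : Function.Injective σ := by
    intro a b hab
    apply hρ
    ext v
    rw [← hσ, ← hσ, hab]
  let s : Set (Module.End (ZMod p) V) := σ '' T
  let K : Subalgebra (ZMod p) (Module.End (ZMod p) V) := Algebra.adjoin (ZMod p) s
  have hKc : IsMulCommutative K := Algebra.isMulCommutative_adjoin (ZMod p) (by
    rintro _ ⟨x, hx, rfl⟩ _ ⟨y, hy, rfl⟩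
    rw [← map_mul, ← map_mul, hTc x hx y hy])
  have hmem : ∀ t ∈ T, σ t ∈ K := fun t ht => Algebra.subset_adjoin ⟨t, ht, rfl⟩
  have hcomm : ∀ a ∈ K, ∀ b ∈ K, a * b = b * a :=
    fun a ha b hb => congrArg Subtype.val (mul_comm' (⟨a, ha⟩ : K) ⟨b, hb⟩)
  have hinj : ∀ k ∈ K, ∀ v, k v = 0 → v ≠ 0 → k = 0 := by
    intro k hk v hv hv0
    rcases hirr (LinearMap.ker k) (by
      intro t ht w hw
      rw [LinearMap.mem_ker] at hw ⊢
      rw [← hσ, ← Module.End.mul_apply, hcomm k hk _ (hmem t ht), Module.End.mul_apply, hw,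
        map_zero]) with h | h
    · exfalso
      have : v ∈ LinearMap.ker k := hv
      rw [h] at this
      exact hv0 this
    · exact LinearMap.ker_eq_top.1 h
  haveI : Finite (Module.End (ZMod p) V) :=
    Finite.of_injective (fun f : Module.End (ZMod p) V => (f : V → V)) DFunLike.coe_injective
  letI : CommRing K := { (inferInstance : Ring K) with mul_comm := mul_comm' }
  haveI : NoZeroDivisors K := ⟨fun {a b} hab => by
    by_cases hb : b = 0
    · exact Or.inr hb
    left
    obtain ⟨v, hv⟩ : ∃ v, (b : Module.End (ZMod p) V) v ≠ 0 := by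
      by_contra h
      push Not at h
      exact hb (Subtype.ext (LinearMap.ext h))
    refine Subtype.ext (hinj a a.2 _ ?_ hv)
    have := congrArg (fun f : K => (f : Module.End (ZMod p) V) v) hab
    exact this⟩
  haveI : IsDomain K := NoZeroDivisors.to_isDomain K
  letI : Field K := (Finite.isField_of_domain K).toField
  letI : Fintype K := Fintype.ofFinite K
  obtain ⟨v₀, hv₀⟩ := exists_ne (0 : V)
  have hcardK : Nat.card K = p ^ d := by
    rw [← hd]
    apply Nat.card_congr
    refine Equiv.ofBijective (fun k => (k : Module.End (ZMod p) V) v₀) ⟨?_, ?_⟩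
    · intro a b hab
      have := hinj _ (K.sub_mem a.2 b.2) v₀ (by
        rw [LinearMap.sub_apply, sub_eq_zero]; exact hab) hv₀
      exact Subtype.ext (sub_eq_zero.1 this)
    · let U : Submodule (ZMod p) V :=
        { carrier := {v | ∃ k ∈ K, k v₀ = v}
          add_mem' := by
            rintro _ _ ⟨a, ha, rfl⟩ ⟨b, hb, rfl⟩
            exact ⟨a + b, K.add_mem ha hb, rfl⟩
          zero_mem' := ⟨0, K.zero_mem, rfl⟩
          smul_mem' := by
            rintro c _ ⟨a, ha, rfl⟩
            exact ⟨c • a, K.smul_mem ha c, rfl⟩ }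
      rcases hirr U (by
        rintro t ht _ ⟨k, hk, rfl⟩
        exact ⟨σ t * k, K.mul_mem (hmem t ht) hk, rfl⟩) with h | h
      · exfalso
        have : v₀ ∈ U := ⟨1, K.one_mem, rfl⟩
        rw [h] at this
        exact hv₀ this
      · intro v
        have : v ∈ U := h ▸ Submodule.mem_top
        obtain ⟨k, hk, hkv⟩ := this
        exact ⟨⟨k, hk⟩, hkv⟩
  have hfin : Module.finrank (ZMod p) K = d := by
    have := FiniteField.pow_finrank_eq_natCard p K
    rw [hcardK] at this
    exact Nat.pow_right_injective hp.out.two_le this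
  let τ : T →* K :=
    { toFun := fun t => ⟨σ t, hmem t t.2⟩
      map_one' := Subtype.ext (map_one σ)
      map_mul' := fun a b => Subtype.ext (map_mul σ _ _) }
  have hτinj : Function.Injective τ :=
    fun a b hab => Subtype.ext (hσinj (congrArg Subtype.val hab))
  have hext : ∀ f g : K →ₐ[ZMod p] K, (∀ t : T, f (τ t) = g (τ t)) → f = g := by
    intro f g hfg
    have : K.val.comp f = K.val.comp g := by
      apply AlgHom.ext_of_eq_adjoin (s := s) rfl
      rintro _ ⟨t, ht, rfl⟩
      exact congrArg Subtype.val (hfg ⟨t, ht⟩)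
    ext x
    exact congrArg (fun φ : K →ₐ[ZMod p] Module.End (ZMod p) V => φ x _) this
  refine ⟨isCyclic_of_injective_ringHom τ hτinj, ?_, ?_, ?_⟩
  · intro i hi hid hall
    have h1 : FiniteField.frobeniusAlgHom (ZMod p) K ^ i = 1 := by
      apply hext
      intro t
      rw [AlgHom.coe_pow, FiniteField.coe_frobeniusAlgHom, pow_iterate, ZMod.card, AlgHom.one_apply]
      show τ t ^ p ^ i = τ t
      rw [← map_pow]
      exact congrArg τ (Subtype.ext (hall t t.2))
    have h2 := orderOf_dvd_of_pow_eq_one h1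
    rw [FiniteField.orderOf_frobeniusAlgHom, hfin] at h2
    exact absurd (Nat.le_of_dvd hi h2) (not_le.2 hid)
  · intro t ht
    have h0 : τ ⟨t, ht⟩ ≠ 0 := ((Group.isUnit _).map τ).ne_zero
    have h1 := FiniteField.pow_card_sub_one_eq_one _ h0
    rw [← Nat.card_eq_fintype_card, hcardK, ← map_pow, ← map_one τ] at h1
    exact congrArg Subtype.val (hτinj h1)
  · have hconj : ∀ h : H, ∀ k ∈ K, σ h * k * σ h⁻¹ ∈ K := by
      intro h k hk
      induction hk using Algebra.adjoin_induction with
      | mem x hx =>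
        obtain ⟨t, ht, rfl⟩ := hx
        rw [← map_mul, ← map_mul]
        exact hmem _ (hT.conj_mem t ht h)
      | algebraMap r =>
        rw [← Algebra.commutes, mul_assoc, ← map_mul, mul_inv_cancel, map_one, mul_one]
        exact K.algebraMap_mem r
      | add x y _ _ hx hy =>
        rw [mul_add, add_mul]; exact K.add_mem hx hy
      | mul x y _ _ hx hy =>
        have : σ h * (x * y) * σ h⁻¹ = (σ h * x * σ h⁻¹) * (σ h * y * σ h⁻¹) := by
          simp only [mul_assoc]
          rw [← mul_assoc (σ h⁻¹), ← map_mul, inv_mul_cancel, map_one, one_mul]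
        rw [this]; exact K.mul_mem hx hy
    have hcancel : ∀ h : H, σ h⁻¹ * σ h = 1 := fun h => by
      rw [← map_mul, inv_mul_cancel, map_one]
    have hcancel' : ∀ h : H, σ h * σ h⁻¹ = 1 := fun h => by
      rw [← map_mul, mul_inv_cancel, map_one]
    let c : H → (K →ₐ[ZMod p] K) := fun h =>
      { toFun := fun k => ⟨σ h * k * σ h⁻¹, hconj h k k.2⟩
        map_one' := Subtype.ext (by
          show σ h * 1 * σ h⁻¹ = 1
          rw [mul_one, hcancel'])
        map_mul' := fun x y => Subtype.ext (by
          show σ h * (x * y) * σ h⁻¹ = (σ h * x * σ h⁻¹) * (σ h * y * σ h⁻¹)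
          simp only [mul_assoc]
          rw [← mul_assoc (σ h⁻¹), hcancel, one_mul])
        map_zero' := Subtype.ext (by
          show σ h * 0 * σ h⁻¹ = 0
          rw [mul_zero, zero_mul])
        map_add' := fun x y => Subtype.ext (by
          show σ h * (x + y) * σ h⁻¹ = (σ h * x * σ h⁻¹) + (σ h * y * σ h⁻¹)
          rw [mul_add, add_mul])
        commutes' := fun r => Subtype.ext (by
          show σ h * (algebraMap (ZMod p) _ r) * σ h⁻¹ = algebraMap (ZMod p) _ r
          rw [← Algebra.commutes, mul_assoc, hcancel', mul_one]) }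
    have hc : ∀ h (k : K), ((c h k : K) : Module.End (ZMod p) V) = σ h * k * σ h⁻¹ :=
      fun _ _ => rfl
    let C : H →* (K →ₐ[ZMod p] K) :=
      { toFun := c
        map_one' := by
          apply AlgHom.ext
          intro k
          apply Subtype.ext
          rw [hc, inv_one, map_one, one_mul, mul_one]; rfl
        map_mul' := fun a b => by
          apply AlgHom.ext
          intro k
          apply Subtype.ext
          rw [AlgHom.mul_apply, hc, hc, hc, mul_inv_rev, map_mul, map_mul]
          simp only [mul_assoc] }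
    haveI : Module.Finite (ZMod p) K := Module.Finite.of_finite
    let e := Algebra.IsAlgebraic.algEquivEquivAlgHom (ZMod p) K
    have hcardGal : Nat.card (K ≃ₐ[ZMod p] K) = d := by
      rw [← hfin, ← Nat.card_eq_of_bijective _
        (FiniteField.bijective_frobeniusAlgEquivOfAlgebraic_pow (ZMod p) K)]
      simp
    let z : Multiplicative (ZMod (Nat.card (K ≃ₐ[ZMod p] K))) ≃* (K ≃ₐ[ZMod p] K) :=
      zmodCyclicMulEquiv inferInstance
    rw [hcardGal] at z
    refine ⟨z.symm.toMonoidHom.comp (e.symm.toMonoidHom.comp C), ?_⟩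
    ext h
    rw [MonoidHom.mem_ker, MonoidHom.comp_apply, MonoidHom.comp_apply, MulEquiv.coe_toMonoidHom,
      MulEquiv.coe_toMonoidHom, map_eq_one_iff _ z.symm.injective,
      map_eq_one_iff _ e.symm.injective, Subgroup.mem_centralizer_iff]
    constructor
    · intro h1 t ht
      have h2 : ((c h (τ ⟨t, ht⟩) : K) : Module.End (ZMod p) V) = σ t :=
        congrArg (fun f : K →ₐ[ZMod p] K => ((f (τ ⟨t, ht⟩) : K) : Module.End (ZMod p) V)) h1
      rw [hc] at h2
      have h3 : σ (h * t * h⁻¹) = σ t := by rw [map_mul, map_mul]; exact h2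
      rw [← mul_inv_eq_iff_eq_mul.1 (hσinj h3)]
    · intro h1
      apply hext
      intro t
      apply Subtype.ext
      show σ h * σ t * σ h⁻¹ = σ t
      rw [← map_mul, ← map_mul, ← h1 t t.2, mul_inv_cancel_right]

end CfsgH4
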