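import Cfsg.Agent.H9.SE2

set_option autoImplicit false

/-! A normal complement to a Hall subgroup of a solvable group. -/

namespace CfsgSE

open Subgroup CfsgH5 CfsgH6 CfsgFT CfsgSZ

universe u

variable {G : Type u} [Group G] [Finite G]

theorem inf_C_Opi_le {π : Set ℕ} {M : Subgroup G} (hs : Group.IsSolvable M)
    (h : Opi πᶜ M = ⊥) : M ⊓ C (Opi π M) ≤ Opi π M := by
  have a : Fit M ≤ Opi π M := Fit_le_of_Op_le fun q hq => by
    by_cases e : q ∈ π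
    · exact Op_le_Opi hq e M
    · exact (Op_le_Opi hq (show q ∈ πᶜ from e) M).trans (h.le.trans bot_le)
  exact ((inf_le_inf_left _ (C_anti a)).trans (inf_C_Fit_le hs)).trans a

/-- Hall-Higman 1.2.3. -/
theorem hall_higman {π : Set ℕ} {M F : Subgroup G} (hs : Group.IsSolvable M)
    (h : Hall π F (Opi2 πᶜ π M)) : M ⊓ C F ≤ Opi2 πᶜ π M := by
  have n : Nrm (Opi2 πᶜ π M) (Opi πᶜ M) := (nrm_Opi _ _).mono (Opi2_le _ _ _)
  have e : quo (Opi πᶜ M) F = Opi π (quo (Opi πᶜ M) M) := by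
    have := h.quo n
    rw [quo_Opi2_self] at this
    exact this.eq_self (piG_Opi _ _)
  have e2 : Opi2 πᶜ π M = coq (Opi πᶜ M) (Opi π (quo (Opi πᶜ M) M)) := rfl
  rw [e2, ← quo_le_iff ((nrm_Opi _ _).mono inf_le_left)]
  refine (img_inf_C_le _ _ _).trans ?_
  rw [show img (qm (Opi πᶜ M)) F = _ from e]
  exact inf_C_Opi_le (solvable_quo _ hs) (Opi_quo_Opi _ _)

theorem hall_compl {X E : Subgroup G} (hs : Group.IsSolvable X) (hE : E ≤ X)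
    (ha : (Nat.card E).Coprime (E.relIndex X))
    (hb : ∀ Y ≤ E, Y ≠ ⊥ → ∀ g ∈ X, cj g Y ≤ E → ∃ c ∈ X ⊓ C Y, ∃ e ∈ E, g = c * e ∨ g = e * c) :
    ∃ Q, Q ≤ X ∧ (∀ A, Nrm A X → Nrm A E → Nrm A Q) ∧ Q ⊓ E = ⊥ ∧ Q ⊔ E = X ∧
      (∀ T ≤ X, (Nat.card T).Coprime (Nat.card E) → T ≤ Q) := by
  have hH : Hall (piG E) E X := IsHall.hall ⟨hE, ha⟩
  generalize piG E = π at hH
  have nM := normalIn_Opi2 πᶜ π X
  have h0 : Hall π (E ⊓ Opi2 πᶜ π X) (Opi2 πᶜ π X) := hH.inf_nrm nM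
  have hQ : Hall πᶜ (Opi πᶜ X) (Opi2 πᶜ π X) :=
    ⟨Opi_le_Opi2 _ _ _, piG_Opi _ _, piN_compl_compl.2 (piN_relIndex_Opi2 _ _ _)⟩
  have e1 : E ⊓ Opi2 πᶜ π X ⊔ Opi πᶜ X = Opi2 πᶜ π X := h0.sup_compl hQ
  have hh := hall_higman hs h0
  have MQ : Opi2 πᶜ π X ≤ Opi πᶜ X ⊔ E :=
    e1.symm.le.trans (sup_le (inf_le_left.trans le_sup_right) le_sup_left)
  have sup : Opi πᶜ X ⊔ E = X := by
    refine le_antisymm (sup_le (Opi_le _ _) hE) ?_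
    by_cases e : E ⊓ Opi2 πᶜ π X = ⊥
    · rw [e, C_bot, inf_top_eq] at hh
      exact hh.trans MQ
    have fr := h0.frattini_arg (solvable_of_le hs nM.le) nM
    refine fr.symm.le.trans (sup_le MQ fun g hg => ?_)
    obtain ⟨c, hc, x, hx, f⟩ := hb _ inf_le_left e g hg.1 (by rw [mem_N.1 hg.2]; exact inf_le_left)
    rcases f with rfl | rfl
    · exact mul_mem (MQ (hh hc)) (mem_sup_right hx)
    · exact mul_mem (mem_sup_right hx) (MQ (hh hc))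
  have inf : Opi πᶜ X ⊓ E = ⊥ := inf_eq_bot_of_coprime' (PiN.coprime hH.piG (piG_Opi _ _)).symm
  have sdp : SDP (Opi πᶜ X) E X := ⟨(nrm_Opi _ _).mono hE, inf, sup⟩
  refine ⟨Opi πᶜ X, Opi_le _ _, fun A a _ => a.Opi _, inf, sup, fun T t1 t2 => ?_⟩
  exact le_of_coprime_relIndex t1 (nrm_Opi _ _) (by rwa [sdp.relIndex_left])

end CfsgSE
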