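import Cfsg.Agent.H6.VC0

set_option autoImplicit false
set_option linter.unusedSectionVars false

/-! V-case: the faithful action of a subgroup on the points of its involutions. -/

namespace CfsgSE

open Subgroup CfsgH5 CfsgH6 CfsgFT CfsgSZ CfsgSZ.PS

universe u

variable {G Ω : Type u} [Group G] [Finite G] [MulAction G Ω] {V : Ω → Subgroup G}
  {M : Subgroup G} {α β : Ω}

variable (Ω M) in
/-- the permutation group induced by `M` on the points of its involutions. -/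
abbrev PG : Type u := (MulAction.toPermHom M (Pts Ω M)).range

variable (Ω M) in
/-- the projection onto `PG`. -/
def pgHom : M →* PG Ω M := (MulAction.toPermHom M (Pts Ω M)).rangeRestrict

theorem pgHom_surj : Function.Surjective (pgHom Ω M) := MonoidHom.rangeRestrict_surjective _

theorem pgHom_smul (g : M) (a : Pts Ω M) : pgHom Ω M g • a = g • a := rfl

theorem pgHom_range : (pgHom Ω M).range = ⊤ := MonoidHom.range_eq_top.2 pgHom_surj

instance : Finite (PG Ω M) := Finite.of_surjective _ pgHom_surj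

theorem card_PG_le : Nat.card (PG Ω M) ≤ Nat.card M := Nat.card_le_card_of_surjective _ pgHom_surj

theorem PG_faith (g : PG Ω M) (h : ∀ a : Pts Ω M, g • a = a) : g = 1 :=
  Subtype.ext (Equiv.ext h)

theorem pg_lift (S : SE G Ω) {a b : Pts Ω M} (h : a ≠ b) {t : PG Ω M} (ht : Iv t) :
    ∃ s : M, Iv s ∧ pgHom Ω M s = t := by
  obtain ⟨x, rfl⟩ := pgHom_surj t
  have e : ∀ c : Pts Ω M, (x * x) • c = c := fun c => by
    rw [← pgHom_smul, map_mul, ht.sq, one_smul]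
  obtain ⟨n, hn⟩ := (S.sub M).odd_of_fix (e a) (e b) h
  have f : pgHom Ω M (x ^ (2 * n + 1)) = pgHom Ω M x := by
    rw [map_pow, pow_succ, pow_mul, sq, ht.sq, one_pow, one_mul]
  refine ⟨x ^ (2 * n + 1), ⟨?_, fun e => ht.ne (by rw [← f, e, map_one])⟩, f⟩
  rw [← Commute.mul_pow (Commute.refl x), ← hn, pow_orderOf_eq_one]

theorem pg_iv (S : SE G Ω) {a b : Pts Ω M} (h : a ≠ b) {s : M} (hs : Iv s) :
    Iv (pgHom Ω M s) :=
  ⟨by rw [← map_mul, hs.sq, map_one], fun e => h ((S.sub M).uniq s hs a b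
    (by rw [← pgHom_smul, e, one_smul]) (by rw [← pgHom_smul, e, one_smul]))⟩

theorem SE.pg (S : SE G Ω) {a b : Pts Ω M} (h : a ≠ b) : SE (PG Ω M) (Pts Ω M) where
  ex _ ht := by
    obtain ⟨s, hs, rfl⟩ := pg_lift S h ht
    exact (S.sub M).ex s hs
  uniq _ ht c d h1 h2 := by
    obtain ⟨s, hs, rfl⟩ := pg_lift S h ht
    exact (S.sub M).uniq s hs c d h1 h2
  ev c := let ⟨s, hs, e⟩ := (S.sub M).ev c; ⟨_, pg_iv S h hs, e⟩

theorem pg_C1_le (S : SE G Ω) {a b : Pts Ω M} (h : a ≠ b) {s : M} (hs : Iv s) :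
    C1 (pgHom Ω M s) ≤ img (pgHom Ω M) (C1 (s : G)) := fun x hx => by
  obtain ⟨x, rfl⟩ := pgHom_surj x
  have e : pgHom Ω M (x * s * x⁻¹ * s) = 1 := by
    rw [map_mul, map_mul, map_mul, map_inv, mem_C1_iff_conj.1 hx, ← map_mul, hs.sq, map_one]
  have e' : ∀ c : Pts Ω M, (x * s * x⁻¹ * s) • c = c := fun c => by
    rw [← pgHom_smul, e, one_smul]
  obtain ⟨c, c1, c2⟩ := pt_conj_of_inv' (pt_inv_comm hs.sq x) ((S.sub M).odd_of_fix (e' a) (e' b) h)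
  rw [mul_assoc, hs.sq, mul_one] at c2
  have c3 : pgHom Ω M c = 1 := by
    obtain ⟨i, rfl⟩ := c1
    simp only [map_zpow, e, one_zpow]
  have c4 : c⁻¹ * x * s * (c⁻¹ * x)⁻¹ = s := by
    calc _ = c⁻¹ * (x * s * x⁻¹) * c := by group
      _ = _ := by rw [c2]; group
  refine mem_img'.2 ⟨(c⁻¹ * x : M), mem_C1_iff_conj.2 (by exact_mod_cast c4), (c⁻¹ * x).2, ?_⟩
  change pgHom Ω M (c⁻¹ * x) = _
  rw [map_mul, map_inv, c3, inv_one, one_mul]

namespace VN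

variable (h : VN V)
include h

theorem mem_Pts_of (hα : V α ≤ M) : α ∈ Pts Ω M :=
  let ⟨s, a, b⟩ := h.exists_mem α; ⟨s, hα a, h.iv a b, h.le α a⟩

theorem mem_Pts_iff (hα : V α ≤ M) : β ∈ Pts Ω M ↔ β ∈ Orb M α := by
  obtain ⟨s, a, b⟩ := h.exists_mem α
  refine ⟨fun ⟨t, c, d, e⟩ => h.se.mem_Orb (h.iv a b) d (hα a) c (h.le α a) e, ?_⟩
  rintro ⟨g, hg, rfl⟩
  exact (Pts Ω M).smul_mem (⟨g, hg⟩ : M) (h.mem_Pts_of hα)

theorem V_le_of_Orb (hα : V α ≤ M) (hβ : β ∈ Orb M α) : V β ≤ M := by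
  obtain ⟨g, hg, rfl⟩ := hβ
  rw [← h.cjj, ← cj_self hg]
  exact cj_mono hα

theorem pg (hα : V α ≤ M) {a b : Pts Ω M} (hab : a ≠ b) :
    VN (fun c : Pts Ω M => img (pgHom Ω M) (V c)) where
  se := h.se.pg hab
  mem c s := by
    refine ⟨fun e => ?_, fun e => ?_⟩
    · obtain ⟨g, hg, hM, rfl⟩ := mem_img'.1 e
      refine ⟨by rw [← map_mul]; exact (congrArg _ (Subtype.ext (h.sq hg))).trans (map_one _), ?_⟩
      exact Subtype.ext (h.le c hg)
    · by_cases e1 : s = 1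
      · exact e1 ▸ one_mem _
      obtain ⟨t, ht, rfl⟩ := pg_lift h.se hab ⟨e.1, e1⟩
      exact mem_img_of_mem _ t.2 (h.mem_of (iv_coe.2 ht) (congrArg Subtype.val e.2))
  card c := by
    have l := h.V_le_of_Orb hα ((h.mem_Pts_iff hα).1 c.2)
    rw [card_img_of_inj l (eq_bot_iff.2 fun x hx => ?_)]
    · exact h.card c
    · by_contra e
      exact (pg_iv h.se hab (s := ⟨x, l hx.1⟩) (iv_coe.1 (h.iv hx.1 e))).ne (coe_mem_ker.2 hx.2)
  pts c := by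
    by_cases e : a = c
    · exact ⟨b, e ▸ hab.symm⟩
    · exact ⟨a, e⟩
  solv t ht := by
    obtain ⟨s, hs, rfl⟩ := pg_lift h.se hab ht
    exact solvable_of_le (solvable_img _ (h.solv _ (iv_coe.2 hs))) (pg_C1_le h.se hab hs)
  faith := PG_faith

/-- (QT) the induction hypothesis for a proper subgroup. -/
theorem exists_T (ih : ∀ (G' Ω' : Type u) [Group G'] [Finite G'] [MulAction G' Ω']
    (V' : Ω' → Subgroup G'), Nat.card G' < Nat.card G → VN V' → ∀ a : Ω', ∃ T : Subgroup G',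
      IsPGroup 2 T ∧ T ≤ St G' a ∧ ∀ b c : Ω', b ≠ a → c ≠ a → ∃ t ∈ T, t • b = c)
    (hM : M ≠ ⊤) (hα : V α ≤ M) (hβ : V β ≤ M) (hne : α ≠ β) :
    ∃ T ≤ M ⊓ St G α, IsPGroup 2 T ∧
      ∀ γ ∈ Orb M α, ∀ δ ∈ Orb M α, γ ≠ α → δ ≠ α → ∃ t ∈ T, t • γ = δ := by
  have hab : (⟨α, h.mem_Pts_of hα⟩ : Pts Ω M) ≠ ⟨β, h.mem_Pts_of hβ⟩ :=
    fun e => hne (congrArg Subtype.val e)
  have lt : Nat.card M < Nat.card G := by
    rw [← card_top (G := G)]; exact card_lt_of_lt (lt_top_iff_ne_top.2 hM)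
  obtain ⟨T, t1, t2, t3⟩ := ih _ _ _ (card_PG_le.trans_lt lt) (h.pg hα hab) ⟨α, h.mem_Pts_of hα⟩
  obtain ⟨T0, hT0⟩ := exists_sylIn 2 (pre (pgHom Ω M) T)
  have e := hT0.img Nat.prime_two (pgHom Ω M) (pre_le _ _)
  rw [img_pre_of_le (pgHom_range (Ω := Ω) (M := M) ▸ le_top)] at e
  have e' := e.eq_of_le le_rfl t1 e.le
  refine ⟨T0, fun x hx => ?_, hT0.isPGroup, fun γ hγ δ hδ a b => ?_⟩
  · obtain ⟨hx1, hx2⟩ := mem_pre.1 (hT0.le hx)
    exact ⟨hx1, congrArg Subtype.val (t2 hx2)⟩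
  · obtain ⟨t, ht, f⟩ := t3 ⟨γ, (h.mem_Pts_iff hα).2 hγ⟩ ⟨δ, (h.mem_Pts_iff hα).2 hδ⟩
      (fun e => a (congrArg Subtype.val e)) fun e => b (congrArg Subtype.val e)
    obtain ⟨g, hg, hM, rfl⟩ := mem_img'.1 (e'.le ht)
    exact ⟨g, hg, congrArg Subtype.val f⟩

end VN

end CfsgSE
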